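import Cfsg.Agent.H614.GLn.RSForm
import Cfsg.Agent.H614.Chars
import Cfsg.Agent.H577.GLB.StdLab
import Cfsg.Agent.S0148
import Cfsg.Agent.H421.GLn.Newt
import Cfsg.Agent.OddOrderCharacters.VChar
import Cfsg.Agent.LV.Cl.Em
import Cfsg.Agent.ODD.Hk.Par
import Cfsg.Agent.LieRecognition.CoxClass
import Cfsg.Agent.LV.Cl.Conj_m3
import Cfsg.Agent.MQ.Cb.Dbl
import Cfsg.Agent.H614.IndexTwo
import Cfsg.Agent.CharDeep.PowerDegrees
import Cfsg.Agent.Prune
set_option linter.all false
prune_inst 0x7fb6bdf90fa883ffdfff7e3faedcddf832800fffe6fff94bffe86bbfabdf232309e5638109e010fe9e97c01410a87803fb7eefffe86bdc7ffffd5ff41ffbee4fe5f7310951d48c340f300ff703f1778e6f3ffffffffffffffffffff7ffffffffffbff3feffff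
open scoped Cfsg.Agent.FastGrp

-- part: MO/W/Defs
section
/-!
# MO-W: the irreducible characters of the wreath products `K ≀ Perm ι`, the interface (helper18)

* `Wr K ι`, `mapW`, `dz`, `linW`, `sgW` : the wreath product (the same term as `MK.P.Wr`), functoriality, diagonal elements,
  linear characters, the sign;
* `Cyc σ`, `len`, `gp` : the cycles of a permutation (fixed points included), lengths, cycle products;
* `Enum κ` : `κ : I → K → ℂ` enumerates the irreducible characters of `K`;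
* `Lb m n t` : `t c` is the `β`-tuple of a partition, the sizes add up to `n`;
* `psi κ ε t` : the character with the label `t`; `ε c = -1` means that the partition `t c` is tensored with the sign;
* the boxes `WBij`, `WDeg`, `WMap`, `WTw`, `WCen`, `WPrim`, `WPrim2`.
-/

set_option autoImplicit false

namespace Cfsg.Agent.MO.W

open Cfsg Equiv Finset Cfsg.Agent.H614
open Cfsg.Agent.H577.GLB.Std (bsz)

/-- the wreath product -/
abbrev Wr (K ι : Type) [Group K] : Type := (ι → K) ⋊[mulAutArrow] Perm ι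

section wr

variable {K K' ι : Type} [Group K] [Group K']

theorem mul_left (v w : Wr K ι) (i : ι) : (v * w).left i = v.left i * w.left (v.right⁻¹ i) := rfl

theorem inv_left (v : Wr K ι) (i : ι) : (v⁻¹).left i = (v.left (v.right i))⁻¹ := rfl

instance finiteWr [Finite K] [Finite ι] : Finite (Wr K ι) :=
  Finite.of_equiv _ SemidirectProduct.equivProd.symm

/-- the diagonal element -/
def dz (ι : Type) (z : K) : Wr K ι := SemidirectProduct.inl fun _ => z

/-- functoriality -/
def mapW (ι : Type) (φ : K →* K') : Wr K ι →* Wr K' ι where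
  toFun w := ⟨fun i => φ (w.left i), w.right⟩
  map_one' := SemidirectProduct.ext (funext fun _ => map_one φ) rfl
  map_mul' _ _ := SemidirectProduct.ext (funext fun _ => map_mul φ _ _) rfl

theorem mapW_left (φ : K →* K') (w : Wr K ι) (i : ι) : (mapW ι φ w).left i = φ (w.left i) := rfl

theorem mapW_right (φ : K →* K') (w : Wr K ι) : (mapW ι φ w).right = w.right := rfl

/-- the product over all components of a homomorphism to a commutative group -/
def linW (ι : Type) [Fintype ι] {A : Type} [CommGroup A] (lam : K →* A) : Wr K ι →* A where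
  toFun w := ∏ i, lam (w.left i)
  map_one' := by simp only [_root_.SemidirectProduct.one_left, _root_.Pi.one_apply, _root_.map_one, _root_.Finset.prod_const_one]
  map_mul' v w := by
    simp only [mul_left, map_mul, Finset.prod_mul_distrib]
    rw [Equiv.prod_comp v.right⁻¹ (fun i => lam (w.left i))]

theorem linW_apply [Fintype ι] {A : Type} [CommGroup A] (lam : K →* A) (w : Wr K ι) :
    linW ι lam w = ∏ i, lam (w.left i) := rfl

/-- the sign of the permutation -/
def sgW (K ι : Type) [Group K] [Fintype ι] [DecidableEq ι] : Wr K ι →* ℤˣ :=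
  Perm.sign.comp SemidirectProduct.rightHom

theorem sgW_apply [Fintype ι] [DecidableEq ι] (w : Wr K ι) : sgW K ι w = Perm.sign w.right := rfl

/-- the cycles of a permutation, fixed points included -/
def Cyc (σ : Perm ι) : Type := Quotient (Perm.SameCycle.setoid σ)

instance finiteCyc [Finite ι] (σ : Perm ι) : Finite (Cyc σ) := Quotient.finite _

noncomputable instance fintypeCyc [Finite ι] (σ : Perm ι) : Fintype (Cyc σ) := Fintype.ofFinite _

noncomputable instance decEqCyc (σ : Perm ι) : DecidableEq (Cyc σ) := Classical.decEq _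

/-- a point of the cycle -/
noncomputable def pt {σ : Perm ι} (O : Cyc σ) : ι := Quotient.out O

/-- the length of the cycle -/
noncomputable def len {σ : Perm ι} (O : Cyc σ) : ℕ := Function.minimalPeriod σ (pt O)

/-- the cycle product -/
noncomputable def gp (x : Wr K ι) (O : Cyc x.right) : K := (x ^ len O).left (pt O)

end wr

section psi

variable {K K' ι I I' : Type} [Group K] [Group K'] {m : ℕ}

/-- the lengths of the members of colour `c` -/
def part {α : Type} [Fintype α] [DecidableEq I] (l : α → ℕ) (col : α → I) (c : I) : Multiset ℕ :=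
  (univ.filter fun a => col a = c).val.map l

/-- the sum over all colourings -/
noncomputable def EV {α : Type} [Fintype α] [DecidableEq α] [Fintype I] [DecidableEq I] (l : α → ℕ) (u : α → I → ℂ)
    (t : I → Fin m → ℕ) : ℂ :=
  ∑ col : α → I, (∏ a, u a (col a)) * ∏ c, (FM (part l col c) (t c) : ℂ)

/-- the class function with the label `t` -/
noncomputable def psi [Finite ι] [Fintype I] [DecidableEq I] (κ : I → K → ℂ) (ε : I → ℤˣ) (t : I → Fin m → ℕ)
    (x : Wr K ι) : ℂ :=
  EV (fun O : Cyc x.right => len O) (fun O c => (((ε c ^ (len O + 1) : ℤˣ) : ℤ) : ℂ) * κ c (gp x O)) t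

/-- an enumeration of the irreducible characters -/
structure Enum (κ : I → K → ℂ) : Prop where
  irr : ∀ c, IsIrrCharacter K (κ c)
  inj : Function.Injective κ
  surj : ∀ χ, IsIrrCharacter K χ → ∃ c, κ c = χ

/-- a label of size `n` -/
def Lb [Fintype I] (n : ℕ) (t : I → Fin m → ℕ) : Prop := (∀ c, StrictMono (t c)) ∧ ∑ c, bsz (t c) = n

end psi

/-- `f` is not divisible by `s` : some irreducible character has a multiplicity prime to `s` -/
def Prim (s : ℕ) (H : Type) [Group H] (f : H → ℂ) : Prop :=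
  ∀ [Fintype H], ∃ (β : H → ℂ) (n : ℕ), IsIrrCharacter H β ∧ classInner f β = n ∧ ¬ s ∣ n

/-- the labels classify the irreducible characters -/
def WBij : Prop :=
  ∀ (K ι I : Type) [Group K] [Finite K] [Fintype ι] [Fintype I] [DecidableEq I] (κ : I → K → ℂ) (ε : I → ℤˣ) (m : ℕ),
    Enum κ → Fintype.card ι ≤ m →
    Enum fun t : {t : I → Fin m → ℕ // Lb (Fintype.card ι) t} => (psi κ ε t.1 : Wr K ι → ℂ)

/-- the degrees -/
def WDeg : Prop :=
  ∀ (K ι I : Type) [Group K] [Fintype ι] [Fintype I] [DecidableEq I] (κ : I → K → ℂ) (ε : I → ℤˣ) (m : ℕ)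
    (t : I → Fin m → ℕ), Lb (Fintype.card ι) t →
    psi κ ε t (1 : Wr K ι) * ∏ c, ((bsz (t c)).factorial : ℂ) = ((Fintype.card ι).factorial : ℂ) *
      ∏ c, κ c 1 ^ bsz (t c) * (FM (Multiset.replicate (bsz (t c)) 1) (t c) : ℂ)

/-- homomorphisms of the base group, renaming of the colours -/
def WMap : Prop :=
  ∀ (K K' ι I I' : Type) [Group K] [Group K'] [Finite ι] [Fintype I] [DecidableEq I] [Fintype I'] [DecidableEq I']
    (κ : I → K → ℂ) (κ' : I' → K' → ℂ) (ε' : I' → ℤˣ) (m : ℕ) (t' : I' → Fin m → ℕ) (φ : K →* K') (e : I ≃ I'),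
    (∀ c g, κ' (e c) (φ g) = κ c g) → ∀ x : Wr K ι,
    psi κ' ε' t' (mapW ι φ x) = psi κ (fun c => ε' (e c)) (fun c => t' (e c)) x

/-- multiplication by a linear character, `δ = -1` : and by the sign -/
def WTw : Prop :=
  ∀ (K ι I : Type) [Group K] [Fintype ι] [DecidableEq ι] [Fintype I] [DecidableEq I] (κ : I → K → ℂ) (ε ε' : I → ℤˣ)
    (m : ℕ) (t' : I → Fin m → ℕ) (lam : K →* ℂˣ) (δ : ℤˣ) (e : I ≃ I),
    (∀ c g, κ (e c) g = κ c g * lam g) → (∀ c, ε' (e c) = δ * ε c) → ∀ x : Wr K ι,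
    psi κ ε' t' x = psi κ ε (fun c => t' (e c)) x * (linW ι lam x : ℂˣ) *
      (if δ = 1 then 1 else (((sgW K ι x : ℤˣ) : ℤ) : ℂ))

/-- central characters -/
def WCen : Prop :=
  ∀ (K ι I : Type) [Group K] [Finite ι] [Fintype I] [DecidableEq I] (κ : I → K → ℂ) (ε : I → ℤˣ) (m : ℕ)
    (t : I → Fin m → ℕ) (z : K) (ω : I → ℂ), z ∈ Subgroup.center K → (∀ c g, κ c (z * g) = ω c * κ c g) →
    ∀ x : Wr K ι, psi κ ε t (dz ι z * x) = (∏ c, ω c ^ bsz (t c)) * psi κ ε t x

/-- the restriction to `K' ≀ Perm ι` is not divisible by `s` -/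
def WPrim : Prop :=
  ∀ (K K' ι I : Type) [Group K] [Finite K] [Group K'] [Fintype K'] [Fintype ι] [Fintype I] [DecidableEq I]
    (κ : I → K → ℂ) (ε : I → ℤˣ) (m : ℕ) (t : I → Fin m → ℕ) (r : K' →* K) (s : ℕ), s.Prime →
    (∀ c, IsCharacter K (κ c)) → Lb (Fintype.card ι) t →
    (∀ c, ∃ β, IsIrrCharacter K' β ∧ classInner (fun g => κ c (r g)) β = 1) →
    Prim s (Wr K' ι) fun x => psi κ ε t (mapW ι r x)

/-- the restriction to the subgroup of index two of `K' ≀ Perm ι` given by `δ` and the sign is not divisible by `s` -/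
def WPrim2 : Prop :=
  ∀ (K K' ι I : Type) [Group K] [Finite K] [Group K'] [Fintype K'] [Fintype ι] [DecidableEq ι] [Fintype I]
    [DecidableEq I] (κ : I → K → ℂ) (ε : I → ℤˣ) (m : ℕ) (t : I → Fin m → ℕ) (r : K' →* K) (s : ℕ) (δ : K' →* ℤˣ)
    (z : K'), s.Prime → (∀ c, IsCharacter K (κ c)) → Lb (Fintype.card ι) t →
    (∀ c, ∃ β, IsIrrCharacter K' β ∧ classInner (fun g => κ c (r g)) β = 1) →
    z ∈ Subgroup.center K' → δ z = -1 → (∀ c, κ c (r z) = κ c 1 ∨ κ c (r z) = - κ c 1) → z * z = 1 →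
    Prim s (linW ι δ * sgW K' ι).ker fun x => psi κ ε t (mapW ι r (x : Wr K' ι))

end Cfsg.Agent.MO.W
end

-- part: MO/W/Cyc
section
/-!
# MO-W: cycles, cycle products, the normal form (helper18)

* `map_len` : the lengths of the cycles are the cycle type; `sign_eq` : the sign;
* `nf_left` : conjugation by an element of the base group concentrates the components in the base points of the cycles;
* `linW_eq`, `gp_mapW`, `gp_dz` : linear characters, functoriality, central elements;
* `sum_gp` : the cycle products are independent and equidistributed.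
-/

set_option autoImplicit false

namespace Cfsg.Agent.MO.W

open Cfsg Equiv Finset Cfsg.Agent.H614

section perm

variable {ι : Type}

/-- the cycle of a point -/
def cy (σ : Perm ι) (a : ι) : Cyc σ := Quotient.mk (Perm.SameCycle.setoid σ) a

theorem cy_pt {σ : Perm ι} (O : Cyc σ) : cy σ (pt O) = O := Quotient.out_eq O

theorem cy_eq_iff {σ : Perm ι} {a b : ι} : cy σ a = cy σ b ↔ σ.SameCycle a b :=
  Quotient.eq (r := Perm.SameCycle.setoid σ)

theorem same_pt (σ : Perm ι) (a : ι) : σ.SameCycle (pt (cy σ a)) a := cy_eq_iff.1 (cy_pt _)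

theorem cy_apply (σ : Perm ι) (a : ι) : cy σ (σ a) = cy σ a :=
  cy_eq_iff.2 (Perm.sameCycle_apply_left.2 (Perm.SameCycle.refl _ _))

theorem cy_inv (σ : Perm ι) (a : ι) : cy σ (σ⁻¹ a) = cy σ a := by
  rw [← cy_apply σ (σ⁻¹ a)]
  exact congrArg _ (σ.apply_symm_apply a)

theorem pt_injective (σ : Perm ι) : Function.Injective (pt : Cyc σ → ι) := fun O O' h => by
  rw [← cy_pt O, h, cy_pt]

theorem pow_pt_iff {σ : Perm ι} (O : Cyc σ) (n : ℕ) : (σ ^ n) (pt O) = pt O ↔ len O ∣ n := by
  rw [len, ← Function.isPeriodicPt_iff_minimalPeriod_dvd, Function.IsPeriodicPt, Function.IsFixedPt,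
    Perm.iterate_eq_pow]

theorem len_pos [Finite ι] {σ : Perm ι} (O : Cyc σ) : 0 < len O := by
  have h := (pow_pt_iff O (orderOf σ)).1 (by rw [pow_orderOf_eq_one]; rfl)
  exact Nat.pos_of_dvd_of_pos h (orderOf_pos σ)

theorem len_eq_one {σ : Perm ι} (O : Cyc σ) (h : σ (pt O) = pt O) : len O = 1 :=
  Nat.dvd_one.1 ((pow_pt_iff O 1).1 (by rwa [pow_one]))

theorem map_len [Fintype ι] [DecidableEq ι] (σ : Perm ι) : (univ : Finset (Cyc σ)).val.map len = ty σ := by
  classical
  rw [ty, Perm.parts_partition, Perm.cycleType_def,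
    ← Multiset.filter_add_not (fun O : Cyc σ => pt O ∈ σ.support) (univ : Finset (Cyc σ)).val, Multiset.map_add]
  congr 1
  · refine Multiset.map_eq_map_of_bij_of_nodup _ _ (univ.nodup.filter _) σ.cycleFactorsFinset.nodup
      (fun O _ => σ.cycleOf (pt O)) (fun O hO => ?_) (fun O hO O' hO' h => ?_) (fun c hc => ?_) (fun O hO => ?_)
    · exact Perm.cycleOf_mem_cycleFactorsFinset_iff.2 (Multiset.mem_filter.1 hO).2
    · rw [← cy_pt O, ← cy_pt O', cy_eq_iff]
      exact (Perm.sameCycle_iff_cycleOf_eq_of_mem_support (Multiset.mem_filter.1 hO).2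
        (Multiset.mem_filter.1 hO').2).2 h
    · have hc' : c ∈ σ.cycleFactorsFinset := hc
      obtain ⟨a, ha⟩ := (Perm.mem_cycleFactorsFinset_iff.1 hc').1.nonempty_support
      have h1 : a ∈ σ.support := Perm.mem_cycleFactorsFinset_support_le hc' ha
      refine ⟨cy σ a, Multiset.mem_filter.2 ⟨mem_univ _, ?_⟩, ?_⟩
      · exact (same_pt σ a).mem_support_iff.2 h1
      · rw [(same_pt σ a).cycleOf_eq, ← Perm.cycle_is_cycleOf ha hc']
    · have h1 : pt O ∈ (σ.cycleOf (pt O)).support :=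
        Perm.mem_support_cycleOf_iff.2 ⟨Perm.SameCycle.refl _ _, (Multiset.mem_filter.1 hO).2⟩
      have h2 := fun n => (σ.isCycleOn_support_cycleOf (pt O)).pow_apply_eq h1 (n := n)
      exact Nat.dvd_antisymm ((pow_pt_iff O _).1 ((h2 _).2 dvd_rfl)) ((h2 _).1 ((pow_pt_iff O _).2 dvd_rfl))
  · have h1 : Multiset.replicate (Fintype.card ι - #σ.support) 1 = (σ.supportᶜ).val.map fun _ => 1 := by
      rw [Multiset.map_const', Finset.card_val, Finset.card_compl]
    rw [h1]
    refine Multiset.map_eq_map_of_bij_of_nodup _ _ (univ.nodup.filter _) (σ.supportᶜ).nodup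
      (fun O _ => pt O) (fun O hO => ?_) (fun O _ O' _ h => pt_injective σ h) (fun a ha => ?_) (fun O hO => ?_)
    · exact Finset.mem_compl.2 (Multiset.mem_filter.1 hO).2
    · have ha' : a ∉ σ.support := Finset.mem_compl.1 ha
      have h2 : pt (cy σ a) = a := ((same_pt σ a).symm.eq_of_left (Perm.notMem_support.1 ha')).symm
      exact ⟨cy σ a, Multiset.mem_filter.2 ⟨mem_univ _, by rwa [h2]⟩, h2⟩
    · exact len_eq_one O (Perm.notMem_support.1 (Multiset.mem_filter.1 hO).2)

theorem prod_len [Fintype ι] [DecidableEq ι] (σ : Perm ι) {A : Type} [CommMonoid A] (f : ℕ → A) :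
    ∏ O : Cyc σ, f (len O) = ((ty σ).map f).prod := by
  rw [← map_len, Multiset.map_map]
  rfl

theorem sum_len [Fintype ι] (σ : Perm ι) : ∑ O : Cyc σ, len O = Fintype.card ι := by
  classical
  rw [← ty_sum σ, ← map_len]
  rfl

theorem sign_eq [Fintype ι] [DecidableEq ι] (σ : Perm ι) : Perm.sign σ = ∏ O : Cyc σ, (-1 : ℤˣ) ^ (len O + 1) := by
  rw [prod_len σ fun n => (-1 : ℤˣ) ^ (n + 1), ty, Perm.parts_partition, Multiset.map_add, Multiset.prod_add,
    Multiset.map_replicate, Multiset.prod_replicate, Perm.sign_of_cycleType']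
  simp only [pow_succ, _root_.mul_neg, _root_.mul_one, _root_.Nat.reduceAdd, _root_.pow_zero, _root_.neg_neg, _root_.one_pow]

theorem exists_ht [Finite ι] (σ : Perm ι) (a : ι) : ∃ h : ℕ, (σ ^ h) (pt (cy σ a)) = a := by
  obtain ⟨i, -, hi⟩ := (same_pt σ a).exists_pow_eq'
  exact ⟨i, hi⟩

open Classical in
/-- the distance from the base point of the cycle -/
noncomputable def ht [Finite ι] (σ : Perm ι) (a : ι) : ℕ := Nat.find (exists_ht σ a)

theorem ht_pt [Finite ι] {σ : Perm ι} (O : Cyc σ) : ht σ (pt O) = 0 := by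
  classical
  rw [ht, Nat.find_eq_zero, cy_pt]
  rfl

theorem ht_succ [Finite ι] {σ : Perm ι} {a : ι} (h : pt (cy σ a) ≠ a) : ht σ a = ht σ (σ⁻¹ a) + 1 := by
  classical
  rw [ht, Nat.find_eq_iff]
  refine ⟨?_, fun n hn h1 => ?_⟩
  · have h1 := Nat.find_spec (exists_ht σ (σ⁻¹ a))
    rw [pow_succ', Perm.mul_apply, ← cy_inv σ a, ht, h1]
    exact σ.apply_symm_apply a
  · obtain _ | n := n
    · exact h h1
    · refine Nat.find_min (exists_ht σ (σ⁻¹ a)) (m := n) (Nat.lt_of_succ_lt_succ hn) ?_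
      rw [cy_inv, Perm.eq_inv_iff_eq, ← Perm.mul_apply, ← pow_succ', h1]

theorem ht_last [Finite ι] {σ : Perm ι} (O : Cyc σ) : ht σ (σ⁻¹ (pt O)) + 1 = len O := by
  classical
  have h0 := len_pos O
  have h1 : ∀ n, (σ ^ n) (pt (cy σ (σ⁻¹ (pt O)))) = σ⁻¹ (pt O) ↔ len O ∣ n + 1 := fun n => by
    rw [cy_inv, cy_pt, Perm.eq_inv_iff_eq, ← Perm.mul_apply, ← pow_succ', pow_pt_iff]
  have h2 : ht σ (σ⁻¹ (pt O)) = len O - 1 := by
    rw [ht, Nat.find_eq_iff]
    refine ⟨(h1 _).2 (by rw [Nat.sub_add_cancel h0]), fun n hn h => ?_⟩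
    have := Nat.le_of_dvd (Nat.succ_pos n) ((h1 n).1 h)
    omega
  omega

end perm

section wr

variable {K K' ι : Type} [Group K] [Group K']

theorem pow_succ_left (x : Wr K ι) (j : ℕ) (a : ι) :
    (x ^ (j + 1)).left a = x.left a * (x ^ j).left (x.right⁻¹ a) := by
  rw [pow_succ', mul_left]

/-- the product along the path from the base point -/
noncomputable def pth [Finite ι] (x : Wr K ι) (a : ι) : K := (x ^ ht x.right a).left a

theorem pth_pt [Finite ι] (x : Wr K ι) (O : Cyc x.right) : pth x (pt O) = 1 := by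
  rw [pth, ht_pt, pow_zero]
  rfl

theorem pth_succ [Finite ι] (x : Wr K ι) {a : ι} (h : pt (cy x.right a) ≠ a) :
    pth x a = x.left a * pth x (x.right⁻¹ a) := by
  rw [pth, ht_succ h, pow_succ_left, pth]

theorem gp_eq [Finite ι] (x : Wr K ι) (O : Cyc x.right) :
    gp x O = x.left (pt O) * pth x (x.right⁻¹ (pt O)) := by
  rw [gp, ← ht_last, pow_succ_left, pth]

/-- the normal form -/
noncomputable def nf [Finite ι] (x : Wr K ι) : Wr K ι :=
  (SemidirectProduct.inl (pth x))⁻¹ * x * SemidirectProduct.inl (pth x)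

theorem nf_right [Finite ι] (x : Wr K ι) : (nf x).right = x.right := by
  simp [nf]

theorem nf_left' [Finite ι] (x : Wr K ι) (a : ι) :
    (nf x).left a = (pth x a)⁻¹ * (x.left a * pth x (x.right⁻¹ a)) := by
  rw [nf, mul_assoc, ← map_inv, mul_left, mul_left]
  rfl

theorem nf_left_pt [Finite ι] (x : Wr K ι) (O : Cyc x.right) : (nf x).left (pt O) = gp x O := by
  rw [nf_left', pth_pt, gp_eq, inv_one, one_mul]

theorem nf_left_ne [Finite ι] (x : Wr K ι) {a : ι} (h : pt (cy x.right a) ≠ a) : (nf x).left a = 1 := by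
  rw [nf_left', ← pth_succ x h, inv_mul_cancel]

theorem prod_pt [Fintype ι] (σ : Perm ι) {A : Type} [CommMonoid A] (f : ι → A)
    (h : ∀ a, pt (cy σ a) ≠ a → f a = 1) : ∏ a, f a = ∏ O : Cyc σ, f (pt O) := by
  classical
  rw [← Finset.prod_image (s := univ) (g := pt) (f := f) fun O _ O' _ h => pt_injective σ h]
  refine (Finset.prod_subset (subset_univ _) fun a _ ha => h a fun h1 => ha ?_).symm
  exact mem_image.2 ⟨_, mem_univ _, h1⟩

theorem linW_eq [Fintype ι] {A : Type} [CommGroup A] (lam : K →* A) (x : Wr K ι) :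
    linW ι lam x = ∏ O, lam (gp x O) := by
  have h1 : linW ι lam x = linW ι lam (nf x) := by
    rw [nf, map_mul, map_mul, map_inv, mul_comm, ← mul_assoc, mul_inv_cancel, one_mul]
  rw [h1, linW_apply, prod_pt x.right _ fun a ha => by rw [nf_left_ne x ha, map_one]]
  exact Finset.prod_congr rfl fun O _ => by rw [nf_left_pt]

theorem gp_mapW (φ : K →* K') (x : Wr K ι) (O : Cyc x.right) : gp (mapW ι φ x) O = φ (gp x O) := by
  change ((mapW ι φ x) ^ len O).left (pt O) = φ ((x ^ len O).left (pt O))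
  rw [← map_pow]
  rfl

theorem dz_pow (z : K) (n : ℕ) : dz ι z ^ n = dz ι (z ^ n) := by
  rw [dz, ← map_pow]
  rfl

theorem dz_comm {z : K} (hz : z ∈ Subgroup.center K) (x : Wr K ι) : Commute (dz ι z) x :=
  SemidirectProduct.ext (funext fun i => by
    rw [mul_left, mul_left]
    exact (Subgroup.mem_center_iff.1 hz _).symm) (by
    rw [SemidirectProduct.mul_right, SemidirectProduct.mul_right]
    exact (one_mul _).trans (mul_one _).symm)

theorem pow_dz_mul {z : K} (hz : z ∈ Subgroup.center K) (x : Wr K ι) (n : ℕ) (a : ι) :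
    ((dz ι z * x) ^ n).left a = z ^ n * (x ^ n).left a := by
  rw [(dz_comm hz x).mul_pow, dz_pow, mul_left]
  rfl

theorem pth_congr [Finite ι] (σ : Perm ι) {k k' : ι → K} (h : ∀ a, pt (cy σ a) ≠ a → k a = k' a) (a : ι) :
    pth (⟨k, σ⟩ : Wr K ι) a = pth (⟨k', σ⟩ : Wr K ι) a := by
  obtain ⟨n, hn⟩ : ∃ n, ht σ a = n := ⟨_, rfl⟩
  induction n generalizing a with
  | zero =>
    rw [pth, pth]
    simp only [hn, pow_zero]
  | succ n ih =>
    have h1 : pt (cy σ a) ≠ a := fun h1 => by
      rw [← h1, ht_pt] at hn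
      omega
    have h2 := ht_succ h1
    rw [pth_succ (⟨k, σ⟩ : Wr K ι) h1, pth_succ (⟨k', σ⟩ : Wr K ι) h1]
    exact congrArg₂ _ (h a h1) (ih _ (by dsimp only; omega))

/-- **The cycle products are independent and equidistributed.** -/
theorem sum_gp [Fintype ι] [DecidableEq ι] [Fintype K] (σ : Perm ι) {A : Type} [CommRing A] [Algebra ℂ A]
    (F : Cyc σ → K → A) :
    ∑ k : ι → K, ∏ O : Cyc σ, F O (gp (⟨k, σ⟩ : Wr K ι) O) =
      ((Fintype.card K : ℂ) ^ Fintype.card ι) • ∏ O : Cyc σ, ((Fintype.card K : ℂ)⁻¹ • ∑ g, F O g) := by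
  classical
  let Φ : (ι → K) → ι → K := fun k a => if pt (cy σ a) = a then gp (⟨k, σ⟩ : Wr K ι) (cy σ a) else k a
  have hΦ : Function.Injective Φ := fun k k' h => by
    have h1 : ∀ a, pt (cy σ a) ≠ a → k a = k' a := fun a ha => by
      have := congrFun h a
      simpa only [Φ, if_neg ha] using this
    funext a
    by_cases ha : pt (cy σ a) = a
    · have := congrFun h a
      simp only [Φ, if_pos ha, gp_eq] at this
      rw [pth_congr σ h1, ha] at this
      exact mul_right_cancel this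
    · exact h1 a ha
  let G : ι → K → A := fun a g => if pt (cy σ a) = a then F (cy σ a) g else 1
  have h1 : ∀ k : ι → K, ∏ O : Cyc σ, F O (gp (⟨k, σ⟩ : Wr K ι) O) = ∏ a, G a (Φ k a) := fun k => by
    rw [prod_pt σ (fun a => G a (Φ k a)) fun a ha => if_neg ha]
    refine Finset.prod_congr rfl fun O _ => ?_
    simp only [G, Φ, cy_pt, if_true]
  have hK : (Fintype.card K : ℂ) ≠ 0 := Nat.cast_ne_zero.2 Fintype.card_ne_zero
  have h2 : ∀ a, ∑ g, G a g = (Fintype.card K : ℂ) •
      (if pt (cy σ a) = a then (Fintype.card K : ℂ)⁻¹ • ∑ g, F (cy σ a) g else 1) := fun a => by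
    by_cases ha : pt (cy σ a) = a
    · simp only [G, if_pos ha, smul_smul, mul_inv_cancel₀ hK, one_smul]
    · simp only [G, if_neg ha, Finset.sum_const, card_univ, Nat.cast_smul_eq_nsmul]
  rw [Finset.sum_congr rfl fun k _ => h1 k,
    (Finite.injective_iff_bijective.1 hΦ).sum_comp (fun k : ι → K => ∏ a, G a (k a)), ← Fintype.piFinset_univ,
    ← Finset.prod_univ_sum (fun _ => univ) G, Finset.prod_congr rfl fun a _ => h2 a, Finset.prod_smul,
    Finset.prod_const, card_univ, prod_pt σ _ fun a ha => if_neg ha]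
  simp only [cy_pt, if_true]

end wr

end Cfsg.Agent.MO.W
end

-- part: MO/W/Easy
section
/-!
# MO-W: the boxes which follow from the formula (helper18)

`wMap : WMap`, `wTw : WTw`, `wCen : WCen`, `wDeg : WDeg`.
-/

set_option autoImplicit false

namespace Cfsg.Agent.MO.W

open Cfsg Equiv Finset Cfsg.Agent.H614
open Cfsg.Agent.H577.GLB.Std (bsz)

section ev

variable {α I I' : Type} [Fintype α] [DecidableEq α] [Fintype I] [DecidableEq I] [Fintype I'] [DecidableEq I'] {m : ℕ}

theorem EV_equiv (e : I ≃ I') (l : α → ℕ) (u : α → I' → ℂ) (t : I' → Fin m → ℕ) :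
    EV l u t = EV l (fun a c => u a (e c)) (fun c => t (e c)) := by
  unfold EV
  refine (Fintype.sum_equiv (Equiv.arrowCongr (Equiv.refl α) e) _ _ fun col => ?_).symm
  rw [← Equiv.prod_comp e]
  congr 1
  refine Finset.prod_congr rfl fun c _ => ?_
  simp only [part, _root_.Finset.filter_val, _root_.Equiv.arrowCongr_apply, _root_.Equiv.refl_symm, _root_.Equiv.coe_refl, _root_.CompTriple.comp_eq, _root_.Function.comp_apply, _root_.EmbeddingLike.apply_eq_iff_eq]

theorem EV_scale (l : α → ℕ) (w : α → ℂ) (u : α → I → ℂ) (t : I → Fin m → ℕ) :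
    EV l (fun a c => u a c * w a) t = EV l u t * ∏ a, w a := by
  unfold EV
  rw [Finset.sum_mul]
  refine Finset.sum_congr rfl fun col _ => ?_
  rw [Finset.prod_mul_distrib]
  ring

omit [DecidableEq α] [Fintype I] in
theorem part_sum (l : α → ℕ) (col : α → I) (c : I) : (part l col c).sum = ∑ a with col a = c, l a := rfl

omit [DecidableEq α] in
theorem bsz_eq {l : α → ℕ} {col : α → I} {t : I → Fin m → ℕ} (h : ∏ c, (FM (part l col c) (t c) : ℂ) ≠ 0) (c : I) :
    bsz (t c) = ∑ a with col a = c, l a := by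
  have h1 := Finset.prod_ne_zero_iff.1 h c (mem_univ c)
  have h2 : ∑ i, t c i = (part l col c).sum + ∑ i : Fin m, (i : ℕ) := by
    by_contra h2
    exact h1 (by rw [FM_eq_zero_of_sum _ h2, Int.cast_zero])
  rw [bsz, h2, Nat.add_sub_cancel, part_sum]

theorem EV_cen (l : α → ℕ) (ω : I → ℂ) (u : α → I → ℂ) (t : I → Fin m → ℕ) :
    EV l (fun a c => ω c ^ l a * u a c) t = (∏ c, ω c ^ bsz (t c)) * EV l u t := by
  unfold EV
  rw [Finset.mul_sum]
  refine Finset.sum_congr rfl fun col _ => ?_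
  by_cases h : ∏ c, (FM (part l col c) (t c) : ℂ) = 0
  · rw [h, mul_zero, mul_zero, mul_zero]
  · rw [Finset.prod_mul_distrib, mul_assoc]
    congr 1
    rw [← Finset.prod_fiberwise (s := univ) (g := col)]
    refine Finset.prod_congr rfl fun c _ => ?_
    rw [bsz_eq h c, ← Finset.prod_pow_eq_pow_sum]
    exact Finset.prod_congr rfl fun a ha => by rw [(mem_filter.1 ha).2]

theorem card_col (k : I → ℕ) (hk : ∑ c, k c = Fintype.card α) :
    (∏ c, (k c).factorial) * #{col : α → I | ∀ c, #{a | col a = c} = k c} = (Fintype.card α).factorial := by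
  have h1 := MvPolynomial.coeff_sum_X_pow_of_fintype (R := ℕ) (Finsupp.equivFunOnFinite.symm k) (Fintype.card α)
  rw [if_pos (by rw [Finsupp.sum_fintype _ _ fun _ => rfl]; exact hk),
    Finsupp.multinomial_eq_of_support_subset (subset_univ _), ← card_univ, ← Finset.prod_const,
    Finset.prod_univ_sum (fun _ : α => univ) fun _ c => (MvPolynomial.X c : MvPolynomial I ℕ), Fintype.piFinset_univ,
    MvPolynomial.coeff_sum] at h1
  have h2 : ∀ col : α → I, MvPolynomial.coeff (Finsupp.equivFunOnFinite.symm k)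
      (∏ a, (MvPolynomial.X (col a) : MvPolynomial I ℕ)) = if ∀ c, #{a | col a = c} = k c then 1 else 0 := fun col => by
    have h3 : ∏ a, (MvPolynomial.X (col a) : MvPolynomial I ℕ) =
        MvPolynomial.monomial (Finsupp.equivFunOnFinite.symm fun c => #{a | col a = c}) 1 := by
      rw [MvPolynomial.monomial_eq, map_one, one_mul, Finsupp.prod_fintype _ _ fun _ => pow_zero _,
        ← Finset.prod_fiberwise (s := univ) (g := col)]
      refine Finset.prod_congr rfl fun c _ => ?_
      rw [Finset.prod_congr rfl (g := fun _ => MvPolynomial.X c) fun a ha => by rw [(mem_filter.1 ha).2],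
        Finset.prod_const]
      rfl
    rw [h3, MvPolynomial.coeff_monomial]
    simp only [EmbeddingLike.apply_eq_iff_eq, funext_iff]
  rw [Finset.sum_congr rfl fun col _ => h2 col, Finset.sum_boole, Nat.cast_id, Nat.cast_id] at h1
  rw [h1, ← hk]
  exact Nat.multinomial_spec univ k

theorem EV_one (u : I → ℂ) (t : I → Fin m → ℕ) (ht : ∑ c, bsz (t c) = Fintype.card α) :
    EV (fun _ : α => 1) (fun _ c => u c) t * ∏ c, ((bsz (t c)).factorial : ℂ) = ((Fintype.card α).factorial : ℂ) *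
      ∏ c, u c ^ bsz (t c) * (FM (Multiset.replicate (bsz (t c)) 1) (t c) : ℂ) := by
  have h1 : ∀ col : α → I, (∏ a, u (col a)) * ∏ c, (FM (part (fun _ => 1) col c) (t c) : ℂ) =
      if ∀ c, #{a | col a = c} = bsz (t c) then
        ∏ c, u c ^ bsz (t c) * (FM (Multiset.replicate (bsz (t c)) 1) (t c) : ℂ) else 0 := fun col => by
    split_ifs with h
    · rw [Finset.prod_mul_distrib, ← Finset.prod_fiberwise (s := univ) (g := col)]
      congr 1
      · refine Finset.prod_congr rfl fun c _ => ?_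
        rw [Finset.prod_congr rfl (g := fun _ => u c) fun a ha => by rw [(mem_filter.1 ha).2], Finset.prod_const, h c]
      · refine Finset.prod_congr rfl fun c _ => ?_
        rw [part, Multiset.map_const', Finset.card_val, h c]
    · rw [mul_eq_zero]
      refine Or.inr (by_contra fun h2 => h fun c => ?_)
      rw [bsz_eq h2 c, Finset.card_eq_sum_ones]
  rw [EV, Finset.sum_congr rfl fun col _ => h1 col, ← Finset.sum_filter, Finset.sum_const, nsmul_eq_mul,
    ← card_col (fun c => bsz (t c)) ht]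
  push_cast
  ring

end ev

theorem wMap : WMap := by
  intro K K' ι I I' _ _ _ _ _ _ _ κ κ' ε' m t' φ e h x
  unfold psi
  rw [EV_equiv e]
  congr 1
  funext O c
  rw [← h]
  exact congrArg _ (congrArg _ (gp_mapW φ x O))

theorem wTw : WTw := by
  intro K ι I _ _ _ _ _ κ ε ε' m t' lam δ e h hε x
  have h1 : ((linW ι lam x : ℂˣ) : ℂ) * (if δ = 1 then 1 else (((sgW K ι x : ℤˣ) : ℤ) : ℂ)) =
      ∏ O : Cyc x.right, (lam (gp x O) : ℂ) * (((δ ^ (len O + 1) : ℤˣ) : ℤ) : ℂ) := by
    rw [Finset.prod_mul_distrib, linW_eq, Units.coe_prod]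
    congr 1
    rcases Int.units_eq_one_or δ with rfl | rfl
    · simp only [↓ _root_.reduceIte, _root_.one_pow, _root_.Units.val_one, _root_.Int.cast_one, _root_.Finset.prod_const_one]
    · rw [if_neg (by decide), sgW_apply, sign_eq]
      simp only [_root_.Units.coe_prod, _root_.Units.val_pow_eq_pow_val, _root_.Units.val_neg, _root_.Units.val_one, _root_.Int.reduceNeg, _root_.Int.cast_prod, _root_.Int.cast_pow, _root_.Int.cast_neg, _root_.Int.cast_one]
  unfold psi
  rw [mul_assoc, h1, ← EV_scale, EV_equiv e]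
  congr 1
  funext O c
  rw [h, hε, mul_pow]
  push_cast
  ring

theorem wCen : WCen := by
  intro K ι I _ _ _ _ κ ε m t z ω hz h x
  have h0 : (dz ι z * x).right = x.right := one_mul _
  have h1 : ∀ y : Wr K ι, y.right = x.right → (∀ n a, (y ^ n).left a = z ^ n * (x ^ n).left a) →
      psi κ ε t y = (∏ c, ω c ^ bsz (t c)) * psi κ ε t x := by
    rintro ⟨k, σ⟩ rfl hy
    unfold psi
    rw [← EV_cen]
    congr 1
    funext O c
    have h2 : ∀ n g, κ c (z ^ n * g) = ω c ^ n * κ c g := fun n g => by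
      induction n with
      | zero => simp
      | succ n ih => rw [pow_succ', mul_assoc, h, ih, pow_succ', mul_assoc]
    rw [gp, hy, h2, mul_left_comm]
    rfl
  exact h1 _ h0 (pow_dz_mul hz x)

theorem wDeg : WDeg := by
  intro K ι I _ _ _ _ κ ε m t ht
  have h1 : ∀ O : Cyc (1 : Wr K ι).right, len O = 1 := fun O => len_eq_one O rfl
  have h2 : Fintype.card (Cyc (1 : Wr K ι).right) = Fintype.card ι := by
    rw [← sum_len (1 : Wr K ι).right, Finset.sum_congr rfl fun O _ => h1 O]
    simp only [_root_.SemidirectProduct.one_right, _root_.Finset.sum_const, _root_.Finset.card_univ, _root_.smul_eq_mul, _root_.mul_one]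
  rw [← h2, ← EV_one _ t (ht.2.trans h2.symm)]
  unfold psi
  congr 2
  · exact funext h1
  · funext O c
    rw [h1, gp, one_pow]
    simp

end Cfsg.Agent.MO.W
end

-- part: MO/W/Ring
section
/-!
# MO-W: the ring of the power sums of all colours (helper18)

* `R I`, `bil`, `Dv`, `lin`, `der` : the ring, the symmetric bilinear form, linear elements and their adjoint derivations;
* `Sp`, `S` : products of Schur functions; `bil_Sp_mono`, `bil_Sp_Sp`, `bil_S_S` : values, orthonormality;
* `ev`, `ev_S`, `ev_map` : the evaluation, the formula `EV`, naturality;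
* `mono_mem`, `ch_eq_sum` : the labelled products span.
-/

set_option autoImplicit false

namespace Cfsg.Agent.MO.W

open Cfsg Equiv Finset MvPolynomial Cfsg.Agent.H614 Cfsg.Agent.H614.GLn
open Cfsg.Agent.H577.GLB.Std (bsz)

/-- the ring -/
abbrev R (I : Type) := MvPolynomial (ℕ × I) ℂ

variable {I J α : Type} {m : ℕ}

/-- the norm of a monomial -/
noncomputable def Nf (s : ℕ × I →₀ ℕ) : ℂ := s.prod fun v e => (e.factorial : ℂ) * (v.1 : ℂ) ^ e

/-- the bilinear form -/
noncomputable def bil : R I →ₗ[ℂ] R I →ₗ[ℂ] ℂ := (basisMonomials (ℕ × I) ℂ).constr ℂ fun s => Nf s • lcoeff ℂ s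

theorem bil_monomial (s : ℕ × I →₀ ℕ) (a : ℂ) (g : R I) : bil (monomial s a) g = a * (Nf s * coeff s g) := by
  have h : (monomial s a : R I) = a • basisMonomials (ℕ × I) ℂ s := by
    rw [coe_basisMonomials, smul_monomial, smul_eq_mul, mul_one]
  rw [h, map_smul, bil, Module.Basis.constr_basis]
  rfl

theorem bil_comm (f g : R I) : bil f g = bil g f := by
  classical
  induction f using MvPolynomial.induction_on' with
  | add p q hp hq => rw [map_add, LinearMap.add_apply, map_add, hp, hq]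
  | monomial s a =>
    induction g using MvPolynomial.induction_on' with
    | add p q hp hq => rw [map_add, map_add, LinearMap.add_apply, hp, hq]
    | monomial s' a' =>
      rw [bil_monomial, bil_monomial, coeff_monomial, coeff_monomial]
      by_cases h : s = s'
      · subst h
        simp only [if_true]
        ring
      · rw [if_neg h, if_neg (Ne.symm h)]
        simp

theorem bil_one (g : R I) : bil g 1 = constantCoeff g := by
  rw [bil_comm, show (1 : R I) = monomial 0 1 from rfl, bil_monomial, Nf, Finsupp.prod_zero_index]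
  simp [constantCoeff]

theorem Nf_add (s : ℕ × I →₀ ℕ) (v : ℕ × I) : Nf (s + Finsupp.single v 1) = Nf s * ((s v : ℂ) + 1) * v.1 := by
  classical
  have h0 : ∀ v : ℕ × I, (((0 : ℕ).factorial : ℂ) * (v.1 : ℂ) ^ 0) = 1 := by intro v; simp
  unfold Nf
  rw [Finsupp.prod_of_support_subset (s + Finsupp.single v 1) (s := insert v s.support) ?_ _ (fun i _ => h0 i),
    Finsupp.prod_of_support_subset s (s := insert v s.support) (Finset.subset_insert _ _) _ (fun i _ => h0 i),
    ← Finset.mul_prod_erase _ _ (Finset.mem_insert_self v s.support),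
    ← Finset.mul_prod_erase _ (fun i => ((s i).factorial : ℂ) * (i.1 : ℂ) ^ s i) (Finset.mem_insert_self v s.support),
    Finset.prod_congr rfl (g := fun x => ((s x).factorial : ℂ) * (x.1 : ℂ) ^ s x) fun x hx => by
      rw [Finsupp.add_apply, Finsupp.single_eq_of_ne (Finset.ne_of_mem_erase hx), add_zero],
    Finsupp.add_apply, Finsupp.single_eq_same, Nat.factorial_succ, pow_succ]
  · push_cast
    ring
  · exact Finsupp.support_add.trans (by
      rw [Finsupp.support_single _ one_ne_zero, Finset.union_comm]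
      exact Finset.Subset.refl _)

/-- the adjoint of the multiplication by a variable -/
noncomputable def Dv (v : ℕ × I) : Derivation ℂ (R I) (R I) := (v.1 : ℂ) • pderiv v

theorem bil_X_mul (v : ℕ × I) (f g : R I) : bil f (X v * g) = bil (Dv v f) g := by
  rw [bil_comm, bil_comm _ g]
  induction g using MvPolynomial.induction_on' with
  | monomial s a =>
    rw [X, monomial_mul, one_mul, bil_monomial, bil_monomial, add_comm, Nf_add, Dv, Derivation.smul_apply, coeff_smul,
      coeff_pderiv, smul_eq_mul]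
    ring
  | add p q hp hq => simp only [mul_add, map_add, map_add, LinearMap.add_apply, LinearMap.add_apply, hp, hq]

theorem Dv_X [DecidableEq I] (v w : ℕ × I) : Dv v (X w : R I) = if w = v then (v.1 : R I) else 0 := by
  rw [Dv, Derivation.smul_apply, pderiv_X]
  split_ifs with h
  · rw [h, Pi.single_eq_same, Algebra.smul_def, mul_one, map_natCast]
  · rw [Pi.single_eq_of_ne h, smul_zero]

/-- the power sums of a colour -/
noncomputable def PP (c : I) (j : ℕ) : R I := X (j, c)

variable [Fintype I]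

/-- a linear element -/
noncomputable def lin (j : ℕ) (u : I → ℂ) : R I := ∑ c, u c • X (j, c)

/-- the adjoint of the multiplication by a linear element -/
noncomputable def der (j : ℕ) (u : I → ℂ) : Derivation ℂ (R I) (R I) := ∑ c, u c • Dv (j, c)

theorem der_apply (j : ℕ) (u : I → ℂ) (f : R I) : der j u f = ∑ c, u c • Dv (j, c) f := by
  classical
  unfold der
  generalize (univ : Finset I) = T
  induction T using Finset.induction_on with
  | empty => rfl
  | insert a T ha ih => rw [Finset.sum_insert ha, Finset.sum_insert ha, Derivation.add_apply, ih, Derivation.smul_apply]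

theorem bil_lin_mul (j : ℕ) (u : I → ℂ) (f g : R I) : bil f (lin j u * g) = bil (der j u f) g := by
  rw [lin, der_apply, Finset.sum_mul, map_sum, map_sum, LinearMap.sum_apply]
  refine Finset.sum_congr rfl fun c _ => ?_
  simp only [smul_mul_assoc, map_smul, map_smul, bil_X_mul]
  rfl

theorem der_X (j : ℕ) (u : I → ℂ) (v : ℕ × I) : der j u (X v) = if v.1 = j then C (j * u v.2) else 0 := by
  classical
  rw [der_apply, Finset.sum_eq_single v.2 (fun c _ hc => by
    rw [Dv_X, if_neg fun h => hc (congrArg Prod.snd h).symm, smul_zero]) (fun h => absurd (mem_univ _) h), Dv_X]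
  by_cases h : v.1 = j
  · rw [if_pos h, if_pos (show v = (j, v.2) from Prod.ext h rfl), smul_eq_C_mul, map_mul, map_natCast, mul_comm]
  · rw [if_neg h, if_neg fun h1 => h (congrArg Prod.fst h1), smul_zero]

theorem der_lin (j j' : ℕ) (u d : I → ℂ) : der j u (lin j' d) = if j' = j then C (j * ∑ c, d c * u c) else 0 := by
  rw [lin, map_sum]
  simp only [Derivation.map_smul, der_X]
  split_ifs
  · rw [Finset.mul_sum, map_sum]
    refine Finset.sum_congr rfl fun c _ => ?_
    rw [smul_eq_C_mul, ← map_mul, mul_left_comm]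
  · simp only [_root_.smul_zero, _root_.Finset.sum_const_zero]

/-- a product of Schur functions -/
noncomputable def Sp (k : I → ℕ) (t : I → Fin m → ℕ) : R I := ∏ c, SS (PP c) (k c) (t c)

/-- the labelled product -/
noncomputable def S (t : I → Fin m → ℕ) : R I := Sp (fun c => bsz (t c)) t

/-- a monomial -/
noncomputable def mono (s : I → Multiset ℕ) : R I := ∏ c, ((s c).map (PP c)).prod

omit [Fintype I] in
theorem const_SS (c : I) (k : ℕ) {β : Fin m → ℕ} (h : ∑ i, β i = k + ∑ i : Fin m, (i : ℕ)) :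
    constantCoeff (SS (PP c) k β) = vac β := by
  rcases Nat.eq_zero_or_pos k with rfl | hk
  · rw [SS_zero_eq, constantCoeff_smul]
    simp
  · have h1 := congrArg constantCoeff (SS_rec (PP c) k β)
    rw [constantCoeff_smul, map_sum, Finset.sum_eq_zero fun r _ => by rw [map_mul, PP, constantCoeff_X, zero_mul]] at h1
    rw [vac_eq_zero_of_sum (by omega), Int.cast_zero]
    exact (smul_eq_zero.1 h1).resolve_left (Nat.cast_ne_zero.2 hk.ne')

theorem prod_update [DecidableEq I] {A B : Type} [CommMonoid A] (f : I → B → A) (b : I → B) (c : I) (x : B) :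
    ∏ c', f c' (Function.update b c x c') = f c x * ∏ c' ∈ univ.erase c, f c' (b c') := by
  rw [← Finset.mul_prod_erase _ _ (mem_univ c), Function.update_self]
  congr 1
  exact Finset.prod_congr rfl fun c' hc => by rw [Function.update_of_ne (ne_of_mem_erase hc)]

theorem Dv_Sp [DecidableEq I] {j : ℕ} (hj : 0 < j) (c : I) (k : I → ℕ) (t : I → Fin m → ℕ) :
    Dv (j, c) (Sp k t) = if j ≤ k c then ∑ i, (if j ≤ t c i then
      Sp (Function.update k c (k c - j)) (Function.update t c (dn (t c) i j)) else 0) else 0 := by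
  have h1 : Dv (j, c) (∏ c' ∈ univ.erase c, SS (PP c') (k c') (t c')) = 0 := by
    refine Finset.prod_induction _ (fun f => Dv (j, c) f = 0) (fun a b ha hb => ?_) (Derivation.map_one_eq_zero _)
      fun c' hc => D_SS_zero (PP c') (fun s _ => ?_) _ _
    · rw [Derivation.leibniz, ha, hb, smul_zero, smul_zero, add_zero]
    · rw [PP, Dv_X, if_neg fun h => ne_of_mem_erase hc (congrArg Prod.snd h)]
  have h2 : ∀ s, 0 < s → Dv (j, c) (PP c s) = if s = j then (j : R I) else 0 := fun s _ => by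
    rw [PP, Dv_X]
    simp
  rw [Sp, ← Finset.mul_prod_erase _ _ (mem_univ c), Derivation.leibniz, h1, smul_zero, zero_add, smul_eq_mul]
  split_ifs with h
  · rw [D_SS (PP c) hj h2 h, Finset.mul_sum]
    refine Finset.sum_congr rfl fun i _ => ?_
    split_ifs
    · have h3 := prod_update (fun c' (p : ℕ × (Fin m → ℕ)) => SS (PP c') p.1 p.2) (fun c' => (k c', t c')) c
        (k c - j, dn (t c) i j)
      rw [mul_comm, ← h3, Sp]
      refine Finset.prod_congr rfl fun c' _ => ?_
      by_cases hc : c' = c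
      · subst hc
        simp
      · simp [Function.update_of_ne hc]
    · exact mul_zero _
  · rw [D_SS_lt (PP c) h2 (not_le.1 h), mul_zero]

/-- **The values of the Schur products at the monomials.** -/
theorem bil_Sp_mono (s : I → Multiset ℕ) (hs : ∀ c, ∀ j ∈ s c, 0 < j) (k : I → ℕ) (t : I → Fin m → ℕ)
    (h : ∀ c, ∑ i, t c i = k c + ∑ i : Fin m, (i : ℕ)) : bil (Sp k t) (mono s) = ∏ c, (FM (s c) (t c) : ℂ) := by
  classical
  obtain ⟨n, hn⟩ : ∃ n, ∑ c, (s c).card = n := ⟨_, rfl⟩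
  induction n generalizing s k t with
  | zero =>
    have h1 : ∀ c, s c = 0 := fun c => Multiset.card_eq_zero.1 (Finset.sum_eq_zero_iff.1 hn c (mem_univ c))
    have h2 : mono s = 1 := Finset.prod_eq_one fun c _ => by rw [h1, Multiset.map_zero, Multiset.prod_zero]
    rw [h2, bil_one, Sp, map_prod]
    exact Finset.prod_congr rfl fun c _ => by rw [const_SS c _ (h c), h1, FM_zero]
  | succ n ih =>
    obtain ⟨c, hc⟩ : ∃ c, s c ≠ 0 := by
      by_contra h1
      push Not at h1
      simp only [h1, _root_.Multiset.card_zero, _root_.Finset.sum_const_zero, _root_.reduceCtorEq] at hn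
    obtain ⟨j, hj⟩ := Multiset.exists_mem_of_ne_zero hc
    obtain ⟨s', hs'⟩ := Multiset.exists_cons_of_mem hj
    have h1 : mono s = X (j, c) * mono (Function.update s c s') := by
      rw [mono, mono, prod_update (fun c' (x : Multiset ℕ) => (x.map (PP c')).prod),
        ← Finset.mul_prod_erase _ _ (mem_univ c), hs', Multiset.map_cons, Multiset.prod_cons, mul_assoc]
      rfl
    have h2 : ∀ c', ∀ j ∈ Function.update s c s' c', 0 < j := fun c' => by
      by_cases hc' : c' = c
      · rw [hc', Function.update_self]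
        exact fun j hj => hs c j (hs' ▸ Multiset.mem_cons_of_mem hj)
      · rw [Function.update_of_ne hc']
        exact hs c'
    have h3 : ∑ c', (Function.update s c s' c').card = n := by
      rw [← Finset.add_sum_erase _ _ (mem_univ c), hs', Multiset.card_cons] at hn
      rw [← Finset.add_sum_erase _ _ (mem_univ c), Function.update_self,
        Finset.sum_congr rfl fun c' hc' => by rw [Function.update_of_ne (ne_of_mem_erase hc')]]
      omega
    rw [h1, bil_X_mul, Dv_Sp (hs c j hj), ← Finset.mul_prod_erase _ _ (mem_univ c)]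
    split_ifs with hk
    · rw [hs', FM_cons, map_sum, LinearMap.sum_apply, Int.cast_sum, Finset.sum_mul]
      refine Finset.sum_congr rfl fun i _ => ?_
      split_ifs with hi
      · rw [ih _ h2 _ _ (fun c' => ?_) h3, ← Finset.mul_prod_erase _ _ (mem_univ c), Function.update_self,
          Function.update_self]
        · congr 1
          refine Finset.prod_congr rfl fun c' hc' => ?_
          rw [Function.update_of_ne (ne_of_mem_erase hc'), Function.update_of_ne (ne_of_mem_erase hc')]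
        · by_cases hc' : c' = c
          · rw [hc', Function.update_self, Function.update_self]
            have := sum_dn (t c) i hi
            have := h c
            omega
          · rw [Function.update_of_ne hc', Function.update_of_ne hc']
            exact h c'
      · simp only [_root_.map_zero, _root_.LinearMap.zero_apply, _root_.Int.cast_zero, _root_.MulZeroClass.zero_mul]
    · rw [FM_eq_zero_of_sum (s c) (by
        have := h c
        rw [hs', Multiset.sum_cons]
        omega)]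
      simp only [_root_.map_zero, _root_.LinearMap.zero_apply, _root_.Int.cast_zero, _root_.MulZeroClass.zero_mul]

theorem Sp_eq [DecidableEq I] (k : I → ℕ) (t : I → Fin m → ℕ) : Sp k t = ∑ ν : ∀ c, (k c).Partition,
    (∏ c, ((zz (ν c).parts : ℂ)⁻¹ * FM (ν c).parts (t c))) • mono fun c => (ν c).parts := by
  unfold Sp SS ZV mono
  rw [Finset.prod_univ_sum, Fintype.piFinset_univ]
  refine Finset.sum_congr rfl fun ν _ => ?_
  simp only [smul_smul, Finset.prod_smul]

theorem bil_Sp_Sp (k l : I → ℕ) (β γ : I → Fin m → ℕ) (hβ : ∀ c, ∑ i, β c i = k c + ∑ i : Fin m, (i : ℕ))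
    (hγ : ∀ c, ∑ i, γ c i = l c + ∑ i : Fin m, (i : ℕ)) : bil (Sp k β) (Sp l γ) = ∏ c, (pair (γ c) (β c) : ℂ) := by
  classical
  have h1 : ∀ c, (pair (γ c) (β c) : ℂ) =
      ∑ ν : (l c).Partition, (zz ν.parts : ℂ)⁻¹ * FM ν.parts (γ c) * FM ν.parts (β c) := fun c => by
    have h2 := congrArg (fun q : ℚ => (q : ℂ)) (ortho (l c) (γ c) (β c) (hγ c))
    simp only [Z] at h2
    push_cast at h2
    rw [← h2]
    exact Finset.sum_congr rfl fun ν _ => by ring
  rw [Sp_eq l, map_sum, Finset.prod_congr rfl fun c _ => h1 c, Finset.prod_univ_sum, Fintype.piFinset_univ]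
  refine Finset.sum_congr rfl fun ν _ => ?_
  rw [map_smul, bil_Sp_mono _ (fun c j hj => (ν c).parts_pos hj) _ _ hβ, smul_eq_mul, ← Finset.prod_mul_distrib]

omit [Fintype I] in
theorem sum_eq_bsz {β : Fin m → ℕ} (h : StrictMono β) : ∑ i, β i = bsz β + ∑ i : Fin m, (i : ℕ) := by
  have : ∑ i : Fin m, (i : ℕ) ≤ ∑ i, β i := Finset.sum_le_sum fun i _ => strictMono_le h i
  rw [bsz]
  omega

theorem bil_S_S [DecidableEq I] {t t' : I → Fin m → ℕ} (h : ∀ c, StrictMono (t c)) (h' : ∀ c, StrictMono (t' c)) :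
    bil (S t) (S t') = if t = t' then 1 else 0 := by
  rw [S, S, bil_Sp_Sp _ _ _ _ (fun c => sum_eq_bsz (h c)) fun c => sum_eq_bsz (h' c)]
  split_ifs with h1
  · exact Finset.prod_eq_one fun c _ => by rw [h1, pair_self_of_strictMono (h' c), Int.cast_one]
  · obtain ⟨c, hc⟩ := Function.ne_iff.1 h1
    exact Finset.prod_eq_zero (mem_univ c) (by rw [pair_eq_zero_of_strictMono (h' c) (h c) hc.symm, Int.cast_zero])

/-! ### evaluation -/

/-- the product of linear elements -/
noncomputable def chx [Fintype α] (l : α → ℕ) (u : α → I → ℂ) : R I := ∏ a, lin (l a) (u a)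

theorem chx_eq [Fintype α] [DecidableEq α] [DecidableEq I] (l : α → ℕ) (u : α → I → ℂ) :
    chx l u = ∑ col : α → I, (∏ a, u a (col a)) • mono (part l col) := by
  unfold chx lin
  rw [Finset.prod_univ_sum, Fintype.piFinset_univ]
  refine Finset.sum_congr rfl fun col _ => ?_
  rw [Finset.prod_smul, mono, ← Finset.prod_fiberwise (s := univ) (g := col) fun a => (X (l a, col a) : R I)]
  congr 1
  refine Finset.prod_congr rfl fun c _ => ?_
  rw [part, Multiset.map_map]
  exact Finset.prod_congr rfl fun a ha => by rw [(mem_filter.1 ha).2]; rfl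

omit [Fintype I] in
theorem part_pos [Fintype α] [DecidableEq I] {l : α → ℕ} (hl : ∀ a, 0 < l a) (col : α → I) (c : I) :
    ∀ j ∈ part l col c, 0 < j := fun j hj => by
  obtain ⟨a, -, rfl⟩ := Multiset.mem_map.1 hj
  exact hl a

theorem bil_Sp_chx [Fintype α] [DecidableEq α] [DecidableEq I] {l : α → ℕ} (hl : ∀ a, 0 < l a) (u : α → I → ℂ)
    (k : I → ℕ) (t : I → Fin m → ℕ) (h : ∀ c, ∑ i, t c i = k c + ∑ i : Fin m, (i : ℕ)) :
    bil (Sp k t) (chx l u) = EV l u t := by
  rw [chx_eq, map_sum, EV]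
  refine Finset.sum_congr rfl fun col _ => ?_
  rw [map_smul, bil_Sp_mono _ (part_pos hl col) _ _ h, smul_eq_mul]

theorem bil_S_chx [Fintype α] [DecidableEq α] [DecidableEq I] {l : α → ℕ} (hl : ∀ a, 0 < l a) (u : α → I → ℂ)
    {t : I → Fin m → ℕ} (h : ∀ c, StrictMono (t c)) : bil (S t) (chx l u) = EV l u t :=
  bil_Sp_chx hl u _ t fun c => sum_eq_bsz (h c)

/-- **Naturality of the evaluation** under linear substitutions. -/
theorem bil_map [Fintype J] [Fintype α] (ρ : R J →ₐ[ℂ] R I) (μ : ℕ → J → I → ℂ)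
    (hρ : ∀ v : ℕ × J, ρ (X v) = lin v.1 (μ v.1 v.2)) (l : α → ℕ) (u : α → I → ℂ) (f : R J) :
    bil (ρ f) (chx l u) = bil f (chx l fun a i => ∑ c, μ (l a) i c * u a c) := by
  classical
  have h0 : ∀ f : R J, constantCoeff (ρ f) = constantCoeff f := fun f => by
    induction f using MvPolynomial.induction_on with
    | C a => rw [algHom_C, algebraMap_eq, constantCoeff_C, constantCoeff_C]
    | add p q hp hq => rw [map_add, map_add, map_add, hp, hq]
    | mul_X p v _ => simp only [hρ, lin, _root_.map_mul, _root_.map_sum, _root_.MvPolynomial.constantCoeff_smul, _root_.MvPolynomial.constantCoeff_X, _root_.smul_eq_mul, _root_.MulZeroClass.mul_zero, _root_.Finset.sum_const_zero]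
  have h1 : ∀ (j : ℕ) (w : I → ℂ) (f : R J), der j w (ρ f) = ρ (der j (fun i => ∑ c, μ j i c * w c) f) := by
    intro j w f
    induction f using MvPolynomial.induction_on with
    | C a => rw [algHom_C, Derivation.map_algebraMap, ← algebraMap_eq, Derivation.map_algebraMap, map_zero]
    | add p q hp hq => rw [map_add, map_add, map_add, map_add, hp, hq]
    | mul_X p v hp =>
      simp only [map_mul, Derivation.leibniz, Derivation.leibniz, map_add, smul_eq_mul, smul_eq_mul, smul_eq_mul, smul_eq_mul,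
        map_mul, map_mul, hp]
      congr 2
      rw [hρ, der_lin, der_X]
      split_ifs with h
      · rw [algHom_C, h]
        rfl
      · rw [map_zero]
  unfold chx
  generalize (univ : Finset α) = T
  induction T using Finset.induction_on generalizing f with
  | empty => rw [Finset.prod_empty, Finset.prod_empty, bil_one, bil_one, h0]
  | insert a T ha ih => rw [Finset.prod_insert ha, Finset.prod_insert ha, bil_lin_mul, bil_lin_mul, h1, ih]

/-! ### the span -/

instance finiteLb (n : ℕ) : Finite {t : I → Fin m → ℕ // Lb n t} := by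
  refine Finite.of_injective (β := I → Fin m → Fin (n + ∑ i : Fin m, (i : ℕ) + 1))
    (fun t c i => ⟨t.1 c i, ?_⟩) fun t t' h => Subtype.ext (_root_.funext fun c => _root_.funext fun i => ?_)
  · have h1 := sum_eq_bsz (t.2.1 c)
    have h2 := Finset.single_le_sum (f := fun c => bsz (t.1 c)) (fun _ _ => Nat.zero_le _) (mem_univ c)
    have h3 := Finset.single_le_sum (f := t.1 c) (fun _ _ => Nat.zero_le _) (mem_univ i)
    have h4 := t.2.2
    omega
  · exact congrArg Fin.val (congrFun (congrFun h c) i)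

/-- the span of the labelled products of size `n` -/
noncomputable def SL (I : Type) [Fintype I] (m n : ℕ) : Submodule ℂ (R I) :=
  Submodule.span ℂ (Set.range fun t : {t : I → Fin m → ℕ // Lb n t} => S t.1)

theorem mono_mem {n : ℕ} (hn : n ≤ m) {s : I → Multiset ℕ} (hs : ∀ c, ∀ j ∈ s c, 0 < j) (h : ∑ c, (s c).sum = n) :
    mono s ∈ SL I m n := by
  classical
  have h1 : ∀ c, (s c).sum ≤ m := fun c =>
    (Finset.single_le_sum (f := fun c => (s c).sum) (fun _ _ => Nat.zero_le _) (mem_univ c)).trans (h.le.trans hn)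
  rw [mono, Finset.prod_congr rfl fun c _ => prod_eq_sum_SS (PP c) (h1 c) ⟨s c, fun hi => hs c _ hi, rfl⟩,
    Finset.prod_univ_sum]
  refine Submodule.sum_mem _ fun ν _ => ?_
  rw [Finset.prod_smul]
  have h2 : ∀ c, (ν c).parts.card ≤ m := fun c => card_le_of_partition (ν c) (h1 c)
  have h3 : ∀ c, bsz (betaOf m (ν c).parts) = (s c).sum := fun c => by
    rw [bsz, sum_betaOf (h2 c), (ν c).parts_sum, Nat.add_sub_cancel]
  refine Submodule.smul_mem _ _ (Submodule.subset_span ⟨⟨fun c => betaOf m (ν c).parts,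
    fun c => betaOf_strictMono (h2 c), by simp only [h3, h]⟩, ?_⟩)
  simp only [S, Sp, h3]

theorem chx_mem [Fintype α] {l : α → ℕ} (hl : ∀ a, 0 < l a) (hm : ∑ a, l a ≤ m) (u : α → I → ℂ) :
    chx l u ∈ SL I m (∑ a, l a) := by
  classical
  rw [chx_eq]
  refine Submodule.sum_mem _ fun col _ => Submodule.smul_mem _ _ (mono_mem hm (part_pos hl col) ?_)
  simp only [part_sum]
  exact Finset.sum_fiberwise _ _ _

theorem eq_sum_of_mem {n : ℕ} [Fintype {t : I → Fin m → ℕ // Lb n t}] {f : R I} (hf : f ∈ SL I m n) :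
    f = ∑ t : {t : I → Fin m → ℕ // Lb n t}, bil (S t.1) f • S t.1 := by
  classical
  obtain ⟨a, rfl⟩ := (Submodule.mem_span_range_iff_exists_fun ℂ).1 hf
  refine Finset.sum_congr rfl fun t _ => ?_
  rw [map_sum, Finset.sum_eq_single t (fun t' _ h => by
    rw [map_smul, bil_S_S t.2.1 t'.2.1, if_neg fun h1 => h (Subtype.ext h1).symm, smul_zero])
    (fun h => absurd (mem_univ _) h), map_smul, bil_S_S t.2.1 t.2.1, if_pos rfl, smul_eq_mul, mul_one]

end Cfsg.Agent.MO.W
end

-- part: MO/W/Iso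
section
/-!
# MO-W: the evaluation is an isometry (helper18)

* `cauchy` : the Cauchy kernel; `sum_permV` : sums over the symmetric group;
* `chW u x` : the characteristic polynomial of the element `x` of the wreath product; `iso` : the isometry.
-/

set_option autoImplicit false

namespace Cfsg.Agent.MO.W

open Cfsg Equiv Finset MvPolynomial Cfsg.Agent.H614 Cfsg.Agent.H614.GLn
open Cfsg.Agent.H577.GLB.Std (bsz)
open scoped TensorProduct ComplexConjugate

variable {I K ι : Type} {m : ℕ}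

/-- homogeneous of weight `n` -/
abbrev Hm (n : ℕ) (f : R I) : Prop := IsWeightedHomogeneous (fun v : ℕ × I => v.1) f n

theorem Hm.smul {n : ℕ} {f : R I} (h : Hm n f) (a : ℂ) : Hm n (a • f) :=
  (weightedHomogeneousSubmodule ℂ _ n).smul_mem a h

theorem hm_map (c : I) (s : Multiset ℕ) : Hm s.sum ((s.map (PP c)).prod) := by
  induction s using Multiset.induction_on with
  | empty => simpa using isWeightedHomogeneous_one ℂ fun v : ℕ × I => v.1
  | cons a s ih =>
    rw [Multiset.map_cons, Multiset.prod_cons, Multiset.sum_cons]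
    exact (isWeightedHomogeneous_X ℂ (fun v : ℕ × I => v.1) (a, c)).mul ih

theorem hm_ZV (c : I) (k : ℕ) (a : Multiset ℕ → ℂ) : Hm k (ZV k fun s => a s • (s.map (PP c)).prod) := by
  refine IsWeightedHomogeneous.sum _ _ _ fun ν _ => Hm.smul (Hm.smul ?_ _) _
  have := hm_map c ν.parts
  rwa [ν.parts_sum] at this

/-- the tensor product of two functionals -/
noncomputable def Lam (f g : R I) : R I ⊗[ℂ] R I →ₗ[ℂ] ℂ :=
  TensorProduct.lift ((LinearMap.mul ℂ ℂ).compl₁₂ (bil f) (bil g))

theorem Lam_tmul (f g a b : R I) : Lam f g (a ⊗ₜ b) = bil f a * bil g b := rfl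

theorem Lam_mul (f g : R I) (v w : ℕ × I) (z : R I ⊗[ℂ] R I) :
    Lam f g ((X v ⊗ₜ X w) * z) = Lam (Dv v f) (Dv w g) z := by
  induction z using TensorProduct.induction_on with
  | zero => simp
  | tmul a b => simp only [Algebra.TensorProduct.tmul_mul_tmul, Lam_tmul, Lam_tmul, bil_X_mul, bil_X_mul]
  | add a b ha hb => simp only [mul_add, map_add, map_add, ha, hb]

theorem bil_zero {f : R I} (hf : Hm 0 f) (g : R I) : bil f g = constantCoeff f * constantCoeff g := by
  classical
  induction hf using IsWeightedHomogeneous.induction_on with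
  | zero => simp
  | add p q _ _ hp hq => rw [map_add, LinearMap.add_apply, hp, hq, map_add, add_mul]
  | monomial d r hr =>
    rw [bil_monomial, constantCoeff_monomial]
    split_ifs with h
    · rw [h, Nf, Finsupp.prod_zero_index, one_mul]
      rfl
    · obtain ⟨v, hv⟩ := Finsupp.support_nonempty_iff.2 h
      have h1 := Finset.sum_eq_zero_iff.1 ((Finsupp.weight_apply _ _).symm.trans hr) v hv
      have h2 := Finsupp.mem_support_iff.1 hv
      have h3 : v.1 = 0 := by simpa [h2] using h1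
      rw [Nf, Finsupp.prod, Finset.prod_eq_zero hv (by rw [h3, Nat.cast_zero, zero_pow h2, mul_zero])]
      simp

variable [Fintype I]

theorem hm_S {n : ℕ} {t : I → Fin m → ℕ} (h : ∑ c, bsz (t c) = n) : Hm n (S t) :=
  h ▸ IsWeightedHomogeneous.prod _ _ _ fun c _ => hm_ZV c _ _

theorem euler {n : ℕ} {f : R I} (hf : Hm n f) :
    ∑ r ∈ Icc 1 n, ∑ c, X (r, c) * Dv (r, c) f = (n : ℂ) • f := by
  classical
  induction hf using IsWeightedHomogeneous.induction_on with
  | zero => simp only [_root_.map_zero, _root_.MulZeroClass.mul_zero, _root_.Finset.sum_const_zero, _root_.smul_zero]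
  | add p q _ _ hp hq => simp only [map_add, mul_add, Finset.sum_add_distrib, hp, hq, smul_add]
  | monomial d r hr =>
    rw [← Finset.sum_product' (f := fun r' c => X (r', c) * Dv (r', c) (monomial d r : R I))]
    have h1 : ∀ v : ℕ × I, X (v.1, v.2) * Dv (v.1, v.2) (monomial d r : R I) =
        ((d v * v.1 : ℕ) : ℂ) • monomial d r := fun v => by
      rw [Dv, Derivation.smul_apply, mul_smul_comm, X_mul_pderiv_monomial, ← Nat.cast_smul_eq_nsmul ℂ, smul_smul,
        Nat.cast_mul, mul_comm]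
    rw [Finset.sum_congr rfl fun v _ => h1 v, ← Finset.sum_smul, ← Nat.cast_sum]
    have h2 : ∑ v ∈ d.support, d v * v.1 = n := (Finsupp.weight_apply _ _).symm.trans hr
    congr 2
    rw [← h2]
    refine Finset.sum_congr_of_eq_on_inter (fun v _ hv => ?_) (fun v hv hv' => ?_) fun _ _ _ => rfl
    · rw [Finsupp.notMem_support_iff.1 hv, zero_mul]
    · have h3 := Finset.single_le_sum (f := fun v : ℕ × I => d v * v.1) (fun _ _ => Nat.zero_le _) hv
      have h4 := Nat.le_mul_of_pos_left v.1 (Nat.pos_of_ne_zero (Finsupp.mem_support_iff.1 hv))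
      simp only [mem_product, mem_Icc, mem_univ, and_true] at hv'
      rw [show v.1 = 0 by omega, mul_zero]

variable (I) in
/-- the power sums of the kernel -/
noncomputable def Pk (j : ℕ) : R I ⊗[ℂ] R I := ∑ c, X (j, c) ⊗ₜ X (j, c)

/-- **The Cauchy kernel.** -/
theorem cauchy (n : ℕ) : ∀ f g : R I, Hm n f → Lam f g (hh (Pk I) n) = bil f g := by
  induction n using Nat.strong_induction_on with
  | _ n ih =>
    intro f g hf
    rcases Nat.eq_zero_or_pos n with rfl | hn
    · rw [hh_zero, Algebra.TensorProduct.one_def, Lam_tmul, bil_one, bil_one, bil_zero hf]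
    · refine mul_left_cancel₀ (Nat.cast_ne_zero.2 hn.ne' : (n : ℂ) ≠ 0) ?_
      rw [← smul_eq_mul, ← map_smul, hh_rec, map_sum, ← smul_eq_mul, ← LinearMap.smul_apply, ← map_smul, ← euler hf,
        map_sum, LinearMap.sum_apply]
      refine Finset.sum_congr rfl fun r hr => ?_
      rw [mem_Icc] at hr
      rw [Pk, Finset.sum_mul, map_sum, map_sum, LinearMap.sum_apply]
      refine Finset.sum_congr rfl fun c _ => ?_
      rw [Lam_mul, ih (n - r) (by omega) _ _ (Hm.smul (hf.pderiv (Nat.sub_add_cancel hr.2)) _), bil_comm (X _ * _),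
        bil_X_mul, bil_comm]

omit [Fintype I] in
theorem sum_permV [Fintype ι] [DecidableEq ι] {A : Type} [AddCommGroup A] [Module ℂ A] (f : Multiset ℕ → A) :
    ∑ σ : Perm ι, f (ty σ) = ((Fintype.card ι).factorial : ℂ) • ZV (Fintype.card ι) f := by
  rw [← Finset.sum_fiberwise (s := univ) (g := fun g : Perm ι => g.partition), ZV, Finset.smul_sum]
  refine Finset.sum_congr rfl fun ν _ => ?_
  rw [Finset.sum_congr rfl (g := fun _ => f ν.parts) fun g hg => by rw [ty, (mem_filter.1 hg).2], Finset.sum_const,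
    ← card_partition_eq ν, smul_smul, ← Nat.cast_smul_eq_nsmul ℂ]
  have h3 : (zz ν.parts : ℂ) ≠ 0 := Nat.cast_ne_zero.2 (zz_pos fun i hi => ν.parts_pos hi).ne'
  rw [Nat.cast_mul, mul_assoc, mul_inv_cancel₀ h3, mul_one]

variable [Group K]

/-- the characteristic polynomial of an element -/
noncomputable def chW [Finite ι] (u : ℕ → K → I → ℂ) (x : Wr K ι) : R I :=
  chx (fun O : Cyc x.right => len O) fun O => u (len O) (gp x O)

theorem card_Wr [Fintype ι] [DecidableEq ι] [Fintype K] :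
    Nat.card (Wr K ι) = Fintype.card K ^ Fintype.card ι * (Fintype.card ι).factorial := by
  rw [Nat.card_congr SemidirectProduct.equivProd, Nat.card_eq_fintype_card, Fintype.card_prod, Fintype.card_fun,
    Fintype.card_perm]

/-- **The isometry.** -/
theorem iso [Fintype ι] [Fintype K] [Fintype (Wr K ι)] [DecidableEq I] (u u' : ℕ → K → I → ℂ)
    (h : ∀ j c c', (Fintype.card K : ℂ)⁻¹ * ∑ g, u j g c * u' j g c' = if c = c' then 1 else 0)
    (f g : R I) (hf : Hm (Fintype.card ι) f) :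
    (Nat.card (Wr K ι) : ℂ)⁻¹ * ∑ x : Wr K ι, bil f (chW u x) * bil g (chW u' x) = bil f g := by
  classical
  have h1 : ∀ x : Wr K ι, bil f (chW u x) * bil g (chW u' x) = Lam f g (∏ O : Cyc x.right,
      lin (len O) (u (len O) (gp x O)) ⊗ₜ lin (len O) (u' (len O) (gp x O))) := fun x => by
    rw [← Lam_tmul]
    congr 1
    unfold chW chx
    generalize (univ : Finset (Cyc x.right)) = T
    induction T using Finset.induction_on with
    | empty => rfl
    | insert a T ha ih =>
      simp only [Finset.prod_insert ha, Finset.prod_insert ha, Finset.prod_insert ha, ← ih, Algebra.TensorProduct.tmul_mul_tmul]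
  have h2 : ∀ j, (Fintype.card K : ℂ)⁻¹ • ∑ g, lin j (u j g) ⊗ₜ[ℂ] lin j (u' j g) = Pk I j := fun j => by
    simp only [lin, TensorProduct.sum_tmul, TensorProduct.tmul_sum, TensorProduct.smul_tmul_smul]
    rw [Finset.sum_comm, Finset.smul_sum, Pk]
    refine Finset.sum_congr rfl fun c' _ => ?_
    rw [Finset.sum_comm, Finset.smul_sum]
    simp only [← Finset.sum_smul, smul_smul, h]
    simp only [_root_.ite_smul, _root_.one_smul, _root_.zero_smul, _root_.Finset.sum_ite_eq', _root_.Finset.mem_univ, ↓ _root_.reduceIte]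
  have hK : (Fintype.card K : ℂ) ≠ 0 := Nat.cast_ne_zero.2 Fintype.card_ne_zero
  have hn : ((Fintype.card ι).factorial : ℂ) ≠ 0 := Nat.cast_ne_zero.2 (Nat.factorial_ne_zero _)
  rw [Finset.sum_congr rfl fun x _ => h1 x, ← map_sum, ← SemidirectProduct.equivProd.symm.sum_comp,
    Fintype.sum_prod_type_right]
  have h3 : ∀ σ : Perm ι, ∑ k : ι → K, ∏ O : Cyc σ, lin (len O) (u (len O) (gp (⟨k, σ⟩ : Wr K ι) O)) ⊗ₜ[ℂ]
      lin (len O) (u' (len O) (gp (⟨k, σ⟩ : Wr K ι) O)) =
      ((Fintype.card K : ℂ) ^ Fintype.card ι) • ((ty σ).map (Pk I)).prod := fun σ => by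
    rw [sum_gp σ fun O g => lin (len O) (u (len O) g) ⊗ₜ[ℂ] lin (len O) (u' (len O) g), ← prod_len]
    simp only [h2]
  refine (congrArg _ (congrArg _ (Finset.sum_congr rfl fun σ _ => h3 σ))).trans ?_
  rw [← Finset.smul_sum, sum_permV fun s => (s.map (Pk I)).prod, map_smul, map_smul, ← hh, cauchy _ _ _ hf, card_Wr]
  push_cast
  simp only [smul_eq_mul]
  field_simp

end Cfsg.Agent.MO.W
end

-- part: MO/W/Ten
section
/-!
# MO-W: weight spaces of tensor powers (helper18)

`isCharacter_EV` : for characters `χ i` of `K` the sum over all colourings of the cycles with given sizes `r i` of the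
colours is a character of the wreath product.
-/

set_option autoImplicit false
set_option linter.unusedSectionVars false

namespace Cfsg.Agent.MO.W

open Cfsg Equiv Finset Cfsg.Agent.H614 Cfsg.Agent.Characters.Core

variable {K ι J D : Type} [Group K]

theorem card_cy [Fintype ι] (σ : Perm ι) (O : Cyc σ) : #{a | cy σ a = O} = len O := by
  classical
  rw [← Finset.card_range (len O)]
  refine (Finset.card_nbij (fun n => (σ ^ n) (pt O)) (fun n _ => ?_) (fun n hn n' hn' h => ?_) fun a ha => ?_).symm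
  · rw [mem_coe, mem_filter]
    refine ⟨mem_univ _, ?_⟩
    rw [← cy_pt O, cy_pt, ← cy_pt O, cy_eq_iff, cy_pt]
    exact Perm.sameCycle_pow_left.2 (Perm.SameCycle.refl _ _)
  · exact Function.iterate_injOn_Iio_minimalPeriod (f := σ) (x := pt O) (mem_range.1 hn) (mem_range.1 hn') h
  · obtain ⟨n, hn⟩ := exists_ht σ a
    rw [(mem_filter.1 ha).2] at hn
    exact ⟨n % len O, mem_range.2 (Nat.mod_lt _ (len_pos O)),
      (Function.iterate_mod_minimalPeriod_eq (f := σ) (x := pt O) (n := n)).trans hn⟩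

theorem card_col_cy [Fintype ι] [DecidableEq J] (σ : Perm ι) (col : Cyc σ → J) (i : J) :
    #{a | col (cy σ a) = i} = ∑ O with col O = i, len O := by
  rw [Finset.card_eq_sum_card_fiberwise (f := cy σ) (t := univ.filter fun O => col O = i) fun a ha =>
    mem_filter.2 ⟨mem_univ _, (mem_filter.1 ha).2⟩]
  refine Finset.sum_congr rfl fun O hO => ?_
  rw [← card_cy, Finset.filter_filter]
  refine congrArg _ (Finset.filter_congr fun a _ => ⟨fun h => h.2, fun h => ⟨?_, h⟩⟩)
  rw [h, (mem_filter.1 hO).2]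

variable [Fintype ι] [DecidableEq ι] [Fintype D] [DecidableEq D]

/-- the entries of the tensor power -/
noncomputable def ent (M : K →* Matrix D D ℂ) (x : Wr K ι) (y y' : ι → D) : ℂ :=
  ∏ a, M (x.left a) (y a) (y' (x.right⁻¹ a))

theorem ent_one (M : K →* Matrix D D ℂ) (y y' : ι → D) : ent M 1 y y' = if y = y' then 1 else 0 := by
  have h1 : ∀ a, M ((1 : Wr K ι).left a) (y a) (y' ((1 : Wr K ι).right⁻¹ a)) = if y a = y' a then 1 else 0 := fun a => by
    rw [← Matrix.one_apply, ← map_one M]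
    rfl
  rw [ent, Finset.prod_congr rfl fun a _ => h1 a, Finset.prod_boole]
  simp only [funext_iff, _root_.Finset.mem_univ, _root_.forall_const]

theorem ent_mul (M : K →* Matrix D D ℂ) (x w : Wr K ι) (y z : ι → D) :
    ent M (x * w) y z = ∑ y', ent M x y y' * ent M w y' z := by
  have h1 : ent M (x * w) y z =
      ∏ a, ∑ p, M (x.left a) (y a) p * M (w.left (x.right⁻¹ a)) p (z (w.right⁻¹ (x.right⁻¹ a))) := by
    refine Finset.prod_congr rfl fun a _ => ?_
    rw [mul_left, map_mul, Matrix.mul_apply, SemidirectProduct.mul_right, mul_inv_rev, Perm.mul_apply]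
  rw [h1, Finset.prod_univ_sum, Fintype.piFinset_univ]
  refine Fintype.sum_equiv (Equiv.arrowCongr x.right⁻¹ (Equiv.refl D)) _ _ fun p => ?_
  rw [ent, ent, ← Equiv.prod_comp x.right⁻¹ fun a => M (w.left a) _ _, ← Finset.prod_mul_distrib]
  refine Finset.prod_congr rfl fun a _ => ?_
  have h2 : x.right⁻¹.symm (x.right⁻¹ a) = a := x.right⁻¹.symm_apply_apply a
  simp only [Equiv.arrowCongr_apply, Equiv.coe_refl, Function.comp_apply, id, h2]

theorem ent_nf (M : K →* Matrix D D ℂ) (x : Wr K ι) (y : ι → D) : ent M (nf x) y y =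
    if ∀ a, y a = y (pt (cy x.right a)) then ∏ O, M (gp x O) (y (pt O)) (y (pt O)) else 0 := by
  rw [ent, nf_right]
  split_ifs with h
  · have h1 : ∀ a, y (x.right⁻¹ a) = y a := fun a => by rw [h, cy_inv, ← h]
    rw [prod_pt x.right _ fun a ha => by rw [nf_left_ne x ha, map_one, h1, Matrix.one_apply_eq]]
    exact Finset.prod_congr rfl fun O _ => by rw [nf_left_pt, h1]
  · by_contra h1
    refine h fun a => ?_
    obtain ⟨n, hn⟩ : ∃ n, ht x.right a = n := ⟨_, rfl⟩
    induction n generalizing a with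
    | zero =>
      by_contra h2
      rw [ht_succ fun h3 => h2 (by rw [h3])] at hn
      omega
    | succ n ih =>
      have h2 : pt (cy x.right a) ≠ a := fun h2 => by
        rw [← h2, ht_pt] at hn
        omega
      have h3 := Finset.prod_ne_zero_iff.1 h1 a (mem_univ a)
      rw [nf_left_ne x h2, map_one, Matrix.one_apply] at h3
      have h4 := ht_succ h2
      rw [← cy_inv, ← ih _ (by omega)]
      by_contra h5
      exact h3 (if_neg h5)

variable [Fintype J] [DecidableEq J]

theorem isCharacter_blk (M : K →* Matrix D D ℂ) (cl : D → J) (hM : ∀ g p q, cl p ≠ cl q → M g p q = 0) (r : J → ℕ) :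
    IsCharacter (Wr K ι) fun x => ∑ col : Cyc x.right → J, if ∀ i, ∑ O with col O = i, len O = r i then
      ∏ O, ∑ q with cl q = col O, M (gp x O) q q else 0 := by
  let P : (ι → D) → Prop := fun y => ∀ i, #{a | cl (y a) = i} = r i
  have hP : ∀ (x : Wr K ι) y y', P y → ent M x y y' ≠ 0 → P y' := fun x y y' hy h i => by
    rw [← hy i]
    refine Finset.card_equiv x.right fun a => ?_
    have h1 := Finset.prod_ne_zero_iff.1 h (x.right a) (mem_univ _)
    have h2 : cl (y (x.right a)) = cl (y' a) := by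
      by_contra h2
      refine h1 (hM _ _ _ ?_)
      rwa [show x.right⁻¹ (x.right a) = a from x.right.symm_apply_apply a]
    simp only [h2, _root_.Finset.mem_filter, _root_.Finset.mem_univ, _root_.true_and]
  let ρ : Wr K ι →* Matrix {y // P y} {y // P y} ℂ :=
    { toFun := fun x => Matrix.of fun y y' => ent M x y.1 y'.1
      map_one' := by
        ext y y'
        rw [Matrix.of_apply, ent_one, Matrix.one_apply]
        simp only [Subtype.ext_iff]
      map_mul' := fun x w => by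
        ext y z
        simp only [Matrix.mul_apply, Matrix.of_apply]
        rw [ent_mul, ← Finset.sum_subtype (univ.filter P) (by simp only [_root_.Finset.mem_filter, _root_.Finset.mem_univ, _root_.true_and, _root_.implies_true])
          fun y' => ent M x y.1 y' * ent M w y' z.1, Finset.sum_filter_of_ne fun y' _ h =>
            hP x _ _ y.2 (left_ne_zero_of_mul h)] }
  have h1 := S0148.isCharacter_of_matrix ρ
  convert h1 using 2 with x
  have h2 : (ρ x).trace = (ρ (nf x)).trace := by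
    have := isCharacter_isClassFunction h1 x (SemidirectProduct.inl (pth x))⁻¹
    rw [inv_inv] at this
    exact this.symm
  have h3 : (ρ (nf x)).trace = ∑ y with P y, ent M (nf x) y y :=
    (Finset.sum_subtype (univ.filter P) (by simp only [_root_.Finset.mem_filter, _root_.Finset.mem_univ, _root_.true_and, _root_.implies_true]) fun y => ent M (nf x) y y).symm
  have h4 : ∑ y with P y, ent M (nf x) y y =
      ∑ z : Cyc x.right → D with P fun a => z (cy x.right a), ∏ O, M (gp x O) (z O) (z O) := by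
    simp only [ent_nf]
    rw [← Finset.sum_filter, Finset.filter_filter]
    refine Finset.sum_nbij' (fun y O => y (pt O)) (fun z a => z (cy x.right a)) (fun y hy => ?_) (fun z hz => ?_)
      (fun y hy => ?_) (fun z _ => ?_) fun _ _ => rfl
    · rw [mem_filter] at hy ⊢
      exact ⟨mem_univ _, by simpa only [← hy.2.2] using hy.2.1⟩
    · rw [mem_filter] at hz ⊢
      exact ⟨mem_univ _, hz.2, fun a => by simp only [cy_pt]⟩
    · exact funext fun a => ((mem_filter.1 hy).2.2 a).symm
    · exact funext fun O => by simp only [cy_pt]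
  rw [h2, h3, h4, ← Finset.sum_fiberwise (s := univ.filter _) (g := fun z O => cl (z O))]
  refine Finset.sum_congr rfl fun col _ => ?_
  have h5 : ∀ z : Cyc x.right → D, (fun O => cl (z O)) = col →
      ((P fun a => z (cy x.right a)) ↔ ∀ i, ∑ O with col O = i, len O = r i) := by
    rintro z rfl
    exact forall_congr' fun i => by rw [card_col_cy x.right fun O => cl (z O)]
  split_ifs with h
  · rw [Finset.prod_univ_sum]
    refine Finset.sum_congr ?_ fun _ _ => rfl
    ext z
    simp only [Fintype.mem_piFinset, mem_filter, mem_univ, true_and]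
    exact ⟨fun h6 => ⟨(h5 z (funext h6)).2 h, funext h6⟩, fun h6 => congrFun h6.2⟩
  · refine (Finset.sum_eq_zero fun z hz => ?_).symm
    simp only [mem_filter, mem_univ, true_and] at hz
    exact absurd ((h5 z hz.2).1 hz.1) h

theorem FM_one (s : Multiset ℕ) (r : ℕ) : FM s (fun _ : Fin 1 => r) = if s.sum = r then 1 else 0 := by
  induction s using Multiset.induction_on generalizing r with
  | empty =>
    rw [FM_zero, vac, Finset.univ_unique, Finset.sum_singleton]
    simp [funext_iff, eq_comm, sg]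
  | cons j s ih =>
    rw [FM_cons, Finset.univ_unique, Finset.sum_singleton, Multiset.sum_cons]
    have h : dn (fun _ : Fin 1 => r) default j = fun _ => r - j := funext fun i => by
      rw [Subsingleton.elim i default, dn_self]
    rw [h, ih]
    split_ifs <;> first | rfl | omega

omit [DecidableEq ι] in
/-- **The weight spaces of the tensor powers.** -/
theorem isCharacter_EV (χ : J → K → ℂ) (hχ : ∀ i, IsCharacter K (χ i)) (r : J → ℕ) :
    IsCharacter (Wr K ι) fun x => EV (fun O : Cyc x.right => len O) (fun O i => χ i (gp x O)) fun i (_ : Fin 1) => r i := by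
  classical
  choose d ρ hρ using hχ
  let M : ∀ i, K →* Matrix (Fin (d i)) (Fin (d i)) ℂ := fun i =>
    ((LinearMap.toMatrixAlgEquiv' : ((Fin (d i) → ℂ) →ₗ[ℂ] (Fin (d i) → ℂ)) ≃ₐ[ℂ] Matrix (Fin (d i)) (Fin (d i)) ℂ) :
      ((Fin (d i) → ℂ) →ₗ[ℂ] (Fin (d i) → ℂ)) →* Matrix (Fin (d i)) (Fin (d i)) ℂ).comp (ρ i)
  have hM : ∀ i g, (M i g).trace = χ i g := fun i g => by
    rw [← hρ]
    change (LinearMap.toMatrix' (ρ i g)).trace = LinearMap.trace ℂ _ (ρ i g)
    rw [← Matrix.trace_toLin'_eq, Matrix.toLin'_toMatrix']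
  let B : K →* Matrix (Σ i, Fin (d i)) (Σ i, Fin (d i)) ℂ :=
    (Matrix.blockDiagonal'RingHom (fun i => Fin (d i)) ℂ).toMonoidHom.comp (MonoidHom.pi M)
  have hB : ∀ g, B g = Matrix.blockDiagonal' fun i => M i g := fun _ => rfl
  convert isCharacter_blk (ι := ι) B Sigma.fst 
    (fun g p q h => Matrix.blockDiagonal'_apply_ne (fun i => M i g) p.2 q.2 h) r
    using 2 with x
  refine Finset.sum_congr rfl fun col _ => ?_
  split_ifs with h
  · rw [Finset.prod_eq_one (s := univ) (f := fun c => (FM _ _ : ℂ)) fun c _ => by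
      rw [FM_one, if_pos ((part_sum _ _ _).trans (h c)), Int.cast_one], mul_one]
    refine Finset.prod_congr rfl fun O _ => ?_
    rw [Finset.sum_filter, Fintype.sum_sigma, Finset.sum_eq_single (col O) (fun i _ hi => by simp only [hi, ↓ _root_.reduceIte, _root_.Finset.sum_const_zero])
      (fun h => absurd (mem_univ _) h)]
    simp only [hB, Matrix.trace, ← hM, _root_.Matrix.diag_apply, ↓ _root_.reduceIte, _root_.Matrix.blockDiagonal'_apply_eq]
  · obtain ⟨c, hc⟩ := not_forall.1 h
    rw [Finset.prod_eq_zero (mem_univ c) (f := fun c => (FM _ _ : ℂ)) (by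
      rw [FM_one, if_neg fun h1 => hc ((part_sum _ _ _).symm.trans h1), Int.cast_zero]), mul_zero]

end Cfsg.Agent.MO.W
end

-- part: MO/W/Bij
section
/-!
# MO-W: the labels classify the irreducible characters (helper18)

* `good S` : the sequences of power sums whose complete symmetric functions lie in the subring `S`;
* `HS I` : the ring generated by the complete symmetric functions; `gen_HS` : its elements give generalized characters;
* `sub μ` : linear substitutions; `inner_psi` : orthonormality; `wBij : WBij`.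
-/

set_option autoImplicit false
set_option linter.unusedSectionVars false

namespace Cfsg.Agent.MO.W

open Cfsg Equiv Finset MvPolynomial Cfsg.Agent.H614 Cfsg.Agent.H614.GLn Cfsg.Agent.Characters.Core
open Cfsg.Agent.OddOrderCharacters.VChar
open Cfsg.Agent.H577.GLB.Std (bsz)
open Cfsg.Agent.H421.GLn (newt newt_unique newt_zero hS pS dS_hS dS_mul uniq_trunc)
open scoped ComplexConjugate

section sym

variable {A A' : Type} [CommRing A] [Algebra ℂ A] [CommRing A'] [Algebra ℂ A'] {m : ℕ}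

theorem map_SS (φ : A →ₐ[ℂ] A') (P : ℕ → A) (k : ℕ) (β : Fin m → ℕ) : φ (SS P k β) = SS (fun j => φ (P j)) k β := by
  refine (ZV_map φ.toLinearMap k _).trans (ZV_congr fun s _ _ => ?_)
  rw [map_smul, AlgHom.toLinearMap_apply, map_multiset_prod, Multiset.map_map]
  rfl

theorem hh_eq_SS (P : ℕ → A) (r : ℕ) : hh P r = SS P r fun _ : Fin 1 => r :=
  ZV_congr fun s hs _ => by rw [FM_one, if_pos hs, Int.cast_one, one_smul]

theorem map_hh (φ : A →ₐ[ℂ] A') (P : ℕ → A) (k : ℕ) : φ (hh P k) = hh (fun j => φ (P j)) k := by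
  rw [hh_eq_SS, hh_eq_SS, map_SS]

theorem hh_smul (a : ℂ) (P : ℕ → A) (n : ℕ) : hh (fun j => a ^ j • P j) n = a ^ n • hh P n := by
  rw [hh, hh, ← ZV_smul]
  refine ZV_congr fun s hs _ => ?_
  subst hs
  induction s using Multiset.induction_on with
  | empty => simp
  | cons j s ih => simp [ih fun i hi => by simp_all only [_root_.Multiset.mem_cons, _root_.or_true, _root_.implies_true, _root_.forall_const, _root_.forall_eq_or_imp], pow_add, smul_smul, mul_comm]

theorem hh_newt (P : ℕ → A) (k : ℕ) : hh P k = newt P k := by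
  refine newt_unique (N := k) (hh_zero P) (fun n _ => ?_) k le_rfl
  have h := hh_rec P n
  rw [Algebra.smul_def, map_natCast] at h
  rw [h, Finset.range_eq_Ico]
  exact (Finset.sum_Ico_add' (fun i => P i * hh P (n - i)) 0 n 1).symm.trans
    (Finset.sum_congr rfl fun i _ => by rw [Nat.sub_sub, add_comm 1])

theorem hh_add (P Q : ℕ → A) (n : ℕ) : hh (P + Q) n = ∑ p ∈ _root_.Finset.HasAntidiagonal.antidiagonal n, hh P p.1 * hh Q p.2 := by
  have h1 : H421.GLn.dS (hS P * hS Q) = (pS P + pS Q) * (hS P * hS Q) := by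
    rw [dS_mul, dS_hS, dS_hS]
    ring
  have h2 := uniq_trunc (N := n) (dS_hS (P + Q)) h1 (by simp [hS, newt_zero]) (by simp [pS])
    (fun j _ => by by_cases h : j = 0 <;> simp only [h, pS, Pi.add_apply, PowerSeries.coeff_mk, ↓reduceIte,
        PowerSeries.coeff_zero_eq_constantCoeff, map_add, PowerSeries.constantCoeff_mk, add_zero]) n le_rfl
  simpa only [hS, PowerSeries.coeff_mul, PowerSeries.coeff_mk, ← hh_newt] using h2

theorem hh_zero_seq {n : ℕ} (hn : 0 < n) : hh (0 : ℕ → A) n = 0 := by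
  have h := hh_rec (0 : ℕ → A) n
  rw [Finset.sum_eq_zero fun r _ => zero_mul _] at h
  exact (smul_eq_zero.1 h).resolve_left (Nat.cast_ne_zero.2 hn.ne')

/-- the sequences whose complete symmetric functions lie in `S` -/
def good (S : Subring A) : AddSubgroup (ℕ → A) where
  carrier := {P | ∀ n, hh P n ∈ S}
  zero_mem' n := by
    rcases Nat.eq_zero_or_pos n with rfl | hn
    · rw [hh_zero]
      exact S.one_mem
    · rw [hh_zero_seq hn]
      exact S.zero_mem
  add_mem' {P Q} hP hQ n := by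
    rw [hh_add]
    exact S.sum_mem fun p _ => S.mul_mem (hP _) (hQ _)
  neg_mem' {P} hP n := by
    induction n using Nat.strong_induction_on with
    | _ n ih =>
      obtain _ | n := n
      · rw [hh_zero]
        exact S.one_mem
      · have h := hh_add P (-P) (n + 1)
        rw [add_neg_cancel, hh_zero_seq n.succ_pos, Finset.Nat.sum_antidiagonal_succ, hh_zero, one_mul] at h
        rw [eq_neg_of_add_eq_zero_left h.symm]
        refine S.neg_mem (S.sum_mem fun p hp => S.mul_mem (hP _) (ih _ ?_))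
        rw [HasAntidiagonal.mem_antidiagonal] at hp
        omega

theorem good_sign {S : Subring A} {P : ℕ → A} (h : P ∈ good S) (ε : ℤˣ) :
    (fun j => (((ε ^ (j + 1) : ℤˣ) : ℤ) : ℂ) • P j) ∈ good S := by
  rcases Int.units_eq_one_or ε with rfl | rfl
  · simpa using h
  · intro n
    have h1 : (fun j => ((((-1 : ℤˣ) ^ (j + 1) : ℤˣ) : ℤ) : ℂ) • P j) = fun j => (-1 : ℂ) ^ j • (-P) j := by
      funext j
      simp only [pow_succ, mul_neg, mul_one, Units.val_neg, Units.val_pow_eq_pow_val, Units.val_one, Int.reduceNeg,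
          Int.cast_neg, Int.cast_pow, Int.cast_one, neg_smul, Pi.neg_apply, smul_neg]
    rw [h1, hh_smul]
    have h2 := (good S).neg_mem h n
    rcases neg_one_pow_eq_or ℂ n with h3 | h3 <;> rw [h3]
    · rwa [one_smul]
    · rw [neg_smul, one_smul]
      exact S.neg_mem h2

theorem SS_mem {S : Subring A} {P : ℕ → A} (h : P ∈ good S) {k : ℕ} {β : Fin m → ℕ}
    (hβ : ∑ i, β i = k + ∑ i : Fin m, (i : ℕ)) : SS P k β ∈ S := by
  rw [SS_eq_JT P k hβ]
  refine S.sum_mem fun σ _ => zsmul_mem (S.prod_mem fun i _ => ?_) _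
  unfold jt
  split_ifs
  · exact h _
  · exact S.zero_mem

end sym

variable {K ι I J : Type} [Group K] [Fintype I] [Fintype J] {m : ℕ}

/-- the ring generated by the complete symmetric functions -/
noncomputable def HS (I : Type) : Subring (R I) := Subring.closure (Set.range fun v : ℕ × I => hh (PP v.2) v.1)

omit [Fintype I] in
theorem PP_good (c : I) : PP c ∈ good (HS I) := fun n => Subring.subset_closure ⟨(n, c), rfl⟩

/-- a linear substitution -/
noncomputable def sub (μ : ℕ → J → I → ℂ) : R J →ₐ[ℂ] R I := aeval fun v => lin v.1 (μ v.1 v.2)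

omit [Fintype J] in
theorem sub_X (μ : ℕ → J → I → ℂ) (v : ℕ × J) : sub μ (X v) = lin v.1 (μ v.1 v.2) := aeval_X _ v

theorem bil_sub [Finite ι] (μ : ℕ → J → I → ℂ) (u : ℕ → K → I → ℂ) (f : R J) (x : Wr K ι) :
    bil (sub μ f) (chW u x) = bil f (chW (fun j g i => ∑ c, μ j i c * u j g c) x) :=
  bil_map _ μ (sub_X μ) _ _ f

theorem lin_good (ε : ℤˣ) (n : I → ℤ) : (fun j => lin j fun c => (((ε ^ (j + 1) : ℤˣ) : ℤ) : ℂ) * n c) ∈ good (HS I) := by
  have h := good_sign ((good (HS I)).sum_mem (t := univ) fun c _ => zsmul_mem (PP_good c) (n c)) ε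
  convert h using 2 with j
  rw [lin, Finset.sum_apply, Finset.smul_sum]
  exact Finset.sum_congr rfl fun c _ => by rw [Pi.smul_apply, ← Int.cast_smul_eq_zsmul ℂ, smul_smul, PP]

/-- the functions without signs -/
def u0 (κ : I → K → ℂ) : ℕ → K → I → ℂ := fun _ g c => κ c g

/-- the functions with signs -/
def uE (κ : I → K → ℂ) (ε : I → ℤˣ) : ℕ → K → I → ℂ := fun j g c => (((ε c ^ (j + 1) : ℤˣ) : ℤ) : ℂ) * κ c g

theorem gen_HS [Fintype ι] {κ : I → K → ℂ} (hκ : ∀ c, IsCharacter K (κ c)) {f : R I} (hf : f ∈ HS I) :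
    IsGeneralizedCharacter (Wr K ι) fun x => bil f (chW (u0 κ) x) := by
  classical
  rw [HS, Subring.mem_closure_iff] at hf
  induction hf using AddSubgroup.closure_induction with
  | zero => simpa only [map_zero, LinearMap.zero_apply] using! gen_zero
  | add a b _ _ ha hb => simpa only [map_add, LinearMap.add_apply] using! gen_add ha hb
  | neg a _ ha => simpa only [map_neg, LinearMap.neg_apply] using! gen_neg ha
  | mem f hf =>
    obtain ⟨l, hl, rfl⟩ := Submonoid.exists_list_of_mem_closure hf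
    choose v hv using fun i : Fin l.length => hl l[i] (List.getElem_mem _)
    have h1 : l.prod = sub (fun _ i => Pi.single (v i).2 1) (Sp (fun i => (v i).1) fun i (_ : Fin 1) => (v i).1) := by
      rw [← Fin.prod_univ_getElem, Sp, map_prod]
      refine Finset.prod_congr rfl fun i _ => ?_
      rw [← hh_eq_SS, map_hh]
      refine (hv i).symm.trans (congrArg (hh · _) (_root_.funext fun j => ?_))
      simp only [PP, sub_X, lin, Pi.single_apply, ite_smul, one_smul, zero_smul, sum_ite_eq', mem_univ, ↓reduceIte]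
    convert gen_of_char (isCharacter_EV (ι := ι) (fun i => κ (v i).2) (fun i => hκ _) fun i => (v i).1) using 2 with x
    rw [h1, bil_sub, chW, bil_Sp_chx (fun O => len_pos O) _ _ _ fun i => by simp]
    simp only [Pi.single_apply, u0, ite_mul, one_mul, zero_mul, sum_ite_eq', mem_univ, ↓reduceIte]

variable [DecidableEq I]

theorem psi_eq [Finite ι] (κ : I → K → ℂ) (ε : I → ℤˣ) {t : I → Fin m → ℕ} (ht : ∀ c, StrictMono (t c))
    (x : Wr K ι) : psi κ ε t x = bil (S t) (chW (uE κ ε) x) :=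
  (bil_S_chx (fun O => len_pos O) _ ht).symm

/-- the substitution for signs and multiplicities -/
noncomputable def subE (ε : I → ℤˣ) (n : I → J → ℤ) : R I →ₐ[ℂ] R J :=
  sub fun j c i => (((ε c ^ (j + 1) : ℤˣ) : ℤ) : ℂ) * n c i

omit [DecidableEq I] in
theorem subE_SS (ε : I → ℤˣ) (n : I → J → ℤ) (c : I) {β : Fin m → ℕ} (h : StrictMono β) :
    subE ε n (SS (PP c) (bsz β) β) ∈ HS J := by
  rw [map_SS]
  refine SS_mem ?_ (sum_eq_bsz h)
  simpa only [PP, subE, sub_X] using lin_good (ε c) (n c)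

omit [DecidableEq I] in
theorem psi_eq_sub [DecidableEq I] [Finite ι] {κ : I → K → ℂ} {κ' : J → K → ℂ} {n : I → J → ℤ}
    (h : ∀ c g, κ c g = ∑ i, n c i * κ' i g) (ε : I → ℤˣ) {t : I → Fin m → ℕ} (ht : ∀ c, StrictMono (t c))
    (x : Wr K ι) : psi κ ε t x = bil (subE ε n (S t)) (chW (u0 κ') x) := by
  rw [psi_eq κ ε ht, subE, bil_sub]
  (with_reducible congr 2)
  funext j g c
  simp only [uE, u0, h, Finset.mul_sum, mul_assoc]

theorem gen_psi [Fintype ι] {κ : I → K → ℂ} (hκ : ∀ c, IsCharacter K (κ c)) (ε : I → ℤˣ) {t : I → Fin m → ℕ}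
    (ht : ∀ c, StrictMono (t c)) : IsGeneralizedCharacter (Wr K ι) (psi κ ε t) := by
  have h : ∀ c g, κ c g = ∑ i, ((Pi.single c 1 : I → ℤ) i : ℂ) * κ i g := fun c g => by
    simp only [Pi.single_apply, Int.cast_ite, Int.cast_one, Int.cast_zero, ite_mul, one_mul, zero_mul, sum_ite_eq',
        mem_univ, ↓reduceIte]
  convert gen_HS (ι := ι) hκ (f := subE ε (fun c => Pi.single c 1) (S t)) ?_ using 2 with x
  · exact psi_eq_sub h ε ht x
  · rw [S, Sp, map_prod]
    exact Subring.prod_mem _ fun c _ => subE_SS _ _ c (ht c)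

theorem conj_bil_S [Finite ι] (u : ℕ → K → I → ℂ) {t : I → Fin m → ℕ} (ht : ∀ c, StrictMono (t c)) (x : Wr K ι) :
    conj (bil (S t) (chW u x)) = bil (S t) (chW (fun j g c => conj (u j g c)) x) := by
  rw [chW, chW, bil_S_chx (fun O => len_pos O) _ ht, bil_S_chx (fun O => len_pos O) _ ht]
  simp only [EV, map_sum, map_mul, map_prod, map_intCast]

omit [Fintype I] in
theorem Enum.orth [Fintype K] {κ : I → K → ℂ} (hκ : Enum κ) (ε : I → ℤˣ) (j : ℕ) (c c' : I) :
    (Fintype.card K : ℂ)⁻¹ * ∑ g, uE κ ε j g c * conj (uE κ ε j g c') = if c = c' then 1 else 0 := by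
  have h : (Fintype.card K : ℂ)⁻¹ * ∑ g, uE κ ε j g c * conj (uE κ ε j g c') =
      ((((ε c ^ (j + 1) * ε c' ^ (j + 1) : ℤˣ) : ℤ) : ℂ)) * classInner (κ c) (κ c') := by
    rw [classInner_def, Nat.card_eq_fintype_card, mul_left_comm, Finset.mul_sum univ _ (((_ : ℤˣ) : ℤ) : ℂ)]
    refine congrArg _ (Finset.sum_congr rfl fun g _ => ?_)
    simp only [uE, map_mul, map_intCast, Units.val_mul, Int.cast_mul]
    ring
  rw [h]
  split_ifs with h1
  · rw [h1, Int.units_mul_self, classInner_irr_self (hκ.irr c')]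
    simp
  · rw [classInner_irr_ne (hκ.irr c) (hκ.irr c') fun h2 => h1 (hκ.inj h2), mul_zero]

/-- inner products with the labelled characters -/
theorem inner_S [Fintype ι] [Finite K] [Fintype (Wr K ι)] {κ : I → K → ℂ} (hκ : Enum κ) (ε : I → ℤˣ) {f : R I}
    (hf : Hm (Fintype.card ι) f) {t : I → Fin m → ℕ} (ht : ∀ c, StrictMono (t c)) :
    classInner (fun x : Wr K ι => bil f (chW (uE κ ε) x)) (psi κ ε t) = bil f (S t) := by
  have := Fintype.ofFinite K
  rw [classInner_def, ← iso (ι := ι) _ _ (hκ.orth ε) f (S t) hf]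
  simp only [psi_eq κ ε ht, conj_bil_S _ ht]

theorem inner_psi [Fintype ι] [Finite K] [Fintype (Wr K ι)] {κ : I → K → ℂ} (hκ : Enum κ) (ε : I → ℤˣ)
    {t t' : I → Fin m → ℕ} (ht : Lb (Fintype.card ι) t) (ht' : ∀ c, StrictMono (t' c)) :
    classInner (psi κ ε t : Wr K ι → ℂ) (psi κ ε t') = if t = t' then 1 else 0 := by
  rw [← bil_S_S ht.1 ht', ← inner_S hκ ε (hm_S ht.2) ht', _root_.funext (psi_eq κ ε ht.1)]

theorem irr_psi [Fintype ι] [Finite K] {κ : I → K → ℂ} (hκ : Enum κ) (ε : I → ℤˣ) {t : I → Fin m → ℕ}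
    (ht : Lb (Fintype.card ι) t) : IsIrrCharacter (Wr K ι) (psi κ ε t) := by
  have := Fintype.ofFinite (Wr K ι)
  refine (isIrr_of_generalized (gen_psi (fun c => isIrr_isCharacter (hκ.irr c)) ε ht.1)
    ((inner_psi hκ ε ht ht.1).trans (if_pos rfl))).resolve_right fun h => ?_
  obtain ⟨e, he, h1⟩ := isIrr_apply_one h
  choose d hd h2 using fun c => isIrr_apply_one (hκ.irr c)
  have h3 := wDeg K ι I κ ε m t ht
  rw [← neg_neg (psi κ ε t 1), show -psi κ ε t 1 = e from h1] at h3
  simp only [h2] at h3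
  have h4 : -(e : ℤ) * ∏ c, ((bsz (t c)).factorial : ℤ) = ((Fintype.card ι).factorial : ℤ) *
      ∏ c, (d c : ℤ) ^ bsz (t c) * FM (Multiset.replicate (bsz (t c)) 1) (t c) := by exact_mod_cast h3
  have h5 : 0 < ∏ c, (d c : ℤ) ^ bsz (t c) * FM (Multiset.replicate (bsz (t c)) 1) (t c) :=
    Finset.prod_pos fun c _ => mul_pos (pow_pos (Nat.cast_pos.2 (hd c)) _) (FM_ones_pos _ (ht.1 c) (sum_eq_bsz (ht.1 c)))
  have h6 : 0 < (e : ℤ) * ∏ c, ((bsz (t c)).factorial : ℤ) :=
    mul_pos (Nat.cast_pos.2 he) (Finset.prod_pos fun c _ => Nat.cast_pos.2 (Nat.factorial_pos _))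
  have h7 := mul_pos (Nat.cast_pos.2 (Fintype.card ι).factorial_pos : (0 : ℤ) < _) h5
  linarith only [h4, h6, h7]

omit [DecidableEq I] in
theorem bil_pow (d u : I → ℂ) (n : ℕ) : bil (lin 1 d ^ n) (lin 1 u ^ n) = n.factorial * (∑ c, d c * u c) ^ n := by
  induction n with
  | zero => simp only [pow_zero, bil_one, map_one, Nat.factorial_zero, Nat.cast_one, mul_one]
  | succ n ih =>
    rw [pow_succ' (lin 1 u), bil_lin_mul, Derivation.leibniz_pow, der_lin, if_pos rfl, smul_eq_mul, mul_comm (_ ^ _),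
      ← smul_eq_C_mul, Nat.add_sub_cancel, map_nsmul, map_smul, LinearMap.smul_apply, LinearMap.smul_apply, ih,
      Nat.factorial_succ]
    simp only [nsmul_eq_mul, smul_eq_mul]
    push_cast
    ring

omit [Fintype I] [DecidableEq I] in
/-- the enumeration as an equivalence -/
noncomputable def Enum.equiv {κ : I → K → ℂ} (hκ : Enum κ) : I ≃ IrrCharacter K :=
  Equiv.ofBijective (fun c => ⟨κ c, hκ.irr c⟩) ⟨fun _ _ h => hκ.inj (congrArg Subtype.val h), fun χ =>
    (hκ.surj χ.1 χ.2).imp fun _ h => Subtype.ext h⟩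

omit [DecidableEq I] in
theorem Enum.eq_sum [Fintype K] {κ : I → K → ℂ} (hκ : Enum κ) {f : K → ℂ} (hf : IsClassFunction K f) (g : K) :
    f g = ∑ c, classInner f (κ c) * κ c g := by
  have := Fintype.ofEquiv _ hκ.equiv
  rw [congrFun (classFunction_eq_sum hf) g, Finset.sum_apply, ← hκ.equiv.sum_comp]
  rfl

omit [DecidableEq I] in
theorem Enum.reg [Fintype K] [DecidableEq K] {κ : I → K → ℂ} (hκ : Enum κ) (g : K) :
    ∑ c, conj (κ c 1) * κ c g = if g = 1 then (Fintype.card K : ℂ) else 0 := by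
  rw [hκ.eq_sum (f := fun g => if g = 1 then (Fintype.card K : ℂ) else 0) fun g h => by simp only [mul_inv_eq_iff_eq_mul,
      one_mul, mul_eq_left]]
  refine Finset.sum_congr rfl fun c _ => ?_
  simp [classInner_def]

theorem wBij : WBij := by
  intro K ι I _ _ _ _ _ κ ε m hκ hm
  classical
  have := Fintype.ofFinite K
  have := Fintype.ofFinite (Wr K ι)
  have := Fintype.ofFinite {t : I → Fin m → ℕ // Lb (Fintype.card ι) t}
  refine ⟨fun t => irr_psi hκ ε t.2, fun t t' h => ?_, fun χ hχ => ?_⟩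
  · by_contra hne
    have h1 := inner_psi (ι := ι) hκ ε t.2 t'.2.1
    rw [if_neg fun h2 => hne (Subtype.ext h2), show (psi κ ε t.1 : Wr K ι → ℂ) = psi κ ε t'.1 from h,
      inner_psi hκ ε t'.2 t'.2.1, if_pos rfl] at h1
    exact one_ne_zero h1
  by_contra hne
  push Not at hne
  let f : R I := lin 1 (fun c => conj (κ c 1)) ^ Fintype.card ι
  have hf : f ∈ SL I m (Fintype.card ι) := by
    simpa only [chx, _root_.Finset.sum_const, _root_.Finset.card_univ, _root_.smul_eq_mul, _root_.mul_one, _root_.Finset.prod_const] using chx_mem (m := m) (l := fun _ : ι => 1) (fun _ => one_pos) (by simpa only [_root_.Finset.sum_const, _root_.Finset.card_univ, _root_.smul_eq_mul, _root_.mul_one] using hm) fun _ c => conj (κ c 1)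
  have h1 : classInner (fun x : Wr K ι => bil f (chW (uE κ ε) x)) χ = 0 := by
    have h2 : (fun x : Wr K ι => bil f (chW (uE κ ε) x)) =
        ∑ t : {t : I → Fin m → ℕ // Lb (Fintype.card ι) t}, bil (S t.1) f • psi κ ε t.1 := _root_.funext fun x => by
      conv_lhs => rw [eq_sum_of_mem hf]
      simp only [map_sum, map_smul, LinearMap.sum_apply, LinearMap.smul_apply, Finset.sum_apply, Pi.smul_apply,
        ← psi_eq κ ε (Subtype.prop _ : Lb _ _).1]
    rw [h2, classInner_sum_left]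
    exact Finset.sum_eq_zero fun t _ => by
      rw [classInner_smul_left, classInner_irr_ne (irr_psi hκ ε t.2) hχ (hne t), mul_zero]
  have h3 : ∀ g, uE κ ε 1 g = fun c => κ c g := fun g => _root_.funext fun c => by simp [uE, pow_two]
  rw [classInner_def, Finset.sum_eq_single 1 (fun x _ hx => ?_) fun h => absurd (mem_univ _) h] at h1
  · have h4 : ∀ O : Cyc (1 : Wr K ι).right, len O = 1 := fun O => len_eq_one O rfl
    have h5 : chW (uE κ ε) (1 : Wr K ι) = lin 1 (fun c => κ c 1) ^ Fintype.card ι := by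
      rw [← sum_len (1 : Wr K ι).right, ← Finset.prod_pow_eq_pow_sum]
      exact Finset.prod_congr rfl fun O _ => by simp [h4, gp, h3]
    rw [h5, bil_pow, hκ.reg, if_pos rfl] at h1
    simp only [Nat.card_eq_fintype_card, mul_eq_zero, inv_eq_zero, Nat.cast_eq_zero, Fintype.card_ne_zero,
        Nat.factorial_ne_zero, pow_eq_zero_iff', ne_eq, false_and, or_self, map_eq_zero, isIrr_apply_one_ne_zero hχ] at h1
  · obtain ⟨O, hO⟩ : ∃ O : Cyc x.right, ¬ (len O = 1 ∧ gp x O = 1) := by
      by_contra h4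
      push Not at h4
      have h5 : ∀ a, pt (cy x.right a) = a := fun a => by
        obtain ⟨b, hb⟩ := Finset.card_eq_one.1 ((card_cy x.right (cy x.right a)).trans (h4 _).1)
        have h6 := fun c => Finset.ext_iff.1 hb c
        simp only [mem_filter, mem_univ, true_and, mem_singleton] at h6
        exact ((h6 _).1 (cy_pt _)).trans ((h6 a).1 rfl).symm
      refine hx (SemidirectProduct.ext (_root_.funext fun a => ?_) (Equiv.ext fun a => ?_))
      · have h6 := (h4 (cy x.right a)).2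
        rwa [gp, (h4 _).1, pow_one, h5] at h6
      · exact (h5 _).symm.trans ((congrArg pt (cy_apply x.right a)).trans (h5 a))
    rw [chW, chx, ← Finset.mul_prod_erase _ _ (mem_univ O), bil_lin_mul, Derivation.leibniz_pow, der_lin]
    split_ifs with h4
    · rw [← h4, h3, hκ.reg, if_neg fun h5 => hO ⟨h4.symm, h5⟩]
      simp only [Nat.cast_one, mul_zero, C_0, smul_eq_mul, nsmul_zero, map_zero, LinearMap.zero_apply, zero_mul]
    · simp only [smul_eq_mul, mul_zero, nsmul_zero, map_zero, LinearMap.zero_apply, zero_mul]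

end Cfsg.Agent.MO.W
end

-- part: MO/J/Defs
section
/-!
# MO-J: Lusztig's functions of the classical blocks, the model (helper90): definitions and statements

* `Pt` : a bead `(position, row)`; `Cy` : a signed cycle `(length, sign)`; tuples `Fin M → Pt`; `AltT`, `pr` : alternating
  functions and the alternating pairing; `dn τ j c` : the move of the bead `j` for the cycle `c` (hook or cohook);
* `YL`, `YM` : the recursion of Murnaghan-Nakayama type on tuples (`M` odd: type `B`, `M` even: type `D`);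
* `tup M u` : the tuple of a set of beads, row by row; `YK κ M L u` the function of the label `u` of the kind `κ` at the type `L`;
* `sty T g` : the signed cycle type of `g` on `T`; `Y κ M T u g`; `Lab κ M n` the (ordered) labels of rank `n`;
* `bx u a` : removal of a box; `lev`, `Rf`, `Gp`; `sw'` exchange of the rows; families `dbl`, `sing`, `low`; `kr` Krawtchouk sums;
* the boxes `BMN`, `BZero`, `BBox`, `BSwap`, `BCas`, `BPars`, `BInd`, `BGram`, `BKr`, `BK`, `BConn`.
-/

set_option autoImplicit false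
set_option linter.unusedSectionVars false

namespace Cfsg.Agent.MO.J

open Equiv Finset Cfsg.Agent.H614
open Cfsg.Agent.LV.Cl (SG On Stab cyc sw tt sgn)

/-- a bead: position and row -/
abbrev Pt : Type := ℕ × Bool

/-- a signed cycle: length and sign -/
abbrev Cy : Type := ℕ × ℤˣ

section Tup

variable {M : ℕ} {Ω : Type}

/-- alternating functions of a tuple -/
def AltT {V : Type} [AddCommGroup V] (Φ : (Fin M → Ω) → V) : Prop :=
  ∀ (σ : Perm (Fin M)) (τ : Fin M → Ω), Φ (τ ∘ σ) = sg σ • Φ τ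

/-- the alternating pairing -/
def pr [DecidableEq Ω] (α γ : Fin M → Ω) : ℤ := ∑ σ : Perm (Fin M), if α = γ ∘ σ then sg σ else 0

/-- the row after a cycle of sign `η` -/
def fl (η : ℤˣ) (b : Bool) : Bool := if η = 1 then b else !b

/-- the bead after the cycle `c` -/
def mv (c : Cy) (a : Pt) : Pt := (a.1 - c.1, fl c.2 a.2)

/-- the move of the bead `j` -/
def dn (τ : Fin M → Pt) (j : Fin M) (c : Cy) : Fin M → Pt := Function.update τ j (mv c (τ j))

/-- the vacuum tuple: `(M + 1) / 2` beads in the first row, `M / 2` beads in the second row -/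
def v0 (M : ℕ) (i : Fin M) : Pt := if (i : ℕ) < (M + 1) / 2 then (i, false) else (i - (M + 1) / 2, true)

/-- the vacuum tuple with the unpaired bead in the second row (`M` odd) -/
def v1 (M : ℕ) (i : Fin M) : Pt := if (i : ℕ) = M / 2 then (i, true) else v0 M i

/-- the vacuum -/
def vc (τ : Fin M → Pt) : ℤ := pr τ (v0 M) + if M % 2 = 1 then pr τ (v1 M) else 0

/-- **the recursion** -/
def YL : List Cy → (Fin M → Pt) → ℤ
  | [], τ => vc τ
  | c :: L, τ => ∑ j, if c.1 ≤ (τ j).1 then YL L (dn τ j c) else 0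

theorem YL_cons (c : Cy) (L : List Cy) (τ : Fin M → Pt) :
    YL (c :: L) τ = ∑ j, if c.1 ≤ (τ j).1 then YL L (dn τ j c) else 0 := rfl

theorem fl_comm (η η' : ℤˣ) (b : Bool) : fl η (fl η' b) = fl η' (fl η b) := by
  unfold fl; split_ifs <;> rfl

theorem dn_self (τ : Fin M → Pt) (j : Fin M) (c : Cy) : dn τ j c j = mv c (τ j) := by simp [dn]

theorem dn_ne (τ : Fin M → Pt) {j k : Fin M} (c : Cy) (h : k ≠ j) : dn τ j c k = τ k := by simp [dn, h]

theorem YL_swap (c d : Cy) (L : List Cy) (τ : Fin M → Pt) : YL (c :: d :: L) τ = YL (d :: c :: L) τ := by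
  have key : ∀ (c d : Cy), YL (c :: d :: L) τ =
      ∑ j, ∑ k, if c.1 ≤ (τ j).1 ∧ d.1 ≤ (dn τ j c k).1 then YL L (dn (dn τ j c) k d) else 0 := by
    intro c d
    rw [YL_cons]
    refine sum_congr rfl fun j _ => ?_
    by_cases h : c.1 ≤ (τ j).1
    · simp only [h, YL_cons, ↓ _root_.reduceIte, _root_.true_and]
    · simp only [h, ↓ _root_.reduceIte, _root_.false_and, _root_.Finset.sum_const_zero]
  rw [key, key, sum_comm]
  refine sum_congr rfl fun k _ => sum_congr rfl fun j _ => ?_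
  by_cases hjk : j = k
  · subst hjk
    have h1 : (c.1 ≤ (τ j).1 ∧ d.1 ≤ (dn τ j c j).1) ↔ (d.1 ≤ (τ j).1 ∧ c.1 ≤ (dn τ j d j).1) := by
      rw [dn_self, dn_self]; simp only [mv]; omega
    have h2 : dn (dn τ j c) j d = dn (dn τ j d) j c := by
      simp only [dn, Function.update_self, Function.update_idem, mv, fl_comm d.2, Nat.sub_right_comm _ c.1]
    simp only [h1, h2]
  · have h1 : (c.1 ≤ (τ j).1 ∧ d.1 ≤ (dn τ j c k).1) ↔ (d.1 ≤ (τ k).1 ∧ c.1 ≤ (dn τ k d j).1) := by
      rw [dn_ne _ _ (Ne.symm hjk), dn_ne _ _ hjk]; itauto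
    have h2 : dn (dn τ j c) k d = dn (dn τ k d) j c := by
      simp only [dn]
      rw [Function.update_of_ne (Ne.symm hjk), Function.update_of_ne hjk, Function.update_comm hjk]
    simp only [h1, h2]

theorem YL_perm {L L' : List Cy} (h : L.Perm L') : YL (M := M) L = YL L' := by
  induction h with
  | nil => rfl
  | cons r _ ih => funext β; rw [YL_cons, YL_cons, ih]
  | swap r s l => funext β; exact YL_swap _ _ _ _
  | trans _ _ ih1 ih2 => exact ih1.trans ih2

/-- `YL` as a function of a multiset of signed cycles -/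
def YM (s : Multiset Cy) (τ : Fin M → Pt) : ℤ :=
  Quot.lift (fun L : List Cy => YL L τ) (fun _ _ h => congrFun (YL_perm h) τ) s

theorem YM_coe (L : List Cy) (τ : Fin M → Pt) : YM (L : Multiset Cy) τ = YL L τ := rfl

theorem YM_zero (τ : Fin M → Pt) : YM 0 τ = vc τ := rfl

theorem YM_cons (c : Cy) (s : Multiset Cy) (τ : Fin M → Pt) :
    YM (c ::ₘ s) τ = ∑ j, if c.1 ≤ (τ j).1 then YM s (dn τ j c) else 0 := by
  induction s using Quotient.inductionOn with
  | h L => exact YL_cons c L τ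

end Tup

/-! ### labels -/

/-- the order of the beads: row by row -/
def ky (a : Pt) : Bool ×ₗ ℕ := toLex (a.2, a.1)

/-- the order relation -/
def Le (a b : Pt) : Prop := ky a ≤ ky b

instance decLe : DecidableRel Le := fun a b => inferInstanceAs (Decidable (ky a ≤ ky b))
instance transLe : IsTrans Pt Le := ⟨fun _ _ _ h h' => le_trans (α := Bool ×ₗ ℕ) h h'⟩
instance antisymmLe : Std.Antisymm Le := ⟨fun a b h h' => by
  have h1 : ky a = ky b := le_antisymm (α := Bool ×ₗ ℕ) h h'
  have h2 : (a.2, a.1) = (b.2, b.1) := toLex.injective h1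
  exact Prod.ext (congrArg Prod.snd h2) (congrArg Prod.fst h2)⟩
instance totalLe : Std.Total Le := ⟨fun a b => le_total (ky a) (ky b)⟩

/-- the tuple of a set of `M` beads -/
def tup (M : ℕ) (u : Finset Pt) (i : Fin M) : Pt := (u.sort Le).getD i (0, false)

/-- the kinds of blocks: linear, unitary, `B` (or `C`), `D` (twisted or not) -/
inductive Kn | A | U | B | D
  deriving DecidableEq

/-- the position of a bead on the abacus of the kind -/
def ps : Kn → Pt → ℕ
  | .U, a => 2 * a.1 + a.2.toNat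
  | _, a => a.1

/-- the function of the label `u` at the type `s` -/
def YK : Kn → (M : ℕ) → Multiset Cy → Finset Pt → ℤ
  | .A, M, s, u => FM (s.map Prod.fst) fun i => ps .A (tup M u i)
  | .U, M, s, u => FM (s.map Prod.fst) fun i => ps .U (tup M u i)
  | _, M, s, u => YM s (tup M u)

/-- the sum of the positions in the vacuum -/
def bs : Kn → ℕ → ℕ
  | .A, M => M * (M - 1) / 2
  | .U, M => M * (M - 1) / 2
  | _, M => M / 2 * ((M - 1) / 2)

/-- `u` is a label of rank `n` (ordered: for `B`, `D` the label with the rows exchanged is another member) -/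
def IsLab (κ : Kn) (M n : ℕ) (u : Finset Pt) : Prop :=
  #u = M ∧ ∑ a ∈ u, ps κ a = n + bs κ M ∧ (κ = .A → ∀ a ∈ u, a.2 = false)

instance decIsLab (κ : Kn) (M n : ℕ) : DecidablePred (IsLab κ M n) := fun _ => inferInstanceAs (Decidable (_ ∧ _))

/-- the labels of rank `n` -/
def Lab (κ : Kn) (M n : ℕ) : Finset (Finset Pt) :=
  ((range (n + bs κ M + 1) ×ˢ (univ : Finset Bool)).powerset).filter (IsLab κ M n)

/-- `M` is large enough and has the parity of the kind -/
def Ok : Kn → ℕ → ℕ → Prop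
  | .B, M, n => M % 2 = 1 ∧ n ≤ M / 2
  | .D, M, n => M % 2 = 0 ∧ n ≤ M / 2
  | _, M, n => n ≤ M

/-- the bead `a` is replaced by `b` -/
def rp (u : Finset Pt) (a b : Pt) : Finset Pt := insert b (u.erase a)

/-- the sign of the replacement: the beads strictly between `a` and `b` -/
def sn (u : Finset Pt) (a b : Pt) : ℤ := (-1) ^ #{x ∈ u | (ky a < ky x ∧ ky x < ky b) ∨ (ky b < ky x ∧ ky x < ky a)}

/-- the bead after the cycle `c`, for all kinds -/
def mk : Kn → Cy → Pt → Pt
  | .A, c, a => (a.1 - c.1, a.2)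
  | .U, c, a => ((ps .U a - c.1) / 2, decide ((ps .U a - c.1) % 2 = 1))
  | _, c, a => mv c a

/-- the beads which can move one step down in their row -/
def rem (u : Finset Pt) : Finset Pt := {a ∈ u | 0 < a.1 ∧ (a.1 - 1, a.2) ∉ u}

/-- the beads which can move one step up in their row -/
def add (u : Finset Pt) : Finset Pt := {a ∈ u | (a.1 + 1, a.2) ∉ u}

/-- removal of a box -/
def bx (u : Finset Pt) (a : Pt) : Finset Pt := rp u a (a.1 - 1, a.2)

/-- addition of a box -/
def ux (u : Finset Pt) (a : Pt) : Finset Pt := rp u a (a.1 + 1, a.2)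

/-- the cycle of a box -/
def bc : Kn → Cy
  | .U => (2, 1)
  | _ => (1, 1)

/-- the level -/
def lev (κ : Kn) (u : Finset Pt) : ℤ := ∑ a ∈ u, (ps κ a : ℤ) ^ 2

/-- the part of the eigenvalue which only depends on the rank -/
def cst : Kn → ℕ → ℕ → ℤ
  | .A, M, n => (2 * M - 1) * n + ∑ i ∈ range M, (i : ℤ) ^ 2
  | .U, M, n => (2 * M - 1) * n + ∑ i ∈ range M, (i : ℤ) ^ 2
  | _, M, n => (M - 1) * n + ∑ i : Fin M, ((v0 M i).1 : ℤ) ^ 2

/-- the weight of the reflections in the eigenvalue equation -/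
def wc : Kn → ℤ
  | .A => 2
  | .U => 2
  | _ => 1

/-- the weight in Parseval's identity -/
def wp : Kn → ℤ
  | .B => 2
  | _ => 1

/-- the exchange of the rows -/
def sw' (u : Finset Pt) : Finset Pt := u.image fun a => (a.1, !a.2)

/-- the positions in a row -/
def row (u : Finset Pt) (b : Bool) : Finset ℕ := (u.filter fun a => a.2 = b).image Prod.fst

/-- the positions in both rows -/
def dbl (u : Finset Pt) : Finset ℕ := row u false ∩ row u true

/-- the positions in the second row only -/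
def low (u : Finset Pt) : Finset ℕ := row u true \ row u false

/-- the positions in one row only -/
def sing (u : Finset Pt) : Finset ℕ := symmDiff (row u false) (row u true)

/-- the sign of a label: inversions between the two orders of the beads -/
def eu (u : Finset Pt) : ℤ := (-1) ^ #{z ∈ row u false ×ˢ row u true | z.2 < z.1}

/-- Krawtchouk sums -/
def kr (Z I : Finset ℕ) : ℤ := ∑ S ∈ powersetCard (#Z / 2) Z, (-1) ^ #(S ∩ I)

/-- the label with the doubled positions `< p`, the single positions in `[p, p + r)`, those of `I` in the second row -/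
def cu (p r : ℕ) (I : Finset ℕ) : Finset Pt :=
  (range p ∪ (Ico p (p + r) \ I)).image (fun x => (x, false)) ∪ (range p ∪ I).image fun x => (x, true)

/-! ### signed permutations -/

variable {n : ℕ}

/-- the signed cycle type of `g` on `T` -/
noncomputable def sty (T : Finset (Fin n)) (g : SG n) : Multiset Cy :=
  (T.image (cyc g.π)).val.map fun C => (#C, ∏ j ∈ C, g.s j)

/-- **Lusztig's function of the label `u`** -/
noncomputable def Y (κ : Kn) (M : ℕ) (T : Finset (Fin n)) (u : Finset Pt) (g : SG n) : ℤ := YK κ M (sty T g) u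

/-- the elements without signs -/
def Ps (n : ℕ) : Subgroup (SG n) where
  carrier := {g | g.s = 1}
  one_mem' := rfl
  mul_mem' {a b} ha hb := by
    have ha' : a.s = 1 := ha
    have hb' : b.s = 1 := hb
    funext j
    rw [LV.Cl.mul_s, ha', hb']
    rfl
  inv_mem' {a} ha := by
    have ha' : a.s = 1 := ha
    funext j
    rw [LV.Cl.inv_s, ha']
    rfl

/-- the group under which the functions are invariant (for `D` : all signed permutations) -/
def Gp : Kn → Finset (Fin n) → Subgroup (SG n)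
  | .A, T => On T ⊓ Ps n
  | .U, T => On T ⊓ Ps n
  | _, T => On T

/-- the sum over the reflections of the block -/
def cas {V : Type} [AddCommMonoid V] : Kn → Finset (Fin n) → (SG n → V) → SG n → V
  | .B, T, f, g => ∑ x ∈ T, ∑ y ∈ T with x < y, (f (sw x y 1 * g) + f (sw x y (-1) * g)) + ∑ x ∈ T, f (tt x * g)
  | .D, T, f, g => ∑ x ∈ T, ∑ y ∈ T with x < y, (f (sw x y 1 * g) + f (sw x y (-1) * g))
  | _, T, f, g => ∑ x ∈ T, ∑ y ∈ T with x < y, f (sw x y 1 * g)

/-- `g` and `g'` agree on `T` (the signs only count for `B`, `D`) -/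
def Ag : Kn → Finset (Fin n) → SG n → SG n → Prop
  | .A, T, g, g' => ∀ j ∈ T, g.π j = g'.π j
  | .U, T, g, g' => ∀ j ∈ T, g.π j = g'.π j
  | _, T, g, g' => ∀ j ∈ T, g.π j = g'.π j ∧ g.s j = g'.s j

/-- `C ⊆ T` is a box of `g` : a positive fixed point, a cycle of length two for `U` -/
def IsBox : Kn → Finset (Fin n) → SG n → Finset (Fin n) → Prop
  | .A, T, g, C => ∃ x ∈ T, C = {x} ∧ g.π x = x
  | .U, T, g, C => ∃ x ∈ T, C = cyc g.π x ∧ #C = 2
  | _, T, g, C => ∃ x ∈ T, C = {x} ∧ g.π x = x ∧ g.s x = 1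

/-- the number of the Levi subgroups with the same box -/
def wb : Kn → ℤ
  | .A => 1
  | _ => 2

/-- the mean over the group of the block -/
noncomputable def ip (κ : Kn) (T : Finset (Fin n)) (f f' : SG n → ℂ) : ℂ :=
  (Nat.card (Gp κ T) : ℂ)⁻¹ * ∑ᶠ g : Gp κ T, f g * f' g

/-- class functions of the group of the block -/
def Cf (κ : Kn) (T : Finset (Fin n)) (f : SG n → ℂ) : Prop := ∀ g ∈ Gp κ T, ∀ h ∈ Gp κ T, f (h * g * h⁻¹) = f g

/-! ### the boxes -/

/-- cycles, invariance, Murnaghan-Nakayama -/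
structure BMN : Prop where
  mem : ∀ κ M k u, u ∈ Lab κ M k ↔ IsLab κ M k u
  step : ∀ {n : ℕ} (T : Finset (Fin n)) (g : SG n), Stab T g.π → ∀ x ∈ T,
    sty T g = (#(cyc g.π x), ∏ j ∈ cyc g.π x, g.s j) ::ₘ sty (T \ cyc g.π x) g
  size : ∀ {n : ℕ} (T : Finset (Fin n)) (g : SG n), Stab T g.π → ((sty T g).map Prod.fst).sum = #T ∧
    ((sty T g).map Prod.snd).prod = ∏ j ∈ T, g.s j ∧ ∀ c ∈ sty T g, 0 < c.1
  congr : ∀ κ M {n : ℕ} (T : Finset (Fin n)) u (g g' : SG n), Stab T g.π → Ag κ T g g' → Y κ M T u g = Y κ M T u g'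
  conj : ∀ {n : ℕ} (T : Finset (Fin n)) (g h : SG n), sty (T.map h.π.toEmbedding) (h * g * h⁻¹) = sty T g
  alt : ∀ M (s : Multiset Cy), AltT (YM (M := M) s)
  mn : ∀ κ M (c : Cy) (s : Multiset Cy) (u : Finset Pt), #u = M → (κ = .A → ∀ a ∈ u, a.2 = false) → YK κ M (c ::ₘ s) u =
    ∑ a ∈ u with c.1 ≤ ps κ a ∧ mk κ c a ∉ u.erase a, sn u a (mk κ c a) * YK κ M s (rp u a (mk κ c a))
  /-- a box has the sign `+` -/
  box : ∀ κ M (s : Multiset Cy) (u : Finset Pt), #u = M → (κ = .A → ∀ a ∈ u, a.2 = false) →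
    YK κ M (bc κ ::ₘ s) u = ∑ a ∈ rem u, YK κ M s (bx u a)

/-- vanishing: rank, and the defect for `D`; the rank zero -/
structure BZero : Prop where
  rk : ∀ κ M (s : Multiset Cy) (u : Finset Pt), #u = M → YK κ M s u ≠ 0 → ∑ a ∈ u, ps κ a = (s.map Prod.fst).sum + bs κ M
  df : ∀ M (s : Multiset Cy) (u : Finset Pt), #u = M → M % 2 = 0 → YK .D M s u ≠ 0 →
    (((s.map Prod.snd).prod : ℤˣ) : ℤ) = (-1) ^ (#(row u true) + M / 2)
  zero : ∀ κ M u, Ok κ M 0 → u ∈ Lab κ M 0 → YK κ M 0 u = 1 ∨ YK κ M 0 u = -1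

/-- the exchange of the rows -/
def BSwap : Prop := ∀ κ M (s : Multiset Cy) (u : Finset Pt), κ = .B ∨ κ = .D → #u = M →
  YK κ M s (sw' u) = (-1) ^ (#(row u false) * #(row u true) + M / 2) * YK κ M s u

/-- the sum of the reflections acts by the level -/
def BCas : Prop := ∀ κ M {n : ℕ} (T : Finset (Fin n)) (u : Finset Pt) (g : SG n), Ok κ M #T → u ∈ Lab κ M #T → Stab T g.π →
  wc κ * cas κ T (Y κ M T u) g = (lev κ u - cst κ M #T) * Y κ M T u g

/-- Parseval -/
def BPars : Prop := ∀ κ M {n : ℕ} (T : Finset (Fin n)) (g g' : SG n), Ok κ M #T → Stab T g.π → Stab T g'.π →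
  ∑ u ∈ Lab κ M #T, Y κ M T u g * Y κ M T u g' = wp κ * Nat.card {h : Gp κ T // Ag κ T (h * g * h⁻¹) g'}

/-- induction from the box Levi -/
def BInd : Prop := ∀ κ M (s : Multiset Cy) (u : Finset Pt) (k : ℕ), (∀ c ∈ s, 0 < c.1) → Ok κ M (s.map Prod.fst).sum →
  u ∈ Lab κ M k → ∑ a ∈ add u, YK κ M s (ux u a) =
    wb κ * (if κ = .A ∨ κ = .U then ((s.map Prod.fst).count (bc κ).1 : ℤ) else s.count (bc κ)) *
      YK κ M (if κ = .A ∨ κ = .U then ((s.map Prod.fst).erase (bc κ).1).map (fun x => (x, 1)) else s.erase (bc κ)) u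

/-- the inner products -/
structure BGram : Prop where
  au : ∀ κ M {n : ℕ} (T : Finset (Fin n)) (u v : Finset Pt), κ = .A ∨ κ = .U → Ok κ M #T → u ∈ Lab κ M #T → v ∈ Lab κ M #T →
    ip κ T (fun g => Y κ M T u g) (fun g => Y κ M T v g) = if u = v then 1 else 0
  bd : ∀ κ M {n : ℕ} (T : Finset (Fin n)) (u v : Finset Pt), κ = .B ∨ κ = .D → Ok κ M #T → u ∈ Lab κ M #T → v ∈ Lab κ M #T →
    ip κ T (fun g => Y κ M T u g) (fun g => Y κ M T v g) = if dbl u = dbl v ∧ sing u = sing v then
      (eu u * eu v * kr (sing u) (symmDiff (low u) (low v)) : ℤ) / 4 ^ (#(sing u) / 2) else 0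

/-- Krawtchouk sums -/
structure BKr : Prop where
  top : ∀ Z, kr Z ∅ = (#Z).choose (#Z / 2)
  /-- `|a| ≤ d / (2 d + 1)`, resp. `(d - 1) / (2 d - 1)` -/
  le : ∀ Z I : Finset ℕ, I ⊆ Z → I ≠ ∅ → I ≠ Z →
    (2 * ((#Z - 1) / 2) + 1 : ℕ) * |kr Z I| ≤ ((#Z - 1) / 2 : ℕ) * (#Z).choose (#Z / 2)
  one : ∀ Z I : Finset ℕ, I ⊆ Z → #I = 1 → #Z % 2 = 1 → #Z * kr Z I = (#Z).choose (#Z / 2)
  compl : ∀ Z I : Finset ℕ, I ⊆ Z → kr Z (Z \ I) = (-1) ^ (#Z / 2) * kr Z I
  card : ∀ Z I I' : Finset ℕ, I ⊆ Z → I' ⊆ Z → #I = #I' → kr Z I = kr Z I'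

/-- **the kernel** : an eigenfunction without boxes is a multiple of the function of a label without boxes -/
structure BK : Prop where
  ker : ∀ κ M {n : ℕ} (T : Finset (Fin n)) (f : SG n → ℂ) (e : ℂ), Ok κ M #T → Cf κ T f →
    (∀ g ∈ Gp κ T, cas κ T f g = e * f g) → (∀ g ∈ Gp κ T, ∀ C, IsBox κ T g C → f g = 0) →
    (∀ g ∈ Gp κ T, f g = 0) ∨ ∃ u ∈ Lab κ M #T, rem u = ∅ ∧ ∃ t : ℂ, ∀ g ∈ Gp κ T, f g = t * Y κ M T u g
  /-- the labels without boxes -/
  cusp : ∀ κ M k u, κ = .B ∨ κ = .D → Ok κ M k → u ∈ Lab κ M k → rem u = ∅ →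
    ∃ p r, 2 * p + r = M ∧ k = r ^ 2 / 4 ∧ (u = cu p r ∅ ∨ u = cu p r (Ico p (p + r)))
  cuspA : ∀ M k u, u ∈ Lab .A M k → rem u = ∅ → k = 0
  cuspU : ∀ M k u v, Ok .U M k → u ∈ Lab .U M k → v ∈ Lab .U M k → rem u = ∅ → rem v = ∅ → u = v
  /-- the function of a label without boxes has a value `± 1` -/
  unit : ∀ κ M {n : ℕ} (T : Finset (Fin n)) (u : Finset Pt), Ok κ M #T → u ∈ Lab κ M #T → rem u = ∅ →
    ∃ g ∈ Gp κ T, Y κ M T u g = 1 ∨ Y κ M T u g = -1

/-- subsets of an interval are connected by moves of one step -/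
def BConn : Prop := ∀ {V : Type} (p r : ℕ) (t : Finset ℕ → V),
  (∀ I x, I ⊆ Ico p (p + r) → x ∈ I → x + 1 ∉ I → x + 1 < p + r → t (insert (x + 1) (I.erase x)) = t I) →
  ∀ I I', I ⊆ Ico p (p + r) → I' ⊆ Ico p (p + r) → #I = #I' → t I = t I'

/-! ### the equation lemmas are realised here once -/

example := And.intro @AltT.eq_def @AltT.eq_1
example := And.intro @pr.eq_def @pr.eq_1
example := And.intro @fl.eq_def @fl.eq_1
example := And.intro @mv.eq_def @mv.eq_1
example := And.intro @dn.eq_def @dn.eq_1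
example := And.intro @v0.eq_def @v0.eq_1
example := And.intro @v1.eq_def @v1.eq_1
example := And.intro @vc.eq_def @vc.eq_1
example := And.intro @YL.eq_def (And.intro @YL.eq_1 @YL.eq_2)
example := And.intro @YM.eq_def @YM.eq_1
example := And.intro @ky.eq_def @ky.eq_1
example := And.intro @Le.eq_def @Le.eq_1
example := And.intro @tup.eq_def @tup.eq_1
example := And.intro @ps.eq_def (And.intro @ps.eq_1 @ps.eq_2)
example := And.intro @YK.eq_def (And.intro @YK.eq_1 (And.intro @YK.eq_2 @YK.eq_3))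
example := And.intro @bs.eq_def (And.intro @bs.eq_1 (And.intro @bs.eq_2 @bs.eq_3))
example := And.intro @IsLab.eq_def @IsLab.eq_1
example := And.intro @Lab.eq_def @Lab.eq_1
example := And.intro @Ok.eq_def (And.intro @Ok.eq_1 (And.intro @Ok.eq_2 @Ok.eq_3))
example := And.intro @rp.eq_def @rp.eq_1
example := And.intro @sn.eq_def @sn.eq_1
example := And.intro @mk.eq_def (And.intro @mk.eq_1 (And.intro @mk.eq_2 @mk.eq_3))
example := And.intro @rem.eq_def @rem.eq_1
example := And.intro @add.eq_def @add.eq_1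
example := And.intro @bx.eq_def @bx.eq_1
example := And.intro @ux.eq_def @ux.eq_1
example := And.intro @bc.eq_def (And.intro @bc.eq_1 @bc.eq_2)
example := And.intro @lev.eq_def @lev.eq_1
example := And.intro @cst.eq_def (And.intro @cst.eq_1 (And.intro @cst.eq_2 @cst.eq_3))
example := And.intro @wc.eq_def (And.intro @wc.eq_1 (And.intro @wc.eq_2 @wc.eq_3))
example := And.intro @wp.eq_def (And.intro @wp.eq_1 @wp.eq_2)
example := And.intro @sw'.eq_def @sw'.eq_1
example := And.intro @row.eq_def @row.eq_1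
example := And.intro @dbl.eq_def @dbl.eq_1
example := And.intro @low.eq_def @low.eq_1
example := And.intro @sing.eq_def @sing.eq_1
example := And.intro @eu.eq_def @eu.eq_1
example := And.intro @kr.eq_def @kr.eq_1
example := And.intro @cu.eq_def @cu.eq_1
example := And.intro @sty.eq_def @sty.eq_1
example := And.intro @Y.eq_def @Y.eq_1
example := And.intro @Ps.eq_def @Ps.eq_1
example := And.intro @Gp.eq_def (And.intro @Gp.eq_1 (And.intro @Gp.eq_2 @Gp.eq_3))
example := And.intro @cas.eq_def (And.intro @cas.eq_1 (And.intro @cas.eq_2 @cas.eq_3))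
example := And.intro @Ag.eq_def (And.intro @Ag.eq_1 (And.intro @Ag.eq_2 @Ag.eq_3))
example := And.intro @IsBox.eq_def (And.intro @IsBox.eq_1 (And.intro @IsBox.eq_2 @IsBox.eq_3))
example := And.intro @wb.eq_def (And.intro @wb.eq_1 @wb.eq_2)
example := And.intro @ip.eq_def @ip.eq_1
example := And.intro @Cf.eq_def @Cf.eq_1
example := And.intro @BSwap.eq_def @BSwap.eq_1
example := And.intro @BCas.eq_def @BCas.eq_1
example := And.intro @BPars.eq_def @BPars.eq_1
example := And.intro @BInd.eq_def @BInd.eq_1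
example := And.intro @BConn.eq_def @BConn.eq_1

end Cfsg.Agent.MO.J

/-- The equation lemmas are written here once, not again in each file that cites them. -/
theorem Cfsg.Agent.MO.J.eqns_here : True := by
  have := @Cfsg.Agent.MO.J.Gp.eq_1
  have := @Cfsg.Agent.MO.J.Gp.eq_2
  have := @Cfsg.Agent.MO.J.Gp.eq_3
  have := @Cfsg.Agent.MO.J.Ok.eq_1
  have := @Cfsg.Agent.MO.J.Ok.eq_2
  have := @Cfsg.Agent.MO.J.Ok.eq_3
  have := @Cfsg.Agent.MO.J.cas.eq_1
  have := @Cfsg.Agent.MO.J.cas.eq_2
  have := @Cfsg.Agent.MO.J.cas.eq_3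
  have := @Cfsg.Agent.MO.J.ps.eq_1
  have := @Cfsg.Agent.MO.J.ps.eq_2
  trivial
end

-- part: MO/Cls/Dyn
section
/-!
# MO/Cls : the type of a stable component of a Dynkin diagram with a twist (helper95)

* `Cl M K` : `K` is a union of components; `Cn M K` : `K` is connected; `Lb M K r m em` : a labelling with the Coxeter matrix `m`;
* `Bk M τ K κ m ε nd` : `K` is a classical block of the kind `κ` with `m` coordinates (`ε = -1` : the twisted type `D`);
* `Xt`, `Ft A τ K t em` : the exceptional twisted types in the numbering of `LV/W`; `Ft.fit`;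
* `dyn` : the classification.
-/

set_option autoImplicit false
set_option linter.unusedSectionVars false

namespace Cfsg.Agent.MO.Cls

open Cfsg.Agent.Tits.Exchange Cfsg.Agent.Tits.Core Cfsg.Agent.ChevalleyStructure.CoxeterGeom Cfsg.Agent.LieRecognition.CoxClass
open Cfsg.Agent.LV.W (nth ga allLt allLt_iff nth_eq)
open Cfsg.Agent.MO.J (Kn)

variable {I : Type} (M : CoxeterMatrix I) (A : I → I → ℤ) (τ : Equiv.Perm I) (K : Set I)

/-- `K` is a union of components -/
def Cl : Prop := ∀ i ∈ K, ∀ j, j ∉ K → M i j = 2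

/-- `K` is connected -/
def Cn : Prop := K.Nonempty ∧ ∀ J ⊆ K, J.Nonempty → (K \ J).Nonempty → ∃ a ∈ J, ∃ b ∈ K \ J, M a b ≠ 2

/-- a labelling of `K` with the Coxeter matrix `m` -/
structure Lb (r : ℕ) (m : ℕ → ℕ → ℕ) (em : ℕ → I) : Prop where
  mem : ∀ i, i ∈ K ↔ ∃ a < r, em a = i
  lab : ∀ a < r, ∀ b < r, M (em a) (em b) = m a b

/-- the number of nodes of a block with `m` coordinates -/
def rk : Kn → ℕ → ℕ
  | .A, m => m - 1
  | .U, m => m - 1
  | _, m => m

/-- the Coxeter matrix of a block -/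
def mK : Kn → ℕ → ℕ → ℕ → ℕ
  | .B, m => mC m
  | .D, m => mD m
  | _, _ => mA

/-- the least number of coordinates -/
def lo : Kn → ℕ
  | .A => 2
  | .U => 3
  | .B => 2
  | .D => 4

/-- the twist of the nodes of a block -/
def sK : Kn → ℕ → ℤˣ → ℕ → ℕ
  | .U, m, _, a => m - 2 - a
  | .D, m, ε, a => if ε = 1 then a else if a + 1 = m then m - 2 else if a + 2 = m then m - 1 else a
  | _, _, _, a => a

/-- a classical block -/
structure Bk (κ : Kn) (m : ℕ) (ε : ℤˣ) (nd : ℕ → I) : Prop extends Lb M K (rk κ m) (mK κ m) nd where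
  big : lo κ ≤ m
  sgn : κ ≠ .D → ε = 1
  tw : ∀ a < rk κ m, τ (nd a) = nd (sK κ m ε a)

/-- the exceptional twisted types -/
inductive Xt | G2 | G2t | B2t | F4 | F4t | D4t | E6 | E6t | E7 | E8
  deriving DecidableEq

namespace Xt

/-- the rank -/
def r : Xt → ℕ
  | G2 => 2 | G2t => 2 | B2t => 2 | F4 => 4 | F4t => 4 | D4t => 4 | E6 => 6 | E6t => 6 | E7 => 7 | E8 => 8

/-- the Cartan matrix -/
def AL : Xt → List (List ℤ)
  | G2 => [[2, -3], [-1, 2]]
  | G2t => [[2, -3], [-1, 2]]
  | B2t => [[2, -1], [-2, 2]]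
  | F4 => [[2, -1, 0, 0], [-1, 2, -2, 0], [0, -1, 2, -1], [0, 0, -1, 2]]
  | F4t => [[2, -1, 0, 0], [-1, 2, -2, 0], [0, -1, 2, -1], [0, 0, -1, 2]]
  | D4t => [[2, -1, 0, 0], [-1, 2, -1, -1], [0, -1, 2, 0], [0, -1, 0, 2]]
  | E6 => [[2, 0, -1, 0, 0, 0], [0, 2, 0, -1, 0, 0], [-1, 0, 2, -1, 0, 0], [0, -1, -1, 2, -1, 0], [0, 0, 0, -1, 2, -1],
      [0, 0, 0, 0, -1, 2]]
  | E6t => [[2, 0, -1, 0, 0, 0], [0, 2, 0, -1, 0, 0], [-1, 0, 2, -1, 0, 0], [0, -1, -1, 2, -1, 0], [0, 0, 0, -1, 2, -1],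
      [0, 0, 0, 0, -1, 2]]
  | E7 => [[2, 0, -1, 0, 0, 0, 0], [0, 2, 0, -1, 0, 0, 0], [-1, 0, 2, -1, 0, 0, 0], [0, -1, -1, 2, -1, 0, 0],
      [0, 0, 0, -1, 2, -1, 0], [0, 0, 0, 0, -1, 2, -1], [0, 0, 0, 0, 0, -1, 2]]
  | E8 => [[2, 0, -1, 0, 0, 0, 0, 0], [0, 2, 0, -1, 0, 0, 0, 0], [-1, 0, 2, -1, 0, 0, 0, 0], [0, -1, -1, 2, -1, 0, 0, 0],
      [0, 0, 0, -1, 2, -1, 0, 0], [0, 0, 0, 0, -1, 2, -1, 0], [0, 0, 0, 0, 0, -1, 2, -1], [0, 0, 0, 0, 0, 0, -1, 2]]

/-- the twist -/
def sg : Xt → List ℕ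
  | G2 => [0, 1] | G2t => [1, 0] | B2t => [1, 0] | F4 => [0, 1, 2, 3] | F4t => [3, 2, 1, 0] | D4t => [2, 1, 3, 0]
  | E6 => [0, 1, 2, 3, 4, 5] | E6t => [5, 1, 4, 3, 2, 0] | E7 => [0, 1, 2, 3, 4, 5, 6] | E8 => [0, 1, 2, 3, 4, 5, 6, 7]

end Xt

/-- an exceptional component -/
structure Ft (t : Xt) (em : ℕ → I) : Prop where
  car : ∀ i < t.r, ∀ j < t.r, A (em i) (em j) = ga t.AL i j
  mem : ∀ i, i ∈ K ↔ ∃ a < t.r, em a = i
  tw : ∀ i < t.r, τ (em i) = em (nth 0 t.sg i)

/-! ### automorphisms of the standard diagrams -/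

/-- `σ` is an automorphism of the diagram `m` of rank `r` -/
structure Au (r : ℕ) (m : ℕ → ℕ → ℕ) (σ : ℕ → ℕ) : Prop where
  lt : ∀ a < r, σ a < r
  eq : ∀ a < r, ∀ b < r, m (σ a) (σ b) = m a b

section Au

variable {r : ℕ} {m : ℕ → ℕ → ℕ} {σ : ℕ → ℕ}

theorem path_aut (lt : ∀ a < r, σ a < r) (h1 : ∀ a, a + 1 < r → σ a + 1 = σ (a + 1) ∨ σ (a + 1) + 1 = σ a)
    (h2 : ∀ a, a + 2 < r → σ a ≠ σ (a + 2)) : (∀ a < r, σ a = a) ∨ ∀ a < r, σ a = r - 1 - a := by
  rcases Nat.lt_or_ge 1 r with hr | hr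
  swap
  · exact Or.inl fun a ha => by have := lt a ha; omega
  rcases h1 0 hr with h | h
  · have key : ∀ a, a + 1 < r → σ a = σ 0 + a ∧ σ (a + 1) = σ 0 + (a + 1) := fun a => by
      induction a with
      | zero => exact fun _ => ⟨rfl, h.symm⟩
      | succ a ih => exact fun ha => by have := ih (by omega); have := h1 _ ha; have : σ a ≠ σ (a + 1 + 1) := h2 a ha; omega
    have h3 := key (r - 2) (by omega)
    have h4 := lt (r - 2 + 1) (by omega)
    refine Or.inl fun a ha => ?_
    rcases a with _ | a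
    · omega
    · have := key a ha; omega
  · have key : ∀ a, a + 1 < r → σ a + a = σ 0 ∧ σ (a + 1) + (a + 1) = σ 0 := fun a => by
      induction a with
      | zero => exact fun _ => ⟨rfl, h⟩
      | succ a ih => exact fun ha => by have := ih (by omega); have := h1 _ ha; have : σ a ≠ σ (a + 1 + 1) := h2 a ha; omega
    have h3 := key (r - 2) (by omega)
    have h4 := lt 0 (by omega)
    refine Or.inr fun a ha => ?_
    rcases a with _ | a
    · omega
    · have := key a ha; omega

theorem Au.pathA (h : Au r mA σ) : (∀ a < r, σ a = a) ∨ ∀ a < r, σ a = r - 1 - a :=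
  path_aut h.lt (fun a ha => by have := h.eq a (by omega) _ ha; unfold mA at this; split_ifs at this <;> omega)
    fun a ha => by have := h.eq a (by omega) _ ha; unfold mA at this; split_ifs at this <;> omega

theorem Au.pathC (h : Au r (mC r) σ) (hr : 3 ≤ r) : ∀ a < r, σ a = a := by
  refine (path_aut h.lt (fun a ha => by have := h.eq a (by omega) _ ha; unfold mC at this; split_ifs at this <;> omega)
    fun a ha => by have := h.eq a (by omega) _ ha; unfold mC at this; split_ifs at this <;> omega).resolve_right fun h1 => ?_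
  have := h.eq 0 (by omega) 1 (by omega)
  rw [h1 0 (by omega), h1 1 (by omega)] at this
  unfold mC at this
  split_ifs at this <;> omega

theorem mD_three {r i j : ℕ} : mD r i j = 3 ↔ i ≠ j ∧ ((i + 1 = j ∧ j + 1 < r) ∨ (j + 1 = i ∧ i + 1 < r) ∨
    (i + 3 = r ∧ j + 1 = r) ∨ (j + 3 = r ∧ i + 1 = r)) := by
  unfold mD
  split_ifs with h1 h2
  · exact ⟨fun h => by omega, fun h => absurd h1 h.1⟩
  · exact ⟨fun _ => ⟨h1, h2⟩, fun _ => rfl⟩
  · exact ⟨fun h => by omega, fun h => absurd h.2 h2⟩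

theorem mD_one {r i j : ℕ} : mD r i j = 1 ↔ i = j := by
  unfold mD
  split_ifs with h1 h2 <;> omega

theorem Au.pathD (h : Au r (mD r) σ) (hr : 5 ≤ r) : ∃ ε, ∀ a < r, σ a = sK .D r ε a := by
  obtain ⟨s, rfl⟩ : ∃ s, r = s + 5 := ⟨r - 5, by omega⟩
  have adj : ∀ a < s + 5, ∀ b < s + 5, mD (s + 5) a b = 3 → σ a ≠ σ b ∧ ((σ a + 1 = σ b ∧ σ b + 1 < s + 5) ∨
      (σ b + 1 = σ a ∧ σ a + 1 < s + 5) ∨ (σ a + 3 = s + 5 ∧ σ b + 1 = s + 5) ∨ (σ b + 3 = s + 5 ∧ σ a + 1 = s + 5)) :=
    fun a ha b hb e => mD_three.1 ((h.eq a ha b hb).trans e)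
  have inj : ∀ a < s + 5, ∀ b < s + 5, a ≠ b → σ a ≠ σ b := fun a ha b hb e e' =>
    e (mD_one.1 ((h.eq a ha b hb).symm.trans (mD_one.2 e')))
  have a0 := adj s (by omega) (s + 1) (by omega) (mD_three.2 (by omega))
  have a1 := adj (s + 1) (by omega) (s + 2) (by omega) (mD_three.2 (by omega))
  have a2 := adj (s + 2) (by omega) (s + 3) (by omega) (mD_three.2 (by omega))
  have a3 := adj (s + 2) (by omega) (s + 4) (by omega) (mD_three.2 (by omega))
  have b0 := inj s (by omega) (s + 2) (by omega) (by omega)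
  have b1 := inj (s + 1) (by omega) (s + 3) (by omega) (by omega)
  have b2 := inj (s + 1) (by omega) (s + 4) (by omega) (by omega)
  have b3 := inj (s + 3) (by omega) (s + 4) (by omega) (by omega)
  have c2 : σ (s + 2) = s + 2 := by (clear * - a1 a2 a3 b1 b2 b3; solve | lia | omega)
  have c1 : σ (s + 1) = s + 1 := by (clear * - a0 a1 b0 c2; omega)
  have key : ∀ d a, a + d = s + 1 → σ a = a ∧ σ (a + 1) = a + 1 := fun d => by
    induction d with
    | zero => exact fun a e => by obtain rfl : a = s + 1 := e; exact ⟨c1, c2⟩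
    | succ d ih =>
      intro a e
      have h1 := ih (a + 1) (by omega)
      have h2 := adj a (by omega) (a + 1) (by omega) (mD_three.2 (by (clear * - e; omega)))
      have h3 := inj a (by omega) (a + 1 + 1) (by omega) (by omega)
      (clear * - c1 e h1 h2 h3; omega)
  have low : ∀ a, a ≤ s + 2 → σ a = a := fun a ha => by
    rcases ha.eq_or_lt with rfl | ha
    exacts [c2, (key (s + 1 - a) a (by omega)).1]
  by_cases e : σ (s + 3) = s + 3
  · refine ⟨1, fun a ha => ?_⟩
    rw [sK, if_pos rfl]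
    rcases Nat.lt_or_ge (s + 2) a with h1 | h1
    · obtain rfl | rfl : a = s + 3 ∨ a = s + 4 := by omega
      exacts [e, by (clear * - a3 b2 b3 c2 c1 e; solve | lia | omega)]
    · exact low a h1
  · refine ⟨-1, fun a ha => ?_⟩
    rw [sK, if_neg (by decide)]
    split_ifs with h1 h2
    · obtain rfl : a = s + 4 := by omega
      (clear * - a2 a3 b1 b2 b3 c2 c1 e; solve | lia | omega)
    · obtain rfl : a = s + 3 := by omega
      (clear * - a2 b1 c2 c1 e; solve | lia | omega)
    · exact low a (by omega)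

/-- the partial automorphisms -/
def auts (r : ℕ) (m : ℕ → ℕ → ℕ) : ℕ → List (List (ℕ × ℕ))
  | 0 => [[]]
  | k + 1 => (auts r m k).flatMap fun l => ((List.range r).filter fun x => l.all fun p => m p.2 x == m p.1 k).map fun x => (k, x) :: l

theorem Au.mem_auts (h : Au r m σ) {k : ℕ} (hk : k ≤ r) : ∃ l ∈ auts r m k, ∀ p ∈ l, p.1 < k ∧ σ p.1 = p.2 := by
  induction k with
  | zero => exact ⟨[], List.mem_singleton_self _, by simp⟩
  | succ k ih =>
    obtain ⟨l, h1, h2⟩ := ih (by omega)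
    refine ⟨(k, σ k) :: l, List.mem_flatMap.2 ⟨l, h1, List.mem_map.2 ⟨σ k, List.mem_filter.2 ⟨List.mem_range.2 (h.lt k hk),
      List.all_eq_true.2 fun p hp => ?_⟩, rfl⟩⟩, fun p hp => ?_⟩
    · rw [beq_iff_eq, ← (h2 p hp).2, h.eq _ (by have := (h2 p hp).1; omega) k hk]
    · rcases List.mem_cons.1 hp with rfl | hp
      exacts [⟨k.lt_succ_self, rfl⟩, ⟨(h2 p hp).1.trans k.lt_succ_self, (h2 p hp).2⟩]

/-- `π` is a relabelling which turns the automorphism `l` into `s` -/
def rel (r : ℕ) (l : List (ℕ × ℕ)) (π : List ℕ) (s : ℕ → ℕ) : Bool :=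
  π.length == r && allLt r fun i => decide (nth 0 π i < r) && decide (i ∈ π) && decide ((nth 0 π i, nth 0 π (s i)) ∈ l)

/-- the check for an exceptional type -/
def okX (r : ℕ) (a : ℕ → ℕ → ℤ) (l : List (ℕ × ℕ)) (c : Xt × List ℕ) : Bool :=
  c.1.r == r && rel r l c.2 (nth 0 c.1.sg) && allLt r fun i => allLt r fun j => a (nth 0 c.2 i) (nth 0 c.2 j) == ga c.1.AL i j

/-- the check for a classical type -/
def okC (r : ℕ) (m : ℕ → ℕ → ℕ) (κ : Kn) (l : List (ℕ × ℕ)) (c : ℤˣ × List ℕ) : Bool :=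
  rk κ r == r && decide (lo κ ≤ r) && decide (κ ≠ .D → c.1 = 1) && rel r l c.2 (sK κ r c.1) &&
    allLt r fun i => allLt r fun j => m (nth 0 c.2 i) (nth 0 c.2 j) == mK κ r i j

end Au

variable {M A τ K} {r : ℕ} {m : ℕ → ℕ → ℕ} {em : ℕ → I} {σ : ℕ → ℕ}

theorem Lb.rel (L : Lb M K r m em) (hσ : ∀ a < r, τ (em a) = em (σ a)) {l : List (ℕ × ℕ)} (hl : ∀ p ∈ l, p.1 < r ∧ σ p.1 = p.2)
    {π : List ℕ} {s : ℕ → ℕ} (h : rel r l π s = true) : (∀ a < r, nth 0 π a < r) ∧
      (∀ i, i ∈ K ↔ ∃ a < r, em (nth 0 π a) = i) ∧ ∀ a < r, τ (em (nth 0 π a)) = em (nth 0 π (s a)) := by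
  simp only [Cls.rel, Bool.and_eq_true, beq_iff_eq, allLt_iff, decide_eq_true_eq] at h
  refine ⟨fun a ha => (h.2 a ha).1.1, fun i => (L.mem i).trans ⟨?_, fun ⟨a, ha, e⟩ => ⟨_, (h.2 a ha).1.1, e⟩⟩, fun a ha => ?_⟩
  · rintro ⟨a, ha, rfl⟩
    obtain ⟨j, hj, e⟩ := List.getElem_of_mem (h.2 a ha).1.2
    exact ⟨j, h.1 ▸ hj, by rw [nth_eq, List.getD_eq_getElem _ _ hj, e]⟩
  · rw [hσ _ (h.2 a ha).1.1, (hl _ (h.2 a ha).2).2]

/-- the result of the classification -/
def Out (M : CoxeterMatrix I) (A : I → I → ℤ) (τ : Equiv.Perm I) (K : Set I) : Prop :=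
  (∃ κ m ε nd, Bk M τ K κ m ε nd) ∨ ∃ t em, Ft A τ K t em

theorem Lb.out (L : Lb M K r m em) (hσ : ∀ a < r, τ (em a) = em (σ a)) (h : Au r m σ) {a : ℕ → ℕ → ℤ}
    (ha : ∀ i < r, ∀ j < r, A (em i) (em j) = a i j) (X : List (Xt × List ℕ)) (κ : Kn) (C : List (ℤˣ × List ℕ))
    (e : ((auts r m r).all fun l => X.any (okX r a l) || C.any (okC r m κ l)) = true) : Out M A τ K := by
  obtain ⟨l, h1, h2⟩ := h.mem_auts le_rfl
  rcases Bool.or_eq_true_iff.1 (List.all_eq_true.1 e l h1) with h3 | h3 <;> obtain ⟨c, -, h3⟩ := List.any_eq_true.1 h3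
  · simp only [okX, Bool.and_eq_true, beq_iff_eq, allLt_iff] at h3
    obtain ⟨⟨rfl, h4⟩, h5⟩ := h3
    obtain ⟨h6, h7, h8⟩ := L.rel hσ h2 h4
    exact Or.inr ⟨c.1, fun i => em (nth 0 c.2 i), fun i hi j hj => (ha _ (h6 i hi) _ (h6 j hj)).trans (h5 i hi j hj), h7, h8⟩
  · simp only [okC, Bool.and_eq_true, beq_iff_eq, allLt_iff, decide_eq_true_eq] at h3
    obtain ⟨⟨⟨⟨h0, h9⟩, h10⟩, h4⟩, h5⟩ := h3
    obtain ⟨h6, h7, h8⟩ := L.rel hσ h2 h4
    refine Or.inl ⟨κ, r, c.1, fun i => em (nth 0 c.2 i), ⟨?_, ?_⟩, h9, h10, ?_⟩ <;> rw [h0]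
    exacts [h7, fun i hi j hj => (L.lab _ (h6 i hi) _ (h6 j hj)).trans (h5 i hi j hj), h8]

/-- the simply laced entries -/
def cA (m : ℕ) : ℤ := if m = 1 then 2 else if m = 2 then 0 else -1

theorem car_sl (h : IsCartan M A) {i j : I} (h3 : M i j ≤ 3) : A i j = cA (M i j) := by
  by_cases e : i = j
  · rw [e, h.diag, M.diagonal]; rfl
  · rcases h.rel i j e with h1 | h1 | h1 | h1
    · rw [h1.1, h1.2.1]; rfl
    · rw [h1.1, h1.2.1]; rfl
    all_goals omega

/-- the Cartan matrix with one multiple bond: the entry `(x, y)` is `- c` -/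
def cB (m : ℕ → ℕ → ℕ) (x y : ℕ) (c : ℤ) (i j : ℕ) : ℤ := if i = x ∧ j = y then -c else cA (m i j)

theorem Lb.car_sl (L : Lb M K r m em) (h : IsCartan M A) (h3 : ∀ i < r, ∀ j < r, m i j ≤ 3) :
    ∀ i < r, ∀ j < r, A (em i) (em j) = cA (m i j) := fun i hi j hj => by
  rw [← L.lab i hi j hj, Cls.car_sl h ((L.lab i hi j hj).trans_le (h3 i hi j hj))]

theorem Lb.car_bd (L : Lb M K r m em) (h : IsCartan M A) {x y : ℕ} (hx : x < r) (hy : y < r) (h4 : 3 < m x y)
    (h3 : ∀ i < r, ∀ j < r, m i j ≤ 3 ∨ (i = x ∧ j = y) ∨ (i = y ∧ j = x)) :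
    (∀ i < r, ∀ j < r, A (em i) (em j) = cB m x y (m x y / 2 : ℕ) i j) ∨
      ∀ i < r, ∀ j < r, A (em i) (em j) = cB m y x (m x y / 2 : ℕ) i j := by
  have h1 := L.lab x hx y hy
  have h2 : m y x = m x y := by rw [← L.lab y hy x hx, ← h1, M.symmetric]
  have hxy : x ≠ y := by
    rintro rfl
    rw [M.diagonal] at h1
    omega
  have key : ∀ {x y : ℕ}, 3 < m x y → m y x = m x y → (∀ i < r, ∀ j < r, m i j ≤ 3 ∨ (i = x ∧ j = y) ∨ (i = y ∧ j = x)) →
      ∀ {c : ℤ}, A (em x) (em y) = -c → A (em y) (em x) = -1 → ∀ i < r, ∀ j < r, A (em i) (em j) = cB m x y c i j := by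
    intro x y h4 h2 h3 c e1 e2 i hi j hj
    unfold cB
    split_ifs with h5
    · rw [h5.1, h5.2, e1]
    rcases h3 i hi j hj with h6 | h6 | h6
    · rw [← L.lab i hi j hj, Cls.car_sl h ((L.lab i hi j hj).trans_le h6)]
    · exact absurd h6 h5
    · rw [h6.1, h6.2, e2, cA, if_neg (by omega), if_neg (by omega)]
  have h3' : ∀ i < r, ∀ j < r, m i j ≤ 3 ∨ (i = y ∧ j = x) ∨ (i = x ∧ j = y) := fun i hi j hj =>
    (h3 i hi j hj).imp id Or.symm
  rcases h.rel (em x) (em y) (fun e => by rw [e, M.diagonal] at h1; omega) with h5 | h5 | ⟨h5, h6 | h6⟩ | ⟨h5, h6 | h6⟩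
  · omega
  · omega
  · exact Or.inr (key (by omega) h2.symm h3' (by rw [h6.2, ← h1, h5]; rfl) h6.1)
  · exact Or.inl (key h4 h2 h3 (by rw [h6.1, ← h1, h5]; rfl) h6.2)
  · exact Or.inr (key (by omega) h2.symm h3' (by rw [h6.2, ← h1, h5]; rfl) h6.1)
  · exact Or.inl (key h4 h2 h3 (by rw [h6.1, ← h1, h5]; rfl) h6.2)

/-- rank two -/
def m2 (c i j : ℕ) : ℕ := if i = j then 1 else c

theorem Lb.exists_au (L : Lb M K r m em) (hM : ∀ i j, M (τ i) (τ j) = M i j) (hK : ∀ i ∈ K, τ i ∈ K) :
    ∃ σ, (∀ a < r, τ (em a) = em (σ a)) ∧ Au r m σ := by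
  have h1 : ∀ a, ∃ b, a < r → b < r ∧ τ (em a) = em b := fun a => by
    by_cases ha : a < r
    · obtain ⟨b, hb, e⟩ := (L.mem _).1 (hK _ ((L.mem _).2 ⟨a, ha, rfl⟩))
      exact ⟨b, fun _ => ⟨hb, e.symm⟩⟩
    · exact ⟨0, fun h => absurd h ha⟩
  choose σ hσ using h1
  exact ⟨σ, fun a ha => (hσ a ha).2, fun a ha => (hσ a ha).1, fun a ha b hb => by
    rw [← L.lab _ (hσ a ha).1 _ (hσ b hb).1, ← (hσ a ha).2, ← (hσ b hb).2, hM, L.lab a ha b hb]⟩

theorem lb_of_lab {n : ℕ} (hn : 0 < n) (v : Fin n ≃ K) (h : ∀ i j : Fin n, M (v i) (v j) = m i j) : ∃ em, Lb M K n m em :=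
  ⟨fun a => v (if ha : a < n then ⟨a, ha⟩ else ⟨0, hn⟩), fun i => ⟨fun hi => ⟨v.symm ⟨i, hi⟩, (v.symm _).2, by
    rw [dif_pos (v.symm _).2, Fin.eta, Equiv.apply_symm_apply]⟩, fun ⟨_, _, e⟩ => e ▸ (v _).2⟩,
    fun a ha b hb => by rw [dif_pos ha, dif_pos hb, h]⟩

variable [Fintype I] [DecidableEq I] {W : Type} [Group W] [Finite W]

/-- the untwisted type -/
theorem exists_lb (cs : CoxeterSystem M W) (h : IsCartan M A) (hK : Cn M K) : ∃ r m em, Lb M K r m em ∧
    ((1 ≤ r ∧ m = mA) ∨ (3 ≤ r ∧ m = mC r) ∨ (4 ≤ r ∧ m = mD r) ∨ (r = 6 ∧ m = mE 6) ∨ (r = 7 ∧ m = mE 7) ∨ (r = 8 ∧ m = mE 8) ∨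
      (r = 4 ∧ m = mF) ∨ (r = 2 ∧ m = m2 4) ∨ (r = 2 ∧ m = m2 6)) := by
  classical
  have hc : ∀ J : Set K, J.Nonempty → Jᶜ.Nonempty → ∃ a ∈ J, ∃ b ∈ Jᶜ, ODD.Hk.MJ M K a b ≠ 2 := fun J ⟨x, hx⟩ ⟨y, hy⟩ => by
    obtain ⟨_, ⟨a, ha, rfl⟩, b, hb, e⟩ := hK.2 (Subtype.val '' J) (Subtype.coe_image_subset _ _) ⟨x, x, hx, rfl⟩
      ⟨y, y.2, fun ⟨z, hz, e⟩ => hy (Subtype.ext e ▸ hz)⟩
    exact ⟨a, ha, ⟨b, hb.1⟩, fun h => hb.2 ⟨_, h, rfl⟩, e⟩
  rcases Nat.lt_or_ge (Fintype.card K) 3 with h3 | h3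
  · have h0 : 0 < Fintype.card K := Fintype.card_pos_iff.2 hK.1.to_subtype
    obtain h1 | h1 : Fintype.card K = 1 ∨ Fintype.card K = 2 := by omega
    · obtain ⟨em, L⟩ := lb_of_lab (M := M) (m := mA) one_pos (Fintype.equivFinOfCardEq h1).symm fun i j => by
        rw [Subsingleton.elim i 0, Subsingleton.elim j 0, M.diagonal]; rfl
      exact ⟨_, _, em, L, Or.inl ⟨le_rfl, rfl⟩⟩
    · let v := (Fintype.equivFinOfCardEq h1).symm
      have h4 : M (v 0) (v 1) ≠ 2 := by
        obtain ⟨a, ha, b, hb, e⟩ := hc {v 0} ⟨_, rfl⟩ ⟨v 1, fun e => absurd (v.injective e) (by decide)⟩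
        obtain ⟨b, rfl⟩ := v.surjective b
        obtain rfl : b = 1 := by
          fin_cases b
          exacts [absurd rfl hb, rfl]
        rwa [show a = v 0 from ha] at e
      obtain ⟨em, L⟩ := lb_of_lab (M := M) (m := m2 (M (v 0) (v 1))) two_pos v fun i j => by
        fin_cases i <;> fin_cases j
        exacts [M.diagonal _, rfl, M.symmetric _ _, M.diagonal _]
      rcases h.rel (v 0) (v 1) (fun e => absurd (v.injective (Subtype.ext e)) (by decide)) with h5 | h5 | h5 | h5
      · exact absurd h5.1 h4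
      · rw [h5.1] at L
        exact ⟨2, mA, em, ⟨L.mem, fun a ha b hb => (L.lab a ha b hb).trans (by
          unfold m2 mA; split_ifs <;> omega)⟩, Or.inl ⟨one_le_two, rfl⟩⟩
      · exact ⟨_, _, em, L, by simp only [h5.1, _root_.Nat.one_le_ofNat, _root_.Fin.isValue, _root_.true_and, _root_.Nat.reduceLeDiff, _root_.false_and, _root_.OfNat.ofNat_eq_ofNat, _root_.Nat.reduceEqDiff, _root_.and_self, _root_.true_or, _root_.or_true]⟩
      · exact ⟨_, _, em, L, by simp only [h5.1, _root_.Nat.one_le_ofNat, _root_.Fin.isValue, _root_.true_and, _root_.Nat.reduceLeDiff, _root_.false_and, _root_.OfNat.ofNat_eq_ofNat, _root_.Nat.reduceEqDiff, _root_.and_self, _root_.or_true]⟩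
  rcases classify_coxeter (ODD.Hk.csJ cs K) (fun a b e => by
      by_cases e' : (a : I) = b
      · rw [ODD.Hk.MJ_apply, e', M.diagonal] at e; omega
      · have := h.rel a b e'
        rw [ODD.Hk.MJ_apply] at e
        omega) hc h3 with ⟨n, v, hn, L⟩ | ⟨n, v, hn, L⟩ | ⟨n, v, hn, L⟩ | ⟨v, L⟩ | ⟨v, L⟩ | ⟨v, L⟩ | ⟨v, L⟩ <;>
    obtain ⟨em, L⟩ := lb_of_lab (M := M) (by omega) v L <;> refine ⟨_, _, em, L, ?_⟩
  · exact Or.inl ⟨by omega, rfl⟩
  · exact Or.inr (Or.inl ⟨hn, rfl⟩)
  · exact Or.inr (Or.inr (Or.inl ⟨hn, rfl⟩))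
  all_goals simp

/-- **the classification** -/
theorem dyn (cs : CoxeterSystem M W) (h : IsCartan M A) (hM : ∀ i j, M (τ i) (τ j) = M i j) (hτ : ∀ i ∈ K, τ i ∈ K)
    (hK : Cn M K) : Out M A τ K := by
  obtain ⟨r, m, em, L, h1⟩ := exists_lb cs h hK
  obtain ⟨σ, hσ, H⟩ := L.exists_au hM hτ
  rcases h1 with ⟨hr, rfl⟩ | ⟨hr, rfl⟩ | ⟨hr, rfl⟩ | ⟨rfl, rfl⟩ | ⟨rfl, rfl⟩ | ⟨rfl, rfl⟩ | ⟨rfl, rfl⟩ | ⟨rfl, rfl⟩ | ⟨rfl, rfl⟩
  · by_cases h2 : ∀ a < r, σ a = a
    · exact Or.inl ⟨.A, r + 1, 1, em, L, Nat.succ_le_succ hr, fun _ => rfl, fun a ha => by rw [hσ a ha, h2 a ha]; rfl⟩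
    · have h3 := H.pathA.resolve_left h2
      refine Or.inl ⟨.U, r + 1, 1, em, L, not_lt.1 fun h4 => h2 fun a ha => ?_, fun _ => rfl,
        fun a ha => by rw [hσ a ha, h3 a ha]; rfl⟩
      have := H.lt a ha
      have : r + 1 < 3 := h4
      omega
  · exact Or.inl ⟨.B, r, 1, em, L, Nat.le_of_succ_le hr, fun _ => rfl, fun a ha => by rw [hσ a ha, H.pathC hr a ha]; rfl⟩
  · rcases hr.eq_or_lt with rfl | hr
    · exact L.out hσ H (L.car_sl h (by decide)) [(.D4t, [0, 1, 2, 3]), (.D4t, [0, 1, 3, 2])] .D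
        [(1, [0, 1, 2, 3]), (-1, [0, 1, 2, 3]), (-1, [2, 1, 0, 3]), (-1, [3, 1, 0, 2])] (by decide +kernel)
    · obtain ⟨ε, e⟩ := H.pathD hr
      exact Or.inl ⟨.D, r, ε, em, L, hr.le, fun h => absurd rfl h, fun a ha => by rw [hσ a ha, e a ha]⟩
  · exact L.out hσ H (L.car_sl h (by decide)) [(.E6, [0, 5, 1, 2, 3, 4]), (.E6t, [0, 5, 1, 2, 3, 4])] .A [] (by decide +kernel)
  · exact L.out hσ H (L.car_sl h (by decide)) [(.E7, [0, 6, 1, 2, 3, 4, 5])] .A [] (by decide +kernel)
  · exact L.out hσ H (L.car_sl h (by decide)) [(.E8, [0, 7, 1, 2, 3, 4, 5, 6])] .A [] (by decide +kernel)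
  · rcases L.car_bd h (x := 1) (y := 2) (by decide) (by decide) (by decide) (by decide) with h2 | h2
    · exact L.out hσ H h2 [(.F4, [0, 1, 2, 3]), (.F4t, [0, 1, 2, 3])] .A [] (by decide +kernel)
    · exact L.out hσ H h2 [(.F4, [3, 2, 1, 0]), (.F4t, [3, 2, 1, 0])] .A [] (by decide +kernel)
  · rcases L.car_bd h (x := 0) (y := 1) (by decide) (by decide) (by decide) (by decide) with h2 | h2
    · exact L.out hσ H h2 [(.B2t, [1, 0])] .B [(1, [0, 1])] (by decide +kernel)
    · exact L.out hσ H h2 [(.B2t, [0, 1])] .B [(1, [0, 1])] (by decide +kernel)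
  · rcases L.car_bd h (x := 0) (y := 1) (by decide) (by decide) (by decide) (by decide) with h2 | h2
    · exact L.out hσ H h2 [(.G2, [0, 1]), (.G2t, [0, 1])] .A [] (by decide +kernel)
    · exact L.out hσ H h2 [(.G2, [1, 0]), (.G2t, [1, 0])] .A [] (by decide +kernel)

omit [Finite W] in
/-- the form of `LV/W` -/
theorem Ft.fit [Fintype W] {cs : CoxeterSystem M W} (h : IsCartan M A) {ψ : MulAut W} (hψ : ∀ i, ψ (cs.simple i) = cs.simple (τ i))
    {t : Xt} (H : Ft A τ K t em) (T : LV.W.Ty) (h1 : T.r = t.r) (h2 : T.AL = t.AL) (h3 : T.sg = t.sg) :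
    LV.W.Fit cs h ψ T em K 1 where
  car := by rw [h1, h2]; exact H.car
  mem := by rw [h1]; exact H.mem
  aut i := ⟨_, hψ i⟩
  min x _ := by rw [mul_one, cs.length_one, add_zero]
  tw i hi := by rw [one_mul, mul_one, hψ, H.tw i (h1 ▸ hi), ← h3]; rfl

end Cfsg.Agent.MO.Cls
end

-- part: MO/Co/Wr
section
/-!
# MO-Co: the centraliser of a semiregular permutation is a wreath product (helper23)

* `act A ι` : the imprimitive action of `A ≀ Perm ι` on `ι × A`; `act_inj`, `mem_range_act`, `sign_act`;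
* `Reg γ m` : all cycles of `γ` have length `m`; `Cy m` : the cyclic group of order `m`;
* `Reg.exists_iso` : the centraliser of `γ` is `Cy m ≀ Perm (Cyc γ)`, the sign is `linW (sgA _)` for even `m`.
-/

set_option autoImplicit false
set_option linter.unusedSectionVars false

namespace Cfsg.Agent.MO.Co

open Equiv Finset Cfsg.Agent.MO.W

section act

variable (A ι : Type) [Group A]

/-- the imprimitive action -/
def act : Wr A ι →* Perm (ι × A) := MonoidHom.toHomPerm
  { toFun v x := (v.right x.1, v.left (v.right x.1) * x.2)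
    map_one' := funext fun x => Prod.ext rfl (one_mul _)
    map_mul' v w := funext fun x => Prod.ext rfl (by
      change (v * w).left (v.right (w.right x.1)) * x.2 = v.left (v.right (w.right x.1)) * (w.left (w.right x.1) * x.2)
      rw [mul_left, ← mul_assoc]
      simp) }

/-- the sign of the left multiplication -/
def sgA [Fintype A] [DecidableEq A] : A →* ℤˣ := Perm.sign.comp (MulAction.toPermHom A A)

variable {A ι}

theorem act_apply (v : Wr A ι) (i : ι) (α : A) : act A ι v (i, α) = (v.right i, v.left (v.right i) * α) := rfl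

theorem act_inj : Function.Injective (act A ι) := (injective_iff_map_eq_one _).2 fun v h => by
  have h1 : ∀ i, (v.right i, v.left (v.right i) * 1) = (i, (1 : A)) := fun i => by rw [← act_apply, h]; rfl
  have h2 : ∀ i, v.right i = i := fun i => congrArg Prod.fst (h1 i)
  exact SemidirectProduct.ext (funext fun i => by simpa [h2] using congrArg Prod.snd (h1 i)) (Equiv.ext h2)

theorem mem_range_act {σ : Perm (ι × A)} :
    σ ∈ (act A ι).range ↔ ∀ i α β, σ (i, α * β) = ((σ (i, α)).1, (σ (i, α)).2 * β) := by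
  constructor
  · rintro ⟨v, rfl⟩ i α β
    rw [act_apply, act_apply, mul_assoc]
  · intro h
    have h1 : ∀ i α, σ (i, α) = ((σ (i, 1)).1, (σ (i, 1)).2 * α) := fun i α => by rw [← h, one_mul]
    have h2 : Function.Bijective fun i => (σ (i, 1)).1 := by
      refine ⟨fun i j e => ?_, fun j => ?_⟩
      · have h3 : σ (i, (σ (i, 1)).2⁻¹) = σ (j, (σ (j, 1)).2⁻¹) := by
          rw [h1 i, h1 j, mul_inv_cancel, mul_inv_cancel]
          exact Prod.ext e rfl
        exact congrArg Prod.fst (σ.injective h3)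
      · obtain ⟨⟨i, α⟩, e⟩ := σ.surjective (j, 1)
        exact ⟨i, by rw [h1] at e; exact congrArg Prod.fst e⟩
    refine ⟨⟨fun j => (σ ((Equiv.ofBijective _ h2).symm j, 1)).2, Equiv.ofBijective _ h2⟩, Equiv.ext fun x => ?_⟩
    rw [act_apply, h1 x.1 x.2]
    simp only [Equiv.symm_apply_apply]
    rfl

theorem sign_act [Fintype A] [DecidableEq A] [Fintype ι] [DecidableEq ι] (v : Wr A ι) :
    Perm.sign (act A ι v) = linW ι (sgA A) v * Perm.sign v.right ^ Fintype.card A := by
  have h1 : act A ι v = prodCongrRight (fun i => MulAction.toPermHom A A (v.left i)) * prodCongrLeft fun _ => v.right :=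
    Equiv.ext fun _ => rfl
  rw [h1, map_mul, Perm.sign_prodCongrRight, Perm.sign_prodCongrLeft, prod_const, card_univ]
  rfl

end act

/-- the cyclic group of order `m` -/
abbrev Cy (m : ℕ) : Type := Multiplicative (ZMod m)

/-- the generator -/
def gn (m : ℕ) : Cy m := Multiplicative.ofAdd 1

theorem gn_pow (m j : ℕ) : gn m ^ j = Multiplicative.ofAdd (j : ZMod m) := by
  rw [gn, ← ofAdd_nsmul, nsmul_one]

theorem gn_pow_val {m : ℕ} [NeZero m] (α : Cy m) : gn m ^ α.toAdd.val = α := by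
  rw [gn_pow, ZMod.natCast_zmod_val, ofAdd_toAdd]

theorem gn_pow_eq {m i j : ℕ} : gn m ^ i = gn m ^ j ↔ i ≡ j [MOD m] := by
  rw [gn_pow, gn_pow, Multiplicative.ofAdd.injective.eq_iff, ZMod.natCast_eq_natCast_iff]

theorem card_Cy (m : ℕ) [NeZero m] : Fintype.card (Cy m) = m := by rw [Fintype.card_multiplicative, ZMod.card]

section reg

variable {Ω : Type} {γ : Perm Ω} {m : ℕ}

/-- all cycles have length `m` -/
def Reg (γ : Perm Ω) (m : ℕ) : Prop := ∀ x, Function.minimalPeriod γ x = m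

theorem Reg.pow_iff [NeZero m] (h : Reg γ m) (x : Ω) {i j : ℕ} : (γ ^ i) x = (γ ^ j) x ↔ i ≡ j [MOD m] := by
  have h0 : 0 < Function.minimalPeriod γ x := (h x).symm ▸ NeZero.pos m
  rw [Perm.coe_pow, Perm.coe_pow, ← Function.iterate_mod_minimalPeriod_eq (n := i),
    ← Function.iterate_mod_minimalPeriod_eq (n := j),
    Function.iterate_eq_iterate_iff_of_lt_minimalPeriod (Nat.mod_lt _ h0) (Nat.mod_lt _ h0), h x]
  rfl

theorem reg_of (h : ∀ x j, (γ ^ j) x = x ↔ m ∣ j) : Reg γ m := fun x => by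
  have h1 : ∀ j, Function.minimalPeriod γ x ∣ j ↔ m ∣ j := fun j => by
    rw [← Function.isPeriodicPt_iff_minimalPeriod_dvd, ← h x, Perm.coe_pow]
    rfl
  exact Nat.dvd_antisymm ((h1 m).2 dvd_rfl) ((h1 _).1 dvd_rfl)

theorem cy_pow (γ : Perm Ω) (j : ℕ) (x : Ω) : cy γ ((γ ^ j) x) = cy γ x :=
  cy_eq_iff.2 (Perm.SameCycle.symm ⟨j, by rw [zpow_natCast]⟩)

variable [Finite Ω] [NeZero m]

/-- coordinates -/
noncomputable def Reg.crd (h : Reg γ m) : Cyc γ × Cy m ≃ Ω :=
  Equiv.ofBijective (fun x => (γ ^ x.2.toAdd.val) (pt x.1)) ⟨fun ⟨O, α⟩ ⟨O', β⟩ e => by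
    obtain rfl : O = O' := by simpa only [cy_pow, cy_pt] using congrArg (cy γ) e
    rw [← gn_pow_val α, ← gn_pow_val β, gn_pow_eq.2 ((h.pow_iff _).1 e)], fun x => by
    obtain ⟨j, hj⟩ := exists_ht γ x
    refine ⟨(cy γ x, gn m ^ j), ((h.pow_iff _).2 ?_).trans hj⟩
    rw [← gn_pow_eq, gn_pow_val]⟩

theorem Reg.crd_pow (h : Reg γ m) (O : Cyc γ) (α : Cy m) (j : ℕ) : h.crd (O, α * gn m ^ j) = (γ ^ j) (h.crd (O, α)) := by
  change (γ ^ _) (pt O) = (γ ^ j) ((γ ^ _) (pt O))
  rw [← Perm.mul_apply, ← pow_add, h.pow_iff, ← gn_pow_eq, gn_pow_val, pow_add, gn_pow_val, mul_comm]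

theorem Reg.crd_gn (h : Reg γ m) (O : Cyc γ) (α : Cy m) : h.crd (O, α * gn m) = γ (h.crd (O, α)) := by
  simpa only [pow_one] using h.crd_pow O α 1

theorem Reg.cy_crd (h : Reg γ m) (O : Cyc γ) (α : Cy m) : cy γ (h.crd (O, α)) = O := (cy_pow _ _ _).trans (cy_pt O)

theorem Reg.card (h : Reg γ m) : Fintype.card (Cyc γ) * m = Nat.card Ω := by
  rw [← Nat.card_congr h.crd, Nat.card_eq_fintype_card, Fintype.card_prod, card_Cy]

/-- the embedding of the wreath product -/
noncomputable def Reg.emb (h : Reg γ m) : Wr (Cy m) (Cyc γ) →* Perm Ω :=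
  h.crd.permCongrHom.toMonoidHom.comp (act _ _)

theorem Reg.emb_apply (h : Reg γ m) (v : Wr (Cy m) (Cyc γ)) (O : Cyc γ) (α : Cy m) :
    h.emb v (h.crd (O, α)) = h.crd (v.right O, v.left (v.right O) * α) := by
  change h.crd (act _ _ v (h.crd.symm (h.crd _))) = _
  rw [Equiv.symm_apply_apply, act_apply]

theorem Reg.emb_inj (h : Reg γ m) : Function.Injective h.emb := h.crd.permCongrHom.injective.comp act_inj

theorem Reg.mem_emb (h : Reg γ m) {σ : Perm Ω} : σ ∈ h.emb.range ↔ σ * γ = γ * σ := by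
  constructor
  · rintro ⟨v, rfl⟩
    refine Equiv.ext (h.crd.surjective.forall.2 fun ⟨O, α⟩ => ?_)
    rw [Perm.mul_apply, Perm.mul_apply, h.emb_apply, ← h.crd_gn, ← h.crd_gn, h.emb_apply, mul_assoc]
  · intro hc
    obtain ⟨v, hv⟩ := (mem_range_act (σ := h.crd.symm.permCongr σ)).2 fun O α β => by
      have h1 := (Commute.pow_right hc β.toAdd.val).eq
      rw [← gn_pow_val β, Equiv.permCongr_apply, Equiv.permCongr_apply, Equiv.symm_symm, Equiv.symm_apply_eq, h.crd_pow,
        h.crd_pow, ← Perm.mul_apply, h1, Perm.mul_apply, Prod.mk.eta, Equiv.apply_symm_apply]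
    refine ⟨v, Equiv.ext fun x => ?_⟩
    change h.crd (act _ _ v (h.crd.symm x)) = _
    rw [hv]
    simp

theorem Reg.emb_dz (h : Reg γ m) : h.emb (dz _ (gn m)) = γ :=
  Equiv.ext (h.crd.surjective.forall.2 fun ⟨O, α⟩ => by
    rw [h.emb_apply, ← h.crd_gn, mul_comm α]
    rfl)

theorem Reg.sign_emb [Fintype Ω] [DecidableEq Ω] (h : Reg γ m) (hm : Even m) (v : Wr (Cy m) (Cyc γ)) :
    Perm.sign (h.emb v) = linW _ (sgA (Cy m)) v := by
  rw [show h.emb v = h.crd.permCongr (act _ _ v) from rfl, Perm.sign_permCongr, sign_act, card_Cy,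
    Int.units_pow_eq_pow_mod_two, Nat.even_iff.1 hm, pow_zero, mul_one]

end reg

theorem sgA_gn (m : ℕ) [NeZero m] (hm : Even m) : sgA (Cy m) (gn m) = -1 := by
  have h : Reg (MulAction.toPermHom (Cy m) (Cy m) (gn m)) m := reg_of fun x j => by
    rw [← map_pow, MulAction.toPermHom_apply, MulAction.toPerm_apply, smul_eq_mul, mul_eq_right, ← pow_zero (gn m),
      gn_pow_eq, Nat.modEq_zero_iff_dvd]
  have h1 := h.card
  rw [Nat.card_eq_fintype_card, card_Cy, mul_eq_right₀ (NeZero.ne m)] at h1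
  rw [sgA, MonoidHom.comp_apply, sign_eq, prod_congr rfl fun O _ => by rw [len, h], prod_const, card_univ, h1, pow_one,
    hm.add_one.neg_one_pow]

end Cfsg.Agent.MO.Co
end

-- part: MO/Co/Cen
section
/-!
# MO-Co: centralisers of signed permutations with cycles of one type (helper23)

* `Cn T g` : the elements supported on `T` which commute with `g`; `Hm T g k η` : all cycles of `g` in `T` have the type `(k, η)`;
* `cenB` : `Cn T g` is `C_(2k) ≀ S_a` (`k` odd or `η = -1`), the sign is `linW`;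
* `cenA` : the elements without signs form `C_k ≀ S_a`.
-/

set_option autoImplicit false
set_option linter.unusedSectionVars false

namespace Cfsg.Agent.MO.Co

open Equiv Finset Cfsg.Agent.MO.W Cfsg.Agent.LV.Cl Cfsg.Agent.LV.Cl.Cj
open Cfsg.Agent.MO.J (Ps)

variable {n : ℕ} {T : Finset (Fin n)} {g : SG n} {k : ℕ}

/-- the elements supported on `T` which commute with `g` -/
def Cn (T : Finset (Fin n)) (g : SG n) : Subgroup (SG n) := On T ⊓ Subgroup.centralizer {g}

theorem mem_Cn {h : SG n} : h ∈ Cn T g ↔ h ∈ On T ∧ h * g = g * h := by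
  rw [Cn, Subgroup.mem_inf, Subgroup.mem_centralizer_singleton_iff]

theorem comm_of_on (hT : Stab T g.π) {h : SG n} (h1 : h ∈ On T)
    (h2 : ∀ j ∈ T, (h * g).π j = (g * h).π j ∧ (h * g).s j = (g * h).s j) : h * g = g * h := by
  have h3 : ∀ j, (h * g).π j = (g * h).π j ∧ (h * g).s j = (g * h).s j := fun j => by
    by_cases hj : j ∈ T
    · exact h2 j hj
    · have h4 := h1 j hj
      have h5 := h1 (g.π j) fun e => hj ((hT j).1 e)
      simp [h4.1, h4.2, h5.1, h5.2]
  exact SG.ext (Equiv.ext fun j => (h3 j).1) (funext fun j => (h3 j).2)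

/-- all cycles in `T` have the length `k` and the sign `η` -/
def Hm (T : Finset (Fin n)) (g : SG n) (k : ℕ) (η : ℤˣ) : Prop :=
  Stab T g.π ∧ ∀ x ∈ T, #(cyc g.π x) = k ∧ ∏ j ∈ cyc g.π x, g.s j = η

/-- the part of an element on a stable set -/
def cut (T : Finset (Fin n)) (g : SG n) (h : Stab T g.π) : SG n :=
  ⟨Perm.ofSubtype (g.π.subtypePerm (p := fun x => x ∈ T) h), fun j => if j ∈ T then g.s j else 1⟩

theorem cut_on (h : Stab T g.π) : cut T g h ∈ On T := fun _ hj => ⟨Perm.ofSubtype_apply_of_not_mem _ hj, if_neg hj⟩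

theorem cut_π (h : Stab T g.π) {j : Fin n} (hj : j ∈ T) : (cut T g h).π j = g.π j := Perm.ofSubtype_apply_of_mem _ hj

theorem cut_s (h : Stab T g.π) {j : Fin n} (hj : j ∈ T) : (cut T g h).s j = g.s j := if_pos hj

theorem on_ext {h h' : SG n} (h1 : h ∈ On T) (h2 : h' ∈ On T) (e : ∀ j ∈ T, h.π j = h'.π j ∧ h.s j = h'.s j) : h = h' := by
  have h3 : ∀ j, h.π j = h'.π j ∧ h.s j = h'.s j := fun j => by
    by_cases hj : j ∈ T
    · exact e j hj
    · rw [(h1 j hj).1, (h1 j hj).2, (h2 j hj).1, (h2 j hj).2]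
      exact ⟨rfl, rfl⟩
  exact SG.ext (Equiv.ext fun j => (h3 j).1) (funext fun j => (h3 j).2)

/-- the action on the signed points -/
def rho (T : Finset (Fin n)) : On T →* Perm (T × ℤˣ) := MonoidHom.toHomPerm
  { toFun h x := (⟨h.1.π x.1, (stab_on h.2 _).2 x.1.2⟩, h.1.s x.1 * x.2)
    map_one' := funext fun _ => Prod.ext rfl (one_mul _)
    map_mul' _ _ := funext fun _ => Prod.ext rfl (mul_assoc _ _ _) }

theorem rho_fst (h : On T) (x : T × ℤˣ) : ((rho T h x).1 : Fin n) = h.1.π x.1 := rfl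

theorem rho_snd (h : On T) (x : T × ℤˣ) : (rho T h x).2 = h.1.s x.1 * x.2 := rfl

theorem rho_inj : Function.Injective (rho T) := fun h h' e => Subtype.ext (on_ext h.2 h'.2 fun j hj => by
  have h1 := DFunLike.congr_fun e (⟨j, hj⟩, 1)
  exact ⟨congrArg (fun x : T × ℤˣ => (x.1 : Fin n)) h1, mul_right_cancel (congrArg Prod.snd h1)⟩)

theorem mem_rho {σ : Perm (T × ℤˣ)} (h : ∀ x, σ (x.1, -x.2) = ((σ x).1, -(σ x).2)) : σ ∈ (rho T).range := by
  obtain ⟨v, rfl⟩ := (mem_range_act (σ := σ)).2 fun i α β => by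
    rcases Int.units_eq_one_or β with rfl | rfl
    · simp
    · simpa using h (i, α)
  refine ⟨⟨⟨Perm.ofSubtype v.right, fun j => if hj : j ∈ T then v.left (v.right ⟨j, hj⟩) else 1⟩,
    fun _ hj => ⟨Perm.ofSubtype_apply_of_not_mem _ hj, dif_neg hj⟩⟩, Equiv.ext fun x => Prod.ext (Subtype.ext ?_) ?_⟩
  · exact Perm.ofSubtype_apply_coe _ _
  · exact congrArg (· * x.2) (dif_pos x.1.2)

theorem sign_rho (h : On T) : Perm.sign (rho T h) = sgn (h : SG n) := by
  have h1 : rho T h = prodCongrLeft (fun _ => h.1.π.subtypePerm (p := fun x => x ∈ T) (stab_on h.2)) *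
      prodCongrRight fun j : T => MulAction.toPermHom ℤˣ ℤˣ (h.1.s j) := Equiv.ext fun _ => rfl
  have h2 : ∀ e : ℤˣ, Perm.sign (MulAction.toPermHom ℤˣ ℤˣ e) = e := by decide
  rw [h1, map_mul, Perm.sign_prodCongrRight, Perm.sign_prodCongrLeft, prod_const, card_univ, Fintype.card_units_int,
    Int.units_sq, one_mul]
  simp only [h2]
  rw [prod_coe_sort T h.1.s]
  exact prod_subset (subset_univ _) fun j _ hj => (h.2 j hj).2

/-- multiplication of the signs by a constant -/
def scl (e : ℤˣ) (g : SG n) : SG n := ⟨g.π, fun j => e * g.s j⟩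

theorem Cn_scl (e : ℤˣ) : Cn T (scl e g) = Cn T g := Subgroup.ext fun h => by
  rw [mem_Cn, mem_Cn, SG.ext_iff, SG.ext_iff, funext_iff, funext_iff]
  refine and_congr_right fun _ => and_congr_right fun _ => forall_congr' fun j => ?_
  simp only [mul_s, scl, mul_left_comm _ e, mul_assoc, mul_right_inj]

theorem Hm.scl {η : ℤˣ} (h : Hm T g k η) (e : ℤˣ) : Hm T (scl e g) k (e ^ k * η) := ⟨h.1, fun x hx => ⟨(h.2 x hx).1, by
  change ∏ j ∈ cyc g.π x, e * g.s j = _
  rw [prod_mul_distrib, prod_const, (h.2 x hx).1, (h.2 x hx).2]⟩⟩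

theorem Hm.cut {η : ℤˣ} (h : Hm T g k η) : Hm T (cut T g h.1) k η := ⟨stab_on (cut_on _), fun x hx => by
  have h1 := cyc_subset h.1 hx
  rw [cyc_congr fun y hy => cut_π h.1 (h1 hy), prod_congr rfl fun y hy => cut_s h.1 (h1 hy)]
  exact h.2 x hx⟩

theorem Cn_cut (h : Stab T g.π) : Cn T (cut T g h) = Cn T g := Subgroup.ext fun u => by
  rw [mem_Cn, mem_Cn]
  refine and_congr_right fun hu => ?_
  have h1 : ∀ j ∈ T, ((u * cut T g h).π j = (u * g).π j ∧ (u * cut T g h).s j = (u * g).s j) ∧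
      ((cut T g h * u).π j = (g * u).π j ∧ (cut T g h * u).s j = (g * u).s j) := fun j hj => by
    have h2 := (stab_on hu j).2 hj
    simp [cut_π h hj, cut_s h hj, cut_π h h2, cut_s h h2]
  refine ⟨fun e => comm_of_on h hu fun j hj => ?_, fun e => comm_of_on (stab_on (cut_on h)) hu fun j hj => ?_⟩
  · rw [← (h1 j hj).1.1, ← (h1 j hj).1.2, ← (h1 j hj).2.1, ← (h1 j hj).2.2, e]
    exact ⟨rfl, rfl⟩
  · rw [(h1 j hj).1.1, (h1 j hj).1.2, (h1 j hj).2.1, (h1 j hj).2.2, e]
    exact ⟨rfl, rfl⟩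

theorem Hm.pow_s {η : ℤˣ} (h : Hm T g k η) {x : Fin n} (hx : x ∈ T) (i : ℕ) : (g ^ (k * i)).s x = η ^ i := by
  induction i with
  | zero => simp
  | succ i ih => rw [Nat.mul_succ, pow_succ, ← ih, ← (h.2 x hx).2, ← pow_s_add, (h.2 x hx).1]

theorem Hm.pow_iff {η : ℤˣ} (h : Hm T g k η) {x : Fin n} (hx : x ∈ T) (i : ℕ) : (g.π ^ i) x = x ↔ k ∣ i := by
  rw [← (h.2 x hx).1, ← Nat.modEq_zero_iff_dvd, ← pow_eq_iff]
  rfl

/-- an isomorphism from two embeddings with the same image -/
theorem exists_iso {A B C : Type} [Group A] [Group B] [Group C] (f : A →* C) (g : B →* C) (hf : Function.Injective f)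
    (hg : Function.Injective g) (h : f.range = g.range) : ∃ e : A ≃* B, ∀ a, g (e a) = f a :=
  ⟨(MonoidHom.ofInjective hf).trans ((MulEquiv.subgroupCongr h).trans (MonoidHom.ofInjective hg).symm), fun _ =>
    MonoidHom.apply_ofInjective_symm hg _⟩

theorem cenB' [NeZero k] (h0 : g ∈ On T) (h : Hm T g k (-1)) : ∃ (ι : Type) (_ : Fintype ι), Fintype.card ι * k = #T ∧
    ∃ e : Wr (Cy (2 * k)) ι ≃* Cn T g, ∀ v, sgn (e v : SG n) = linW ι (sgA _) v := by
  have hp : ∀ (j : ℕ) (x : T × ℤˣ), (((rho T ⟨g, h0⟩ ^ j) x).1 : Fin n) = (g.π ^ j) x.1 ∧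
      ((rho T ⟨g, h0⟩ ^ j) x).2 = (g ^ j).s x.1 * x.2 := fun j x => by
    rw [← map_pow, rho_fst, rho_snd, SubgroupClass.coe_pow, pow_π]
    exact ⟨rfl, rfl⟩
  have hr : Reg (rho T ⟨g, h0⟩) (2 * k) := reg_of fun x j => by
    rw [Prod.ext_iff, Subtype.ext_iff, (hp j x).1, (hp j x).2, h.pow_iff x.1.2, mul_eq_right]
    constructor
    · rintro ⟨⟨i, rfl⟩, h1⟩
      rw [h.pow_s x.1.2, neg_one_pow_eq_one_iff_even (by decide)] at h1
      rw [mul_comm 2]
      exact Nat.mul_dvd_mul_left _ h1.two_dvd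
    · rintro ⟨i, rfl⟩
      rw [mul_comm 2, mul_assoc, h.pow_s x.1.2, pow_mul]
      exact ⟨dvd_mul_right _ _, by simp only [_root_.even_two, _root_.Even.neg_pow, _root_.one_pow]⟩
  have hk : ∀ x : T × ℤˣ, (rho T ⟨g, h0⟩ ^ k) x = (x.1, -x.2) := fun x => Prod.ext (Subtype.ext (by
    rw [(hp k x).1, h.pow_iff x.1.2])) (by
    have h1 := h.pow_s x.1.2 1
    rw [mul_one, pow_one] at h1
    rw [(hp k x).2, h1, neg_one_mul])
  obtain ⟨e, he⟩ := exists_iso hr.emb ((rho T).comp (Subgroup.inclusion (inf_le_left : Cn T g ≤ On T))) hr.emb_inj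
    (rho_inj.comp (Subgroup.inclusion_injective _)) (Subgroup.ext fun σ => by
      rw [hr.mem_emb]
      constructor
      · intro hc
        obtain ⟨u, rfl⟩ := mem_rho (σ := σ) fun x => by
          rw [← hk, ← hk, ← Perm.mul_apply, ← Perm.mul_apply, (Commute.pow_right hc k).eq]
        rw [← map_mul, ← map_mul] at hc
        exact ⟨⟨u, mem_Cn.2 ⟨u.2, congrArg Subtype.val (rho_inj hc)⟩⟩, rfl⟩
      · rintro ⟨u, rfl⟩
        rw [MonoidHom.comp_apply, ← map_mul, ← map_mul]
        exact congrArg _ (Subtype.ext (mem_Cn.1 u.2).2))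
  refine ⟨_, inferInstance, ?_, e, fun v => ?_⟩
  · have h1 := hr.card
    rw [Nat.card_eq_fintype_card, Fintype.card_prod, Fintype.card_coe, Fintype.card_units_int] at h1
    linarith
  · rw [← hr.sign_emb (even_two_mul k), ← he]
    exact (sign_rho (Subgroup.inclusion (inf_le_left : Cn T g ≤ On T) (e v))).symm

/-- **types `B`, `C`, `D`** -/
theorem cenB [NeZero k] {η : ℤˣ} (h : Hm T g k η) (hk : Odd k ∨ η = -1) : ∃ (ι : Type) (_ : Fintype ι),
    Fintype.card ι * k = #T ∧ ∃ e : Wr (Cy (2 * k)) ι ≃* Cn T g, ∀ v, sgn (e v : SG n) = linW ι (sgA _) v := by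
  have h1 : Hm T (scl (-η) g) k (-1) := by
    have h2 := h.scl (-η)
    rcases Int.units_eq_one_or η with rfl | rfl
    · rwa [(hk.resolve_right (by decide)).neg_one_pow, mul_one] at h2
    · rwa [neg_neg, one_pow, one_mul] at h2
  have h2 := cenB' (cut_on h1.1) h1.cut
  rwa [Cn_cut, Cn_scl] at h2

/-- the permutation of `T` -/
def rhA (T : Finset (Fin n)) : On T →* Perm T where
  toFun h := h.1.π.subtypePerm (p := fun x => x ∈ T) (stab_on h.2)
  map_one' := rfl
  map_mul' _ _ := rfl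

/-- **types `A`, `²A`** -/
theorem cenA [NeZero k] (hT : Stab T g.π) (h : ∀ x ∈ T, #(cyc g.π x) = k) (hs : ∀ x ∈ T, ∀ y ∈ T, g.s x = g.s y) :
    ∃ (ι : Type) (_ : Fintype ι), Fintype.card ι * k = #T ∧ Nonempty (Wr (Cy k) ι ≃* (Cn T g ⊓ Ps n : Subgroup (SG n))) := by
  have hr : Reg (g.π.subtypePerm (p := fun x => x ∈ T) hT) k := reg_of fun x j => by
    rw [Perm.subtypePerm_pow g.π (p := fun x => x ∈ T) j hT, Subtype.ext_iff, ← h x x.2, ← Nat.modEq_zero_iff_dvd,
      ← pow_eq_iff]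
    rfl
  have le : Cn T g ⊓ Ps n ≤ On T := inf_le_left.trans inf_le_left
  obtain ⟨e, -⟩ := exists_iso hr.emb ((rhA T).comp (Subgroup.inclusion le)) hr.emb_inj
    (fun u v e => Subtype.ext (on_ext (le u.2) (le v.2) fun j hj =>
      ⟨congrArg Subtype.val (DFunLike.congr_fun e (⟨j, hj⟩ : T)), by rw [show u.1.s = 1 from u.2.2, show v.1.s = 1 from v.2.2]⟩))
    (Subgroup.ext fun σ => by
      rw [hr.mem_emb]
      constructor
      · intro hc
        have h1 : (⟨Perm.ofSubtype σ, 1⟩ : SG n) ∈ On T := fun _ hj => ⟨Perm.ofSubtype_apply_of_not_mem _ hj, rfl⟩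
        refine ⟨⟨_, mem_Cn.2 ⟨h1, comm_of_on hT h1 fun j hj => ⟨?_, ?_⟩⟩, rfl⟩, Perm.subtypePerm_ofSubtype σ⟩
        · have h2 := congrArg Subtype.val (DFunLike.congr_fun hc ⟨j, hj⟩)
          simp only [mul_π, Perm.mul_apply, Perm.ofSubtype_apply_of_mem σ hj, Perm.ofSubtype_apply_of_mem σ ((hT j).2 hj)]
          exact h2
        · simp only [mul_s, Pi.one_apply, one_mul, mul_one]
          exact hs _ hj _ ((stab_on h1 j).2 hj)
      · rintro ⟨u, rfl⟩
        exact Equiv.ext fun x => Subtype.ext (DFunLike.congr_fun (congrArg SG.π (mem_Cn.1 u.2.1).2) x.1))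
  exact ⟨_, inferInstance, hr.card.trans (by rw [Nat.card_eq_fintype_card, Fintype.card_coe]), ⟨e⟩⟩

end Cfsg.Agent.MO.Co
end

-- part: MO/Co/Two
section
/-!
# MO-Co: the characters of a subgroup of index two (helper23)

* `cj α` : the action of an automorphism on the irreducible characters;
* `two_dbl` : if `ψ` enumerates the characters of `G` and `ψ (T t) = ψ t * δ`, the characters of `ker δ` are labelled modulo `T`.
-/

set_option autoImplicit false
set_option linter.unusedSectionVars false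

namespace Cfsg.Agent.MO.Co

open Cfsg Finset Cfsg.Agent.Characters Cfsg.Agent.Characters.Core Cfsg.Agent.Characters.Clifford
open Cfsg.Agent.MO.Cb (Dbl)
open Cfsg.Agent.MO.W (Enum)
open scoped ComplexConjugate

variable {G H L : Type} [Group G] [Group H]

/-- the action of an isomorphism on the irreducible characters -/
def cj (α : H ≃* G) (η : IrrCharacter G) : IrrCharacter H := ⟨fun x => η.1 (α x), isIrr_comp (α : H →* G) α.surjective η.2⟩

theorem cj_apply (α : H ≃* G) (η : IrrCharacter G) (x : H) : (cj α η).1 x = η.1 (α x) := rfl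

/-- the bijection of the irreducible characters -/
def cjE (α : H ≃* G) : IrrCharacter G ≃ IrrCharacter H where
  toFun := cj α
  invFun := cj α.symm
  left_inv η := Subtype.ext (funext fun x => congrArg η.1 (α.apply_symm_apply x))
  right_inv η := Subtype.ext (funext fun x => congrArg η.1 (α.symm_apply_apply x))

theorem _root_.Cfsg.Agent.MO.Cb.Dbl.comp {X E E' : Type} {S : Set X} {T : X → X} {γ : E → E} {lab : E → X} {γ' : E' → E'}
    (h : Dbl S T γ lab) (e : E' ≃ E) (he : ∀ x, e (γ' x) = γ (e x)) : Dbl S T γ' fun x => lab (e x) where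
  inv := h.inv
  stab := h.stab
  invol x := e.injective (by rw [he, he, h.invol])
  mem x := h.mem _
  onto x hx := by
    obtain ⟨y, hy⟩ := h.onto x hx
    exact ⟨e.symm y, by rwa [e.apply_symm_apply]⟩
  fib x y := by rw [h.fib, ← he, e.injective.eq_iff, e.injective.eq_iff]
  fix x := by rw [← h.fix, ← he, e.injective.eq_iff]

section two

variable [Fintype G] (δ : G →* ℤˣ) {n : G}

theorem index_ker (hn : δ n = -1) : δ.ker.index = 2 := by
  rw [Subgroup.index_ker, MonoidHom.range_eq_top.2 fun u => ?_, Subgroup.card_top, Nat.card_eq_fintype_card,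
    Fintype.card_units_int]
  rcases Int.units_eq_one_or u with rfl | rfl
  exacts [⟨1, map_one δ⟩, ⟨n, hn⟩]

theorem inner_ker [Fintype δ.ker] (hn : δ n = -1) (χ χ' : G → ℂ) :
    classInner (fun x : δ.ker => χ x) (fun x : δ.ker => χ' x) =
      classInner χ χ' + classInner (fun x => χ x * ((δ x : ℤ) : ℂ)) χ' := by
  classical
  have h1 : (Nat.card G : ℂ) = Nat.card δ.ker * 2 := by
    rw [← δ.ker.card_mul_index, index_ker δ hn, Nat.cast_mul, Nat.cast_two]
  have h2 : (Nat.card δ.ker : ℂ) ≠ 0 := card_ne_zero_complex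
  rw [classInner_def, classInner_def, classInner_def, ← mul_add, ← sum_add_distrib,
    ← sum_subtype (univ.filter fun g => g ∈ δ.ker) (by simp) fun g => χ g * conj (χ' g), sum_filter, h1, mul_inv, mul_assoc,
    mul_sum _ _ (2 : ℂ)⁻¹]
  refine congrArg _ (sum_congr rfl fun g _ => ?_)
  rcases Int.units_eq_one_or (δ g) with h | h
  · rw [if_pos (show g ∈ δ.ker from h), h]
    simp only [Units.val_one, Int.cast_one]
    ring
  · rw [if_neg fun h' : g ∈ δ.ker => absurd (h.symm.trans h') (by decide), h]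
    simp

theorem inner_ne_zero {χ χ' θ : G → ℂ} (hχ : IsCharacter G χ) (hχ' : IsCharacter G χ') (hθ : IsIrrCharacter G θ)
    (h : classInner χ θ ≠ 0) (h' : classInner χ' θ ≠ 0) : classInner χ χ' ≠ 0 := by
  have := finite_irr (G := G)
  have := Fintype.ofFinite (IrrCharacter G)
  obtain ⟨a, rfl⟩ := exists_nat_comb hχ
  obtain ⟨b, rfl⟩ := exists_nat_comb hχ'
  rw [classInner_sum_nsmul_irr _ ⟨θ, hθ⟩] at h h'
  have h1 := classInner_sum_smul_sum_smul (fun ψ : IrrCharacter G => (a ψ : ℂ)) fun ψ => (b ψ : ℂ)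
  simp only [Nat.cast_smul_eq_nsmul, map_natCast, ← Nat.cast_mul, ← Nat.cast_sum] at h1
  rw [h1, Nat.cast_ne_zero]
  exact fun h2 => mul_ne_zero h h' (by exact_mod_cast sum_eq_zero_iff.1 h2 ⟨θ, hθ⟩ (mem_univ _))

theorem conj_cases (hn : δ n = -1) {η : δ.ker → ℂ} (hη : IsClassFunction δ.ker η) (g : G) :
    η ∘ (MulAut.conjNormal g : MulAut δ.ker) = η ∨
      η ∘ (MulAut.conjNormal g : MulAut δ.ker) = η ∘ (MulAut.conjNormal n : MulAut δ.ker) := by
  have k : ∀ (a : G) (ha : a ∈ δ.ker) (b : G), η ∘ (MulAut.conjNormal (a * b) : MulAut δ.ker) =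
      η ∘ (MulAut.conjNormal b : MulAut δ.ker) := fun a ha b => funext fun x => by
    rw [map_mul]
    exact (congrArg η (Subtype.ext rfl)).trans (hη (MulAut.conjNormal b x) ⟨a, ha⟩)
  rcases Int.units_eq_one_or (δ g) with h | h
  · exact Or.inl (by rw [← mul_one g, k g h, map_one]; rfl)
  · exact Or.inr (by rw [← inv_mul_cancel_right g n, k _ (by rw [MonoidHom.mem_ker, map_mul, map_inv, h, hn, mul_inv_cancel])])

/-- **index two** -/
theorem two_dbl_ker (hn : δ n = -1) {ψ : L → G → ℂ} (hψ : Enum ψ) {T : L → L}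
    (hT : ∀ t g, ψ (T t) g = ψ t g * ((δ g : ℤ) : ℂ)) :
    ∃ lab : IrrCharacter δ.ker → L, Dbl Set.univ T (cj (MulAut.conjNormal n)) lab ∧
      ∀ η, (T (lab η) ≠ lab η → ∀ x : δ.ker, ψ (lab η) x = η.1 x) ∧
        (T (lab η) = lab η → ψ (lab η) 1 = 2 * η.1 1) := by
  classical
  have := Fintype.ofFinite δ.ker
  have h0 : ∀ η : IrrCharacter δ.ker, ∃ t, classInner (fun x : δ.ker => ψ t x) η.1 ≠ 0 := fun η => by
    obtain ⟨χ, h1, h2⟩ := CharDeep.PowerDegrees.exists_irr_over δ.ker η.2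
    obtain ⟨t, rfl⟩ := hψ.surj χ h1
    exact ⟨t, h2⟩
  choose lab hl using h0
  have hc := fun t => isCharacter_restrict δ.ker (isIrr_isCharacter (hψ.irr t))
  have k0 : ∀ t, (fun x : δ.ker => ψ (T t) x) = fun x : δ.ker => ψ t x := fun t => funext fun x => by
    rw [hT, show δ x = 1 from x.2, Units.val_one, Int.cast_one, mul_one]
  have k1 : ∀ t t', classInner (fun x : δ.ker => ψ t x) (fun x : δ.ker => ψ t' x) =
      (if t = t' then 1 else 0) + if T t = t' then 1 else 0 := fun t t' => by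
    rw [inner_ker δ hn, ← funext (hT t), classInner_irr (hψ.irr _) (hψ.irr _), classInner_irr (hψ.irr _) (hψ.irr _),
      if_congr hψ.inj.eq_iff rfl rfl, if_congr hψ.inj.eq_iff rfl rfl]
  have k2 : ∀ η : IrrCharacter δ.ker, T (lab η) ≠ lab η → (fun x : δ.ker => ψ (lab η) x) = η.1 := fun η h => by
    by_contra h1
    exact hl η (classInner_irr_ne (isIrr_of_classInner_self (hc _) (by rw [k1, if_pos rfl, if_neg h, add_zero])) η.2 h1)
  have k3 : ∀ η : IrrCharacter δ.ker, T (lab η) = lab η → cj (MulAut.conjNormal n) η ≠ η ∧ ψ (lab η) 1 = 2 * η.1 1 := by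
    intro η h
    have h1 := k1 (lab η) (lab η)
    rw [if_pos rfl, if_pos h] at h1
    refine ⟨fun h2 => ?_, (H614.restrict_two _ (index_ker δ hn) (hψ.irr _) η.2 (hl η)).elim (fun h2 => ?_) And.left⟩
    · obtain ⟨S, h3, h4, h5⟩ := Blocks.PrimeNormal.restrict_eq δ.ker (hψ.irr _) η.2 (hl η)
      obtain ⟨e, he⟩ := classInner_isNat (hc (lab η)) (isIrr_isCharacter η.2)
      have h6 : S = {η} := (eq_singleton_iff_nonempty_unique_mem.2 ⟨card_pos.1 h3, fun x hx => by
        obtain ⟨g, hg⟩ := h4 x hx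
        exact Subtype.ext ((conj_cases δ hn (isIrr_isClassFunction η.2) g).elim hg.trans
          fun h7 => (hg.trans h7).trans (congrArg Subtype.val h2))⟩)
      rw [h5, he, h6, sum_singleton, classInner_smul_left, classInner_smul_right, classInner_irr_self η.2, map_natCast,
        mul_one] at h1
      have h7 : e * e = 1 + 1 := by exact_mod_cast h1
      rcases e with _ | _ | e <;> nlinarith only [h7]
    · rw [funext h2, classInner_irr_self η.2] at h1
      norm_num at h1
  have k4 : ∀ (η : IrrCharacter δ.ker) g, classInner (fun x : δ.ker => ψ (lab η) x) (cj (MulAut.conjNormal g) η).1 ≠ 0 :=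
    fun η g => (classInner_restrict_conjNormal (isIrr_isClassFunction (hψ.irr _)) η.1 g).trans_ne (hl η)
  have k5 : ∀ (η : IrrCharacter δ.ker) t, classInner (fun x : δ.ker => ψ t x) η.1 ≠ 0 → lab η = t ∨ lab η = T t := by
    intro η t h
    have h1 := inner_ne_zero (hc _) (hc _) η.2 h (hl η)
    by_contra h2
    rw [k1, if_neg fun e => h2 (Or.inl e.symm), if_neg fun e => h2 (Or.inr e.symm), add_zero] at h1
    exact h1 rfl
  refine ⟨lab, ⟨fun t _ => hψ.inj (funext fun g => ?_), fun _ _ => trivial, fun η => Subtype.ext (funext fun x => ?_),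
    fun _ => trivial, fun t _ => ?_, fun η η' => ⟨fun h => ?_, ?_⟩, fun η => ⟨fun h h1 => (k3 η h1).1 h, fun h => ?_⟩⟩,
    fun η => ⟨fun h => congrFun (k2 η h), fun h => (k3 η h).2⟩⟩
  · rw [hT, hT, mul_assoc, ← Int.cast_mul, ← Units.val_mul, Int.units_mul_self, Units.val_one, Int.cast_one, mul_one]
  · exact (congrArg η.1 (Subtype.ext (by simp only [mul_assoc, _root_.MulAut.conjNormal_apply, _root_.Subgroup.coe_mul, _root_.InvMemClass.coe_inv, _root_.mul_inv_rev]))).trans
      (isIrr_isClassFunction η.2 x ⟨n * n, by rw [MonoidHom.mem_ker, map_mul, Int.units_mul_self]⟩)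
  · by_contra h
    have := finite_irr (G := δ.ker)
    have := Fintype.ofFinite (IrrCharacter δ.ker)
    have h1 := congrFun (classFunction_eq_sum (isCharacter_isClassFunction (hc t))) 1
    rw [sum_eq_zero fun η _ => by rw [not_not.1 fun h2 => h ⟨η, k5 η t h2⟩, zero_smul]] at h1
    exact isIrr_apply_one_ne_zero (hψ.irr t) h1
  · obtain ⟨g, hg⟩ := exists_conj_of_constituents δ.ker (hψ.irr (lab η)) η.2 η'.2 (hl η)
      (h.elim (fun e => e ▸ hl η') fun e => k0 _ ▸ e ▸ hl η')
    exact (conj_cases δ hn (isIrr_isClassFunction η.2) g).imp (fun e => Subtype.ext (hg.trans e))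
      fun e => Subtype.ext (hg.trans e)
  · rintro (rfl | rfl)
    exacts [Or.inl rfl, k5 _ _ (k4 η n)]
  · exact Subtype.ext ((congrArg (· ∘ (MulAut.conjNormal n : MulAut δ.ker)) (k2 η h)).symm.trans
      ((restrict_comp_conjNormal (isIrr_isClassFunction (hψ.irr _)) n).trans (k2 η h)))

/-- **index two**, for an embedding -/
theorem two_dbl (hn : δ n = -1) {ψ : L → G → ℂ} (hψ : Enum ψ) {T : L → L}
    (hT : ∀ t g, ψ (T t) g = ψ t g * ((δ g : ℤ) : ℂ)) (f : H →* G) (hf : Function.Injective f) (hr : f.range = δ.ker)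
    (α : MulAut H) (hα : ∀ x, f (α x) = n * f x * n⁻¹) :
    ∃ lab : IrrCharacter H → L, Dbl Set.univ T (cj α) lab ∧
      ∀ η, (T (lab η) ≠ lab η → ∀ x, ψ (lab η) (f x) = η.1 x) ∧ (T (lab η) = lab η → ψ (lab η) 1 = 2 * η.1 1) := by
  obtain ⟨lab, h1, h2⟩ := two_dbl_ker δ hn hψ hT
  let e : H ≃* δ.ker := (MonoidHom.ofInjective hf).trans (MulEquiv.subgroupCongr hr)
  refine ⟨fun η => lab (cjE e.symm η), h1.comp _ fun η => Subtype.ext (funext fun x => congrArg η.1 (hf ?_)),
    fun η => ⟨fun h x => ((h2 _).1 h (e x)).trans (congrArg η.1 (e.symm_apply_apply x)),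
      fun h => ((h2 _).2 h).trans (congrArg (2 * η.1 ·) (map_one e.symm))⟩⟩
  have h3 : ∀ y, f (e.symm y) = y := fun y => congrArg Subtype.val (e.apply_symm_apply y)
  rw [hα, h3, h3]
  rfl

end two

end Cfsg.Agent.MO.Co
end

private theorem dce_162f70fc838a : _root_.True := by
  try have : _root_.True := by simp only [_root_.Cfsg.Agent.MO.J.YK._sparseCasesOn_1.else_eq]
  try have : _root_.True := by simp only [_root_.Cfsg.Agent.H577.GLB.Std.bsz.eq_1]
  try have : _root_.True := by simp only [_root_.Cfsg.Agent.MO.J.Gp.eq_3]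
  try have : _root_.True := by simp only [_root_.Cfsg.Agent.MO.Cls.okC.eq_1]
  try have : _root_.True := by simp only [_root_.Cfsg.Agent.MO.J.cas.eq_1]
  try have : _root_.True := by simp only [_root_.Cfsg.Agent.MO.Cls.sK.eq_2]
  try have : _root_.True := by simp only [_root_.Cfsg.Agent.MO.Cls.okX.eq_1]
  try have : _root_.True := by simp only [_root_.Cfsg.Agent.MO.W.chW.eq_1]
  try have : _root_.True := by simp only [_root_.Cfsg.Agent.MO.J.cas.eq_2]
  try have : _root_.True := by simp only [_root_.Cfsg.Agent.MO.Cls.sK.eq_1]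
  try have : _root_.True := by simp only [_root_.Cfsg.Agent.MO.J.Ok.eq_3]
  try have : _root_.True := by simp only [_root_.Cfsg.Agent.MO.W.lin.eq_1]
  try have : _root_.True := by simp only [_root_.Cfsg.Agent.MO.Cls.cA.eq_1]
  try have : _root_.True := by simp only [_root_.Cfsg.Agent.MO.Co.gn.eq_1]
  try have : _root_.True := by simp only [_root_.Cfsg.Agent.MO.Co.sgA.eq_1]
  try have : _root_.True := by simp only [_root_.Cfsg.Agent.MO.W.len.eq_1]
  try have : _root_.True := by simp only [_root_.Cfsg.Agent.MO.W.gp.eq_1]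
  try have : _root_.True := by simp only [_root_.Cfsg.Agent.MO.J.cas.eq_3]
  try have : _root_.True := by simp only [_root_.Cfsg.Agent.MO.W.part.eq_1]
  try have : _root_.True := by simp only [_root_.Cfsg.Agent.MO.W.Dv.eq_1]
  try have : _root_.True := by simp only [_root_.Cfsg.Agent.MO.W.ht.congr_simp]
  try have : _root_.True := by simp only [_root_.Cfsg.Agent.MO.Cls.rel.eq_1]
  try have : _root_.True := by simp only [_root_.Cfsg.Agent.MO.W.S.eq_1]
  try have : _root_.True := by simp only [_root_.Cfsg.Agent.MO.J.ps.eq_2]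
  try have : _root_.True := by simp only [_root_.Cfsg.Agent.MO.W.Pk.eq_1]
  try have : _root_.True := by simp only [_root_.Cfsg.Agent.MO.W.ht.eq_1]
  try have : _root_.True := by simp only [_root_.Cfsg.Agent.MO.Cls.sK._sparseCasesOn_1.else_eq]
  try have : _root_.True := by simp only [_root_.Cfsg.Agent.MO.Co.scl.eq_1]
  try have : _root_.True := by simp only [_root_.Cfsg.Agent.MO.Co.Reg.crd.congr_simp]
  try have : _root_.True := by simp only [_root_.Cfsg.Agent.MO.J.mv.eq_1]
  try have : _root_.True := by simp only [_root_.Cfsg.Agent.MO.J.Gp.eq_2]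
  try have : _root_.True := by simp only [_root_.Cfsg.Agent.MO.J.ps._sparseCasesOn_1.else_eq]
  try have : _root_.True := by simp only [_root_.Cfsg.Agent.MO.W.bil.eq_1]
  try have : _root_.True := by simp only [_root_.Cfsg.Agent.MO.J.Gp.eq_1]
  try have : _root_.True := by simp only [_root_.Cfsg.Agent.MO.W.EV.eq_1]
  try have : _root_.True := by simp only [_root_.Cfsg.Agent.MO.W.subE.eq_1]
  try have : _root_.True := by simp only [_root_.Cfsg.Agent.MO.W.pth.congr_simp]
  try have : _root_.True := by simp only [_root_.Cfsg.Agent.MO.J.Ok.eq_2]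
  try have : _root_.True := by simp only [_root_.Cfsg.Agent.MO.W.PP.eq_1]
  try have : _root_.True := by simp only [_root_.Cfsg.Agent.MO.W.u0.eq_1]
  try have : _root_.True := by simp only [_root_.Cfsg.Agent.MO.W.EV.congr_simp]
  try have : _root_.True := by simp only [_root_.Cfsg.Agent.MO.J.Ok.eq_1]
  try have : _root_.True := by simp only [_root_.Cfsg.Agent.MO.W.nf.eq_1]
  try have : _root_.True := by simp only [_root_.Cfsg.Agent.MO.W.dz.eq_1]
  try have : _root_.True := by simp only [_root_.Cfsg.Agent.MO.Cls.sK.eq_3]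
  try have : _root_.True := by simp only [_root_.Cfsg.Agent.MO.W.psi.congr_simp]
  try have : _root_.True := by simp only [_root_.Cfsg.Agent.MO.W.nf.congr_simp]
  try have : _root_.True := by simp only [_root_.Cfsg.Agent.MO.W.ent.eq_1]
  try have : _root_.True := by simp only [_root_.Cfsg.Agent.MO.Co.Cn.eq_1]
  try have : _root_.True := by simp only [_root_.Cfsg.Agent.MO.J.ps.eq_1]
  try have : _root_.True := by simp only [_root_.Cfsg.Agent.MO.W.Sp.eq_1]
  try have : _root_.True := by simp only [_root_.Cfsg.Agent.H614.vac.eq_1]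
  try have : _root_.True := by simp only [_root_.Cfsg.Agent.MO.W.part.congr_simp]
  try have : _root_.True := by simp only [_root_.Cfsg.Agent.MO.W.uE.eq_1]
  try have : _root_.True := by simp only [_root_.Cfsg.Agent.MO.J.dn.eq_1]
  try have : _root_.True := by simp only [_root_.Cfsg.Agent.MO.J.Ok._sparseCasesOn_1.else_eq]
  try have : _root_.True := by simp only [_root_.Cfsg.Agent.MO.W.chx.eq_1]
  try have : _root_.True := by simp only [_root_.Cfsg.Agent.MO.W.pth.eq_1]
  try have : _root_.True := by simp only [_root_.Cfsg.Agent.MO.W.Nf.eq_1]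
  try have : _root_.True := by simp only [_root_.Cfsg.Agent.MO.W.mono.eq_1]
  try have : _root_.True := by simp only [_root_.Cfsg.Agent.MO.W.HS.eq_1]
  try have : _root_.True := by simp only [_root_.Cfsg.Agent.MO.W.chW.congr_simp]
  try have : _root_.True := by simp only [_root_.Cfsg.Agent.MO.Co.cut.congr_simp]
  exact _root_.True.intro
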